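import Mathlib

/-!
# Helper11: PIECES CASE1 (and shared tools) of CALL S0984 (helper82).
-/

set_option autoImplicit false
set_option linter.style.haveILetI false

universe u

namespace Cfsg.Agent.Helper11

/-- a Sylow 3-subgroup of a group of order 2520 has order 9 -/
theorem a7_sylow3_card {G : Type u} [Group G] [Finite G]
    (hG : Nat.card G = 2520) (P : Sylow 3 G) : Nat.card (P : Subgroup G) = 9 := by
  haveI : Fact (Nat.Prime 3) := ⟨by norm_num⟩
  rw [Sylow.card_eq_multiplicity, hG, Nat.factorization_def _ (by norm_num : Nat.Prime 3)]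
  have h : (2520 : ℕ) = 3 ^ 2 * 280 := by norm_num
  rw [h, padicValNat.mul (by norm_num) (by norm_num), padicValNat.prime_pow,
    padicValNat.eq_zero_of_not_dvd (by norm_num)]
  norm_num

/-- a Sylow `p`-subgroup contained in the normalizer of a Sylow `p`-subgroup `P` is `P` -/
theorem a7_sylow_le_normalizer {G : Type u} [Group G] [Finite G] {p : ℕ} [Fact p.Prime]
    (P Q : Sylow p G) (h : (Q : Subgroup G) ≤ Subgroup.normalizer ((P : Subgroup G) : Set G)) :
    Q = P := by
  have h4 := IsPGroup.to_sup_of_normal_right' Q.isPGroup' P.isPGroup' h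
  have h5 : (Q : Subgroup G) ⊔ (P : Subgroup G) = P := P.is_maximal' h4 le_sup_right
  have h6 : (Q : Subgroup G) ≤ P := by rw [← h5]; exact le_sup_left
  exact Sylow.ext (Q.is_maximal' P.isPGroup' h6).symm

/-- if all elements of a subgroup `K` conjugate `x` into `⟨x⟩`, then `K ≤ N(⟨x⟩)` -/
theorem a7_le_normalizer_zpowers {G : Type u} [Group G] (K : Subgroup G) (x : G)
    (h : ∀ n ∈ K, n * x * n⁻¹ ∈ Subgroup.zpowers x) :
    K ≤ Subgroup.normalizer ((Subgroup.zpowers x : Subgroup G) : Set G) := by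
  have key : ∀ n ∈ K, ∀ y ∈ Subgroup.zpowers x, n * y * n⁻¹ ∈ Subgroup.zpowers x := by
    intro n hn y hy
    obtain ⟨k, rfl⟩ := Subgroup.mem_zpowers_iff.mp hy
    have h3 : n * x ^ k * n⁻¹ = (n * x * n⁻¹) ^ k := by rw [conj_zpow]
    rw [h3]
    exact Subgroup.zpow_mem _ (h n hn) k
  intro n hn
  rw [Subgroup.mem_normalizer_iff]
  intro y
  constructor
  · exact key n hn y
  · intro hy
    have := key n⁻¹ (K.inv_mem hn) _ hy
    have e : n⁻¹ * (n * y * n⁻¹) * n⁻¹⁻¹ = y := by group
    rw [e] at this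
    exact this

/-- PIECE CASE1 -/
theorem a7_case1 {G : Type u} [Group G] [Finite G] [IsSimpleGroup G]
    (hG : Nat.card G = 2520) (P Q : Sylow 3 G)
    (hOV : ∀ H : Subgroup G, Subgroup.normalizer ((P : Subgroup G) : Set G) ≤ H →
      ¬ H ≤ Subgroup.normalizer ((P : Subgroup G) : Set G) → H ≠ ⊤ → H.index = 7)
    (hQ : Q ≠ P) (x : G) (hxP : x ∈ (P : Subgroup G)) (hxQ : x ∈ (Q : Subgroup G))
    (hx : orderOf x = 3)
    (hnorm : ∀ n ∈ Subgroup.normalizer ((P : Subgroup G) : Set G),
      n * x * n⁻¹ ∈ Subgroup.zpowers x) :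
    ∃ H : Subgroup G, H.index = 7 := by
  haveI : Fact (Nat.Prime 3) := ⟨by norm_num⟩
  have hQ9 : Nat.card (Q : Subgroup G) = 3 ^ 2 := by rw [a7_sylow3_card hG Q]; norm_num
  have hQcomm : ∀ a b : (Q : Subgroup G), a * b = b * a := by
    have := IsPGroup.isMulCommutative_of_card_eq_prime_sq hQ9
    exact fun a b => mul_comm' a b
  have hNH := a7_le_normalizer_zpowers (Subgroup.normalizer ((P : Subgroup G) : Set G)) x hnorm
  have hQH : (Q : Subgroup G) ≤ Subgroup.normalizer ((Subgroup.zpowers x : Subgroup G) : Set G) := by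
    apply a7_le_normalizer_zpowers
    intro q hq
    have h1 := hQcomm ⟨q, hq⟩ ⟨x, hxQ⟩
    have h2 : q * x = x * q := congrArg Subtype.val h1
    have h3 : q * x * q⁻¹ = x := by rw [h2]; group
    rw [h3]
    exact Subgroup.mem_zpowers x
  refine ⟨Subgroup.normalizer ((Subgroup.zpowers x : Subgroup G) : Set G), ?_⟩
  apply hOV _ hNH
  · intro hle
    exact hQ (a7_sylow_le_normalizer P Q (hQH.trans hle))
  · intro htop
    have hnormal : (Subgroup.zpowers x).Normal := Subgroup.normalizer_eq_top_iff.mp htop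
    rcases hnormal.eq_bot_or_eq_top with h | h
    · have : x = 1 := by
        have := Subgroup.mem_zpowers x
        rw [h, Subgroup.mem_bot] at this
        exact this
      rw [this, orderOf_one] at hx
      omega
    · have h1 : Nat.card (Subgroup.zpowers x) = 3 := by rw [Nat.card_zpowers, hx]
      rw [h, Subgroup.card_top, hG] at h1
      omega

end Cfsg.Agent.Helper11
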