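import Mathlib
import Cfsg.Agent.Helper11.A7CASE1

/-!
# Helper11: PIECE CN (and shared tools) of CALL S0984 (helper82).
-/

set_option autoImplicit false
set_option linter.style.haveILetI false

universe u

namespace Cfsg.Agent.Helper11

/-- `|N(P)| = 36` when `n_3 = 70`, `|G| = 2520` -/
theorem a7_normalizer_card {G : Type u} [Group G] [Finite G]
    (hG : Nat.card G = 2520) (h70 : Nat.card (Sylow 3 G) = 70) (P : Sylow 3 G) :
    Nat.card (Subgroup.normalizer ((P : Subgroup G) : Set G)) = 36 := by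
  haveI : Fact (Nat.Prime 3) := ⟨by norm_num⟩
  have hNidx : (Subgroup.normalizer ((P : Subgroup G) : Set G)).index = 70 := by
    rw [← h70]
    exact (Sylow.card_eq_index_normalizer P).symm
  have := (Subgroup.normalizer ((P : Subgroup G) : Set G)).card_mul_index
  rw [hNidx, hG] at this
  omega

/-- a Sylow 3-subgroup of order 9 is abelian -/
theorem a7_sylow3_comm {G : Type u} [Group G] [Finite G]
    (hG : Nat.card G = 2520) (P : Sylow 3 G) (a b : G) (ha : a ∈ (P : Subgroup G))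
    (hb : b ∈ (P : Subgroup G)) : a * b = b * a := by
  haveI : Fact (Nat.Prime 3) := ⟨by norm_num⟩
  have hP9 : Nat.card (P : Subgroup G) = 3 ^ 2 := by rw [a7_sylow3_card hG P]; norm_num
  have := IsPGroup.isMulCommutative_of_card_eq_prime_sq hP9
  have h1 := mul_comm' (⟨a, ha⟩ : (P : Subgroup G)) ⟨b, hb⟩
  exact congrArg Subtype.val h1

/-- `P ≤ C(P)` -/
theorem a7_le_centralizer {G : Type u} [Group G] [Finite G]
    (hG : Nat.card G = 2520) (P : Sylow 3 G) :
    (P : Subgroup G) ≤ Subgroup.centralizer ((P : Subgroup G) : Set G) := by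
  intro a ha
  rw [Subgroup.mem_centralizer_iff]
  intro b hb
  exact a7_sylow3_comm hG P b a hb ha

/-- `C(P) = P` when `|C(P)| = 9` -/
theorem a7_centralizer_eq {G : Type u} [Group G] [Finite G]
    (hG : Nat.card G = 2520) (P : Sylow 3 G)
    (hCP : Nat.card (Subgroup.centralizer ((P : Subgroup G) : Set G)) = 9) :
    Subgroup.centralizer ((P : Subgroup G) : Set G) = (P : Subgroup G) := by
  symm
  apply Subgroup.eq_of_le_of_card_ge (a7_le_centralizer hG P)
  rw [hCP, a7_sylow3_card hG P]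

/-- commutators of `N(P)` lie in `P` (`N(P)/P` has order 4) -/
theorem a7_comm_mem {G : Type u} [Group G] [Finite G]
    (hG : Nat.card G = 2520) (h70 : Nat.card (Sylow 3 G) = 70) (P : Sylow 3 G)
    (a b : G) (ha : a ∈ Subgroup.normalizer ((P : Subgroup G) : Set G))
    (hb : b ∈ Subgroup.normalizer ((P : Subgroup G) : Set G)) :
    a * b * a⁻¹ * b⁻¹ ∈ (P : Subgroup G) := by
  haveI : Fact (Nat.Prime 2) := ⟨by norm_num⟩
  have hN := a7_normalizer_card hG h70 P
  have hP := a7_sylow3_card hG P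
  have hrel : (P : Subgroup G).relIndex (Subgroup.normalizer ((P : Subgroup G) : Set G)) = 4 := by
    have h2 := Subgroup.relIndex_mul_relIndex ⊥ (P : Subgroup G)
      (Subgroup.normalizer ((P : Subgroup G) : Set G)) bot_le Subgroup.le_normalizer
    rw [Subgroup.relIndex_bot_left, Subgroup.relIndex_bot_left, hP, hN] at h2
    omega
  haveI hnorm : ((P : Subgroup G).subgroupOf
      (Subgroup.normalizer ((P : Subgroup G) : Set G))).Normal := Subgroup.normal_in_normalizer
  have hcardQ : Nat.card ((Subgroup.normalizer ((P : Subgroup G) : Set G)) ⧸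
      ((P : Subgroup G).subgroupOf (Subgroup.normalizer ((P : Subgroup G) : Set G)))) = 2 ^ 2 := by
    rw [← Subgroup.index_eq_card]
    exact hrel
  have hcomm := IsPGroup.isMulCommutative_of_card_eq_prime_sq hcardQ
  have h1 := mul_comm'
    (QuotientGroup.mk (s := (P : Subgroup G).subgroupOf
      (Subgroup.normalizer ((P : Subgroup G) : Set G))) ⟨a, ha⟩)
    (QuotientGroup.mk (s := (P : Subgroup G).subgroupOf
      (Subgroup.normalizer ((P : Subgroup G) : Set G))) ⟨b, hb⟩)
  have h2 : (QuotientGroup.mk (s := (P : Subgroup G).subgroupOf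
      (Subgroup.normalizer ((P : Subgroup G) : Set G)))
      ((⟨a, ha⟩ : Subgroup.normalizer ((P : Subgroup G) : Set G)) * ⟨b, hb⟩ * ⟨a, ha⟩⁻¹ * ⟨b, hb⟩⁻¹))
      = 1 := by
    rw [QuotientGroup.mk_mul, QuotientGroup.mk_mul, QuotientGroup.mk_mul, QuotientGroup.mk_inv,
      QuotientGroup.mk_inv, h1]
    group
  rw [QuotientGroup.eq_one_iff, Subgroup.mem_subgroupOf] at h2
  exact h2

/-- PIECE CN -/
theorem a7_cent_norm {G : Type u} [Group G] [Finite G]
    (hG : Nat.card G = 2520) (h70 : Nat.card (Sylow 3 G) = 70) (P : Sylow 3 G)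
    (hCP : Nat.card (Subgroup.centralizer ((P : Subgroup G) : Set G)) = 9)
    (x : G) (hxP : x ∈ (P : Subgroup G)) (hx : orderOf x = 3)
    (n : G) (hn : n ∈ Subgroup.normalizer ((P : Subgroup G) : Set G))
    (hnx : n * x * n⁻¹ ∉ Subgroup.zpowers x)
    (m : G) (hm : m ∈ Subgroup.normalizer ((P : Subgroup G) : Set G)) (hmx : m * x = x * m) :
    m ∈ (P : Subgroup G) := by
  have hP := a7_sylow3_card hG P
  have hyP : n * x * n⁻¹ ∈ (P : Subgroup G) := (Subgroup.mem_normalizer_iff.mp hn x).mp hxP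
  have hpP := a7_comm_mem hG h70 P n m hn hm
  -- `y = n x n⁻¹` commutes with `m`
  have hym : m * (n * x * n⁻¹) = (n * x * n⁻¹) * m := by
    have h1 : (n * m * n⁻¹ * m⁻¹) * (n * x * n⁻¹) = (n * x * n⁻¹) * (n * m * n⁻¹ * m⁻¹) :=
      a7_sylow3_comm hG P _ _ hpP hyP
    have h2 : (n * m * n⁻¹) * (n * x * n⁻¹) = (n * x * n⁻¹) * (n * m * n⁻¹) := by
      have e1 : (n * m * n⁻¹) * (n * x * n⁻¹) = n * (m * x) * n⁻¹ := by group
      have e2 : (n * x * n⁻¹) * (n * m * n⁻¹) = n * (x * m) * n⁻¹ := by group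
      rw [e1, e2, hmx]
    -- n m n⁻¹ = p m
    have h3 : n * m * n⁻¹ = (n * m * n⁻¹ * m⁻¹) * m := by group
    rw [h3] at h2
    -- p m y = y p m = p y m
    have h4 : (n * m * n⁻¹ * m⁻¹) * (m * (n * x * n⁻¹))
        = (n * m * n⁻¹ * m⁻¹) * ((n * x * n⁻¹) * m) := by
      calc (n * m * n⁻¹ * m⁻¹) * (m * (n * x * n⁻¹))
          = (n * m * n⁻¹ * m⁻¹) * m * (n * x * n⁻¹) := (mul_assoc _ _ _).symm
        _ = (n * x * n⁻¹) * ((n * m * n⁻¹ * m⁻¹) * m) := h2
        _ = ((n * x * n⁻¹) * (n * m * n⁻¹ * m⁻¹)) * m := (mul_assoc _ _ _).symm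
        _ = ((n * m * n⁻¹ * m⁻¹) * (n * x * n⁻¹)) * m := by rw [h1]
        _ = (n * m * n⁻¹ * m⁻¹) * ((n * x * n⁻¹) * m) := mul_assoc _ _ _
    exact mul_left_cancel h4
  -- the subgroup `K = P ⊓ C(m)`
  have hxK : x ∈ (P : Subgroup G) ⊓ Subgroup.centralizer ({m} : Set G) :=
    Subgroup.mem_inf.mpr ⟨hxP, Subgroup.mem_centralizer_singleton_iff.mpr hmx.symm⟩
  have hyK : n * x * n⁻¹ ∈ (P : Subgroup G) ⊓ Subgroup.centralizer ({m} : Set G) :=
    Subgroup.mem_inf.mpr ⟨hyP, Subgroup.mem_centralizer_singleton_iff.mpr hym.symm⟩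
  have hzK : Subgroup.zpowers x ≤ (P : Subgroup G) ⊓ Subgroup.centralizer ({m} : Set G) :=
    Subgroup.zpowers_le.mpr hxK
  have hz3 : Nat.card (Subgroup.zpowers x) = 3 := by rw [Nat.card_zpowers, hx]
  have hd1 : 3 ∣ Nat.card ((P : Subgroup G) ⊓ Subgroup.centralizer ({m} : Set G) : Subgroup G) := by
    have := Subgroup.card_dvd_of_le hzK
    rwa [hz3] at this
  have hd2 : Nat.card ((P : Subgroup G) ⊓ Subgroup.centralizer ({m} : Set G) : Subgroup G) ∣ 9 := by
    have := Subgroup.card_dvd_of_le (inf_le_left : (P : Subgroup G) ⊓ Subgroup.centralizer ({m} : Set G) ≤ (P : Subgroup G))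
    rwa [hP] at this
  have hK9 : Nat.card ((P : Subgroup G) ⊓ Subgroup.centralizer ({m} : Set G) : Subgroup G) = 9 := by
    have hle := Nat.le_of_dvd (by norm_num) hd2
    by_contra hne
    have h3 : Nat.card ((P : Subgroup G) ⊓ Subgroup.centralizer ({m} : Set G) : Subgroup G) = 3 := by
      generalize Nat.card ((P : Subgroup G) ⊓ Subgroup.centralizer ({m} : Set G) : Subgroup G) = k
        at hd1 hd2 hle hne
      interval_cases k <;> omega
    have h4 : Subgroup.zpowers x = (P : Subgroup G) ⊓ Subgroup.centralizer ({m} : Set G) :=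
      Subgroup.eq_of_le_of_card_ge hzK (by rw [h3, hz3])
    apply hnx
    rw [h4]
    exact hyK
  have hKP : (P : Subgroup G) ⊓ Subgroup.centralizer ({m} : Set G) = (P : Subgroup G) :=
    Subgroup.eq_of_le_of_card_ge inf_le_left (by rw [hK9, hP])
  have hmC : m ∈ Subgroup.centralizer ((P : Subgroup G) : Set G) := by
    rw [Subgroup.mem_centralizer_iff]
    intro g hg
    have hg' : g ∈ (P : Subgroup G) ⊓ Subgroup.centralizer ({m} : Set G) := by rw [hKP]; exact hg
    exact Subgroup.mem_centralizer_singleton_iff.mp (Subgroup.mem_inf.mp hg').2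
  rw [a7_centralizer_eq hG P hCP] at hmC
  exact hmC

end Cfsg.Agent.Helper11
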