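import Mathlib
import Cfsg.Agent.Helper11.A7CN

/-!
# Helper11: PIECE INV of CALL S0984 (helper82).

If `C(P) = P` for a Sylow 3-subgroup `P` (of order 9, with normalizer of order 36), then some
involution of `N(P)` inverts `P`.
-/

set_option autoImplicit false
set_option linter.style.haveILetI false

universe u

namespace Cfsg.Agent.Helper11

/-- elements of a subgroup of order 3 -/
theorem a7_card_three_cases {G : Type u} [Group G] (S : Subgroup G) (hS : Nat.card S = 3)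
    (f g : G) (hf : f ∈ S) (hf1 : f ≠ 1) (hg : g ∈ S) (hg1 : g ≠ 1) : g = f ∨ g = f⁻¹ := by
  haveI : Fact (Nat.Prime 3) := ⟨by norm_num⟩
  have hf' : (⟨f, hf⟩ : S) ≠ 1 := fun h => hf1 (congrArg Subtype.val h)
  have hmem : (⟨g, hg⟩ : S) ∈ Subgroup.zpowers (⟨f, hf⟩ : S) := mem_zpowers_of_prime_card hS hf'
  obtain ⟨k, hk⟩ := Subgroup.mem_zpowers_iff.mp hmem
  have hk' : f ^ k = g := by
    have := congrArg Subtype.val hk
    simpa using this
  have hf3 : f ^ 3 = 1 := by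
    have h1 : (⟨f, hf⟩ : S) ^ Nat.card S = 1 := pow_card_eq_one'
    rw [hS] at h1
    have := congrArg Subtype.val h1
    simpa using this
  have hf3' : f ^ (3 : ℤ) = 1 := by
    have : f ^ ((3 : ℕ) : ℤ) = 1 := by rw [zpow_natCast]; exact hf3
    simpa using this
  have hmod : f ^ k = f ^ (k % 3) := by
    conv_lhs => rw [← Int.emod_add_mul_ediv k 3]
    rw [zpow_add, zpow_mul, hf3', one_zpow, mul_one]
  have h0 := Int.emod_nonneg k (by norm_num : (3 : ℤ) ≠ 0)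
  have h3 := Int.emod_lt_of_pos k (by norm_num : (0 : ℤ) < 3)
  rw [hmod] at hk'
  generalize k % 3 = r at hk' h0 h3
  interval_cases r
  · exfalso
    apply hg1
    rw [← hk', zpow_zero]
  · left
    rw [← hk', zpow_one]
  · right
    rw [← hk']
    apply eq_inv_of_mul_eq_one_left
    have h2 : f ^ (2 : ℤ) = f ^ 2 := zpow_natCast f 2
    rw [h2, ← pow_succ]
    exact hf3

/-- the elements of `P` inverted by `n` -/
def a7InvSub {G : Type u} [Group G] (P : Subgroup G)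
    (hcomm : ∀ a ∈ P, ∀ b ∈ P, a * b = b * a) (n : G) : Subgroup G where
  carrier := {y | y ∈ P ∧ n * y * n⁻¹ = y⁻¹}
  one_mem' := ⟨P.one_mem, by group⟩
  mul_mem' := by
    rintro x y ⟨hx, hx'⟩ ⟨hy, hy'⟩
    refine ⟨P.mul_mem hx hy, ?_⟩
    calc n * (x * y) * n⁻¹ = (n * x * n⁻¹) * (n * y * n⁻¹) := by group
      _ = x⁻¹ * y⁻¹ := by rw [hx', hy']
      _ = (y * x)⁻¹ := by group
      _ = (x * y)⁻¹ := by rw [hcomm y hy x hx]
  inv_mem' := by
    rintro x ⟨hx, hx'⟩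
    refine ⟨P.inv_mem hx, ?_⟩
    calc n * x⁻¹ * n⁻¹ = (n * x * n⁻¹)⁻¹ := by group
      _ = x⁻¹⁻¹ := by rw [hx']

theorem a7_mem_invSub {G : Type u} [Group G] (P : Subgroup G)
    (hcomm : ∀ a ∈ P, ∀ b ∈ P, a * b = b * a) (n y : G) :
    y ∈ a7InvSub P hcomm n ↔ y ∈ P ∧ n * y * n⁻¹ = y⁻¹ := Iff.rfl

theorem a7_invSub_le {G : Type u} [Group G] (P : Subgroup G)
    (hcomm : ∀ a ∈ P, ∀ b ∈ P, a * b = b * a) (n : G) : a7InvSub P hcomm n ≤ P :=
  fun _ hy => hy.1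

/-- the sign lemma: commuting `τ`, `a` normalizing the abelian group `P` of order 9 with
`C(P) = P`, `τ² = 1`, and `τ`, `a`, `a τ` outside `P`: one of `τ`, `a`, `a τ` inverts `P`. -/
theorem a7_sign {G : Type u} [Group G] [Finite G] (P : Subgroup G)
    (hP : Nat.card P = 9)
    (hcomm : ∀ a ∈ P, ∀ b ∈ P, a * b = b * a)
    (hcent : ∀ g : G, (∀ y ∈ P, g * y * g⁻¹ = y) → g ∈ P)
    (τ a : G) (hτn : ∀ y ∈ P, τ * y * τ⁻¹ ∈ P) (han : ∀ y ∈ P, a * y * a⁻¹ ∈ P)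
    (hτ2 : τ * τ = 1) (hτP : τ ∉ P) (haτ : a * τ = τ * a) (haP : a ∉ P) (haτP : a * τ ∉ P) :
    (∀ y ∈ P, τ * y * τ⁻¹ = y⁻¹) ∨ (∀ y ∈ P, a * y * a⁻¹ = y⁻¹) ∨
      (∀ y ∈ P, (a * τ) * y * (a * τ)⁻¹ = y⁻¹) := by
  by_cases hinv : ∀ y ∈ P, τ * y * τ⁻¹ = y⁻¹
  · exact Or.inl hinv
  right
  have hτinv : τ⁻¹ = τ := inv_eq_of_mul_eq_one_left hτ2
  -- odd order: `y * y = 1 → y = 1` in `P`
  have hodd : ∀ y ∈ P, y * y = 1 → y = 1 := by
    intro y hy h2
    have h9 : y ^ 9 = 1 := by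
      have h1 : (⟨y, hy⟩ : P) ^ Nat.card P = 1 := pow_card_eq_one'
      rw [hP] at h1
      have := congrArg Subtype.val h1
      simpa using this
    have h2' : y ^ 2 = 1 := by rw [pow_two]; exact h2
    calc y = y ^ 9 * ((y ^ 2) ^ 4)⁻¹ := by group
      _ = 1 := by rw [h9, h2']; group
  -- a nontrivial element fixed by `τ`
  push Not at hinv
  obtain ⟨y0, hy0, hy0'⟩ := hinv
  obtain ⟨f, hfP, hf1, hfτ⟩ : ∃ f, f ∈ P ∧ f ≠ 1 ∧ τ * f * τ⁻¹ = f := by
    refine ⟨y0 * (τ * y0 * τ⁻¹), P.mul_mem hy0 (hτn y0 hy0), ?_, ?_⟩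
    · intro h
      exact hy0' (eq_inv_of_mul_eq_one_right h)
    · calc τ * (y0 * (τ * y0 * τ⁻¹)) * τ⁻¹ = (τ * y0 * τ⁻¹) * ((τ * τ) * y0 * (τ * τ)⁻¹) := by
            group
        _ = (τ * y0 * τ⁻¹) * y0 := by rw [hτ2]; group
        _ = y0 * (τ * y0 * τ⁻¹) := hcomm _ (hτn y0 hy0) _ hy0
  -- a nontrivial element inverted by `τ`
  have hnc : ¬ ∀ y ∈ P, τ * y * τ⁻¹ = y := fun h => hτP (hcent τ h)
  push Not at hnc
  obtain ⟨y1, hy1, hy1'⟩ := hnc
  obtain ⟨i, hiP, hi1, hiτ⟩ : ∃ i, i ∈ P ∧ i ≠ 1 ∧ τ * i * τ⁻¹ = i⁻¹ := by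
    refine ⟨y1 * (τ * y1 * τ⁻¹)⁻¹, P.mul_mem hy1 (P.inv_mem (hτn y1 hy1)), ?_, ?_⟩
    · intro h
      apply hy1'
      have := eq_of_mul_inv_eq_one h
      exact this.symm
    · calc τ * (y1 * (τ * y1 * τ⁻¹)⁻¹) * τ⁻¹ = (τ * y1 * τ⁻¹) * ((τ * τ) * y1 * (τ * τ)⁻¹)⁻¹ := by
            group
        _ = (τ * y1 * τ⁻¹) * y1⁻¹ := by rw [hτ2]; group
        _ = (y1 * (τ * y1 * τ⁻¹)⁻¹)⁻¹ := by group
  -- subgroups of `P` other than `⊥`, `P` have order 3
  have hcard3 : ∀ S : Subgroup G, S ≤ P → S ≠ ⊥ → S ≠ P → Nat.card S = 3 := by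
    intro S hSP hbot hne
    have hdvd : Nat.card S ∣ 9 := by
      have := Subgroup.card_dvd_of_le hSP
      rwa [hP] at this
    have hle := Nat.le_of_dvd (by norm_num) hdvd
    have h1 : Nat.card S ≠ 1 := fun h => hbot (Subgroup.eq_bot_of_card_eq S h)
    have h9 : Nat.card S ≠ 9 := fun h => hne (Subgroup.eq_of_le_of_card_ge hSP (by rw [h, hP]))
    generalize Nat.card S = k at hdvd hle h1 h9
    interval_cases k <;> omega
  -- generation: a subgroup of `P` containing `f` and `i` is `P`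
  have hgen : ∀ S : Subgroup G, S ≤ P → f ∈ S → i ∈ S → S = P := by
    intro S hSP hfS hiS
    by_contra hne
    have hbot : S ≠ ⊥ := by
      intro h
      rw [h, Subgroup.mem_bot] at hfS
      exact hf1 hfS
    have h3 := hcard3 S hSP hbot hne
    haveI : Fact (Nat.Prime 3) := ⟨by norm_num⟩
    have hf' : (⟨f, hfS⟩ : S) ≠ 1 := fun h => hf1 (congrArg Subtype.val h)
    have hmem : (⟨i, hiS⟩ : S) ∈ Subgroup.zpowers (⟨f, hfS⟩ : S) :=
      mem_zpowers_of_prime_card h3 hf'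
    obtain ⟨k, hk⟩ := Subgroup.mem_zpowers_iff.mp hmem
    have hk' : f ^ k = i := by
      have := congrArg Subtype.val hk
      simpa using this
    have hfix : τ * i * τ⁻¹ = i := by
      rw [← hk', ← conj_zpow, hfτ]
    rw [hiτ] at hfix
    apply hi1
    apply hodd i hiP
    calc i * i = i⁻¹ * i := by rw [hfix]
      _ = 1 := inv_mul_cancel i
  -- the fixed points of `n` in `P`
  have hFmem : ∀ n y : G, y ∈ P ⊓ Subgroup.centralizer ({n} : Set G) ↔
      y ∈ P ∧ n * y * n⁻¹ = y := by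
    intro n y
    rw [Subgroup.mem_inf, Subgroup.mem_centralizer_singleton_iff]
    constructor
    · rintro ⟨h1, h2⟩
      exact ⟨h1, by rw [← h2]; group⟩
    · rintro ⟨h1, h2⟩
      refine ⟨h1, ?_⟩
      calc y * n = (n * y * n⁻¹) * n := by rw [h2]
        _ = n * y := by group
  have hfF : f ∈ P ⊓ Subgroup.centralizer ({τ} : Set G) := (hFmem τ f).mpr ⟨hfP, hfτ⟩
  have hiI : i ∈ a7InvSub P hcomm τ := (a7_mem_invSub P hcomm τ i).mpr ⟨hiP, hiτ⟩
  have hF3 : Nat.card (P ⊓ Subgroup.centralizer ({τ} : Set G) : Subgroup G) = 3 := by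
    apply hcard3 _ inf_le_left
    · intro h
      rw [h, Subgroup.mem_bot] at hfF
      exact hf1 hfF
    · intro heq
      apply hτP
      apply hcent
      intro y hy
      have hy' : y ∈ P ⊓ Subgroup.centralizer ({τ} : Set G) := by rw [heq]; exact hy
      exact ((hFmem τ y).mp hy').2
  have hI3 : Nat.card (a7InvSub P hcomm τ) = 3 := by
    apply hcard3 _ (a7_invSub_le P hcomm τ)
    · intro h
      rw [h, Subgroup.mem_bot] at hiI
      exact hi1 hiI
    · intro heq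
      apply hy0'
      have hy' : y0 ∈ a7InvSub P hcomm τ := by rw [heq]; exact hy0
      exact ((a7_mem_invSub P hcomm τ y0).mp hy').2
  -- action of `a` on `f` and `i`
  have haf : a * f * a⁻¹ = f ∨ a * f * a⁻¹ = f⁻¹ := by
    apply a7_card_three_cases _ hF3 f (a * f * a⁻¹) hfF hf1
    · rw [hFmem]
      refine ⟨han f hfP, ?_⟩
      calc τ * (a * f * a⁻¹) * τ⁻¹ = (τ * a) * f * (τ * a)⁻¹ := by group
        _ = (a * τ) * f * (a * τ)⁻¹ := by rw [haτ]
        _ = a * (τ * f * τ⁻¹) * a⁻¹ := by group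
        _ = a * f * a⁻¹ := by rw [hfτ]
    · intro h
      apply hf1
      calc f = a⁻¹ * (a * f * a⁻¹) * a := by group
        _ = 1 := by rw [h]; group
  have hai : a * i * a⁻¹ = i ∨ a * i * a⁻¹ = i⁻¹ := by
    apply a7_card_three_cases _ hI3 i (a * i * a⁻¹) hiI hi1
    · rw [a7_mem_invSub]
      refine ⟨han i hiP, ?_⟩
      calc τ * (a * i * a⁻¹) * τ⁻¹ = (τ * a) * i * (τ * a)⁻¹ := by group
        _ = (a * τ) * i * (a * τ)⁻¹ := by rw [haτ]
        _ = a * (τ * i * τ⁻¹) * a⁻¹ := by group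
        _ = a * i⁻¹ * a⁻¹ := by rw [hiτ]
        _ = (a * i * a⁻¹)⁻¹ := by group
    · intro h
      apply hi1
      calc i = a⁻¹ * (a * i * a⁻¹) * a := by group
        _ = 1 := by rw [h]; group
  have hcentr : ∀ n : G, n * f * n⁻¹ = f → n * i * n⁻¹ = i → n ∈ P := by
    intro n h1 h2
    apply hcent
    intro y hy
    have heq := hgen (P ⊓ Subgroup.centralizer ({n} : Set G)) inf_le_left
      ((hFmem n f).mpr ⟨hfP, h1⟩) ((hFmem n i).mpr ⟨hiP, h2⟩)
    have hy' : y ∈ P ⊓ Subgroup.centralizer ({n} : Set G) := by rw [heq]; exact hy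
    exact ((hFmem n y).mp hy').2
  have hinvr : ∀ n : G, n * f * n⁻¹ = f⁻¹ → n * i * n⁻¹ = i⁻¹ →
      ∀ y ∈ P, n * y * n⁻¹ = y⁻¹ := by
    intro n h1 h2 y hy
    have heq := hgen (a7InvSub P hcomm n) (a7_invSub_le P hcomm n)
      ((a7_mem_invSub P hcomm n f).mpr ⟨hfP, h1⟩) ((a7_mem_invSub P hcomm n i).mpr ⟨hiP, h2⟩)
    have hy' : y ∈ a7InvSub P hcomm n := by rw [heq]; exact hy
    exact ((a7_mem_invSub P hcomm n y).mp hy').2
  have hcf : (a * τ) * f * (a * τ)⁻¹ = a * f * a⁻¹ := by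
    calc (a * τ) * f * (a * τ)⁻¹ = a * (τ * f * τ⁻¹) * a⁻¹ := by group
      _ = a * f * a⁻¹ := by rw [hfτ]
  have hci : (a * τ) * i * (a * τ)⁻¹ = (a * i * a⁻¹)⁻¹ := by
    calc (a * τ) * i * (a * τ)⁻¹ = a * (τ * i * τ⁻¹) * a⁻¹ := by group
      _ = a * i⁻¹ * a⁻¹ := by rw [hiτ]
      _ = (a * i * a⁻¹)⁻¹ := by group
  rcases haf with h1 | h1 <;> rcases hai with h2 | h2
  · exact absurd (hcentr a h1 h2) haP
  · exfalso
    apply haτP
    apply hcentr (a * τ)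
    · rw [hcf, h1]
    · rw [hci, h2, inv_inv]
  · right
    apply hinvr (a * τ)
    · rw [hcf, h1]
    · rw [hci, h2]
  · left
    exact hinvr a h1 h2

/-- PIECE INV -/
theorem a7_invert {G : Type u} [Group G] [Finite G]
    (hG : Nat.card G = 2520) (h70 : Nat.card (Sylow 3 G) = 70) (P : Sylow 3 G)
    (hCP : Nat.card (Subgroup.centralizer ((P : Subgroup G) : Set G)) = 9) :
    ∃ t : G, t ∈ Subgroup.normalizer ((P : Subgroup G) : Set G) ∧ orderOf t = 2 ∧
      ∀ y ∈ (P : Subgroup G), t * y * t⁻¹ = y⁻¹ := by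
  haveI : Fact (Nat.Prime 2) := ⟨by norm_num⟩
  have hP := a7_sylow3_card hG P
  have hN := a7_normalizer_card hG h70 P
  have hcomm : ∀ a ∈ (P : Subgroup G), ∀ b ∈ (P : Subgroup G), a * b = b * a :=
    fun a ha b hb => a7_sylow3_comm hG P a b ha hb
  have hcent : ∀ g : G, (∀ y ∈ (P : Subgroup G), g * y * g⁻¹ = y) → g ∈ (P : Subgroup G) := by
    intro g hg
    rw [← a7_centralizer_eq hG P hCP, Subgroup.mem_centralizer_iff]
    intro y hy
    calc y * g = (g * y * g⁻¹) * g := by rw [hg y hy]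
      _ = g * y := by group
  have hnorm : ∀ n ∈ Subgroup.normalizer ((P : Subgroup G) : Set G), ∀ y ∈ (P : Subgroup G),
      n * y * n⁻¹ ∈ (P : Subgroup G) :=
    fun n hn y hy => (Subgroup.mem_normalizer_iff.mp hn y).mp hy
  -- a subgroup `K ≤ N(P)` of order 4
  obtain ⟨K', hK'⟩ := Sylow.exists_subgroup_card_pow_prime
    (G := Subgroup.normalizer ((P : Subgroup G) : Set G)) 2 (n := 2) (by rw [hN]; norm_num)
  obtain ⟨K, hK4, hKN⟩ : ∃ K : Subgroup G, Nat.card K = 4 ∧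
      K ≤ Subgroup.normalizer ((P : Subgroup G) : Set G) := by
    refine ⟨K'.map (Subgroup.subtype _), ?_, Subgroup.map_subtype_le K'⟩
    rw [Subgroup.card_map_of_injective (Subgroup.subtype_injective _), hK']
    norm_num
  have hKcomm : ∀ a ∈ K, ∀ b ∈ K, a * b = b * a := by
    intro a ha b hb
    have hK4' : Nat.card K = 2 ^ 2 := by rw [hK4]; norm_num
    have := IsPGroup.isMulCommutative_of_card_eq_prime_sq hK4'
    have h1 := mul_comm' (⟨a, ha⟩ : K) ⟨b, hb⟩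
    exact congrArg Subtype.val h1
  have hKP : ∀ k ∈ K, k ∈ (P : Subgroup G) → k = 1 := by
    intro k hk hkP
    have h1 := Subgroup.orderOf_dvd_natCard K hk
    have h2 := Subgroup.orderOf_dvd_natCard (P : Subgroup G) hkP
    rw [hK4] at h1
    rw [hP] at h2
    have h3 : orderOf k ∣ 1 := by
      have := Nat.dvd_gcd h1 h2
      norm_num at this
      simpa using this
    exact orderOf_eq_one_iff.mp (Nat.dvd_one.mp h3)
  -- an involution of `K`
  obtain ⟨τ', hτ'⟩ := exists_prime_orderOf_dvd_card' (G := K) 2 (by rw [hK4]; norm_num)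
  obtain ⟨τ, hτK, hτ⟩ : ∃ τ : G, τ ∈ K ∧ orderOf τ = 2 :=
    ⟨τ'.1, τ'.2, (Subgroup.orderOf_coe τ').trans hτ'⟩
  have hτ2 : τ * τ = 1 := by
    have := pow_orderOf_eq_one τ
    rwa [hτ, pow_two] at this
  have hτ1 : τ ≠ 1 := by
    intro h
    rw [h, orderOf_one] at hτ
    omega
  -- a third element of `K`
  obtain ⟨a, haK, ha1, haτ⟩ : ∃ a : G, a ∈ K ∧ a ≠ 1 ∧ a ≠ τ := by
    by_contra hcon
    push Not at hcon
    have hsub : (K : Set G) ⊆ {1, τ} := by
      intro k hk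
      by_cases h1 : k = 1
      · left; exact h1
      · right; exact hcon k hk h1
    have h1 : Nat.card K = (K : Set G).ncard := Nat.card_coe_set_eq (K : Set G)
    have h2 := Set.ncard_le_ncard hsub (Set.toFinite _)
    have h3 : ({1, τ} : Set G).ncard ≤ 2 := by
      have := Set.ncard_insert_le (1 : G) ({τ} : Set G)
      rw [Set.ncard_singleton] at this
      exact this
    omega
  have haP : a ∉ (P : Subgroup G) := fun h => ha1 (hKP a haK h)
  have hτP : τ ∉ (P : Subgroup G) := fun h => hτ1 (hKP τ hτK h)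
  have haτK : a * τ ∈ K := K.mul_mem haK hτK
  have haτ1 : a * τ ≠ 1 := by
    intro h
    apply haτ
    calc a = a * (τ * τ) := by rw [hτ2, mul_one]
      _ = (a * τ) * τ := by rw [mul_assoc]
      _ = τ := by rw [h, one_mul]
  have haτP : a * τ ∉ (P : Subgroup G) := fun h => haτ1 (hKP _ haτK h)
  have key := a7_sign (P : Subgroup G) hP hcomm hcent τ a (hnorm τ (hKN hτK))
    (hnorm a (hKN haK)) hτ2 hτP (hKcomm a haK τ hτK) haP haτP
  have hfin : ∀ n ∈ K, n ≠ 1 → (∀ y ∈ (P : Subgroup G), n * y * n⁻¹ = y⁻¹) →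
      ∃ t : G, t ∈ Subgroup.normalizer ((P : Subgroup G) : Set G) ∧ orderOf t = 2 ∧
        ∀ y ∈ (P : Subgroup G), t * y * t⁻¹ = y⁻¹ := by
    intro n hnK hn1 hninv
    refine ⟨n, hKN hnK, ?_, hninv⟩
    have hn2P : n * n ∈ (P : Subgroup G) := by
      apply hcent
      intro y hy
      calc (n * n) * y * (n * n)⁻¹ = n * (n * y * n⁻¹) * n⁻¹ := by group
        _ = n * y⁻¹ * n⁻¹ := by rw [hninv y hy]
        _ = y⁻¹⁻¹ := hninv y⁻¹ (Subgroup.inv_mem _ hy)
        _ = y := inv_inv y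
    have hn2 : n * n = 1 := hKP _ (K.mul_mem hnK hnK) hn2P
    exact orderOf_eq_prime (by rw [pow_two]; exact hn2) hn1
  rcases key with h | h | h
  · exact hfin τ hτK hτ1 h
  · exact hfin a haK ha1 h
  · exact hfin (a * τ) haτK haτ1 h

end Cfsg.Agent.Helper11
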