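import Mathlib
import Cfsg.Agent.Helper11.A7CN

/-!
# Helper11: PIECE W2 of CALL S0984 (helper82).
-/

set_option autoImplicit false
set_option linter.style.haveILetI false

universe u

namespace Cfsg.Agent.Helper11

/-- in a simple group of order 2520 no cyclic subgroup of order 2 or 3 is normal -/
theorem a7_normalizer_zpowers_ne_top {G : Type u} [Group G] [Finite G] [IsSimpleGroup G]
    (hG : Nat.card G = 2520) (y : G) (hy1 : 1 < orderOf y) (hy2 : orderOf y < 2520) :
    Subgroup.normalizer ((Subgroup.zpowers y : Subgroup G) : Set G) ≠ ⊤ := by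
  intro htop
  have hnormal : (Subgroup.zpowers y).Normal := Subgroup.normalizer_eq_top_iff.mp htop
  rcases hnormal.eq_bot_or_eq_top with h | h
  · have : y = 1 := by
      have := Subgroup.mem_zpowers y
      rw [h, Subgroup.mem_bot] at this
      exact this
    rw [this, orderOf_one] at hy1
    omega
  · have h1 : Nat.card (Subgroup.zpowers y) = orderOf y := Nat.card_zpowers y
    rw [h, Subgroup.card_top, hG] at h1
    omega

/-- an element of order 2 is not in `P` -/
theorem a7_order_two_not_mem {G : Type u} [Group G] [Finite G]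
    (hG : Nat.card G = 2520) (P : Sylow 3 G) (t : G) (ht : orderOf t = 2) :
    t ∉ (P : Subgroup G) := by
  intro h
  have := Subgroup.orderOf_dvd_natCard (P : Subgroup G) h
  rw [ht, a7_sylow3_card hG P] at this
  omega

/-- PIECE W2 -/
theorem a7_cent9 {G : Type u} [Group G] [Finite G] [IsSimpleGroup G]
    (hG : Nat.card G = 2520) (h70 : Nat.card (Sylow 3 G) = 70) (P : Sylow 3 G)
    (hOV : ∀ H : Subgroup G, Subgroup.normalizer ((P : Subgroup G) : Set G) ≤ H →
      ¬ H ≤ Subgroup.normalizer ((P : Subgroup G) : Set G) → H ≠ ⊤ → H.index = 7)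
    (hTT : ∀ t : G, orderOf t = 2 → 8 ∣ Nat.card (Subgroup.centralizer ({t} : Set G)))
    (hC : Nat.card (Subgroup.centralizer ((P : Subgroup G) : Set G)) ≠ 9) :
    ∃ H : Subgroup G, H.index = 7 := by
  haveI : Fact (Nat.Prime 3) := ⟨by norm_num⟩
  haveI : Fact (Nat.Prime 2) := ⟨by norm_num⟩
  have hP := a7_sylow3_card hG P
  have hN := a7_normalizer_card hG h70 P
  have hPC := a7_le_centralizer hG P
  have hCN : Subgroup.centralizer ((P : Subgroup G) : Set G)
      ≤ Subgroup.normalizer ((P : Subgroup G) : Set G) := Subgroup.centralizer_le_normalizer _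
  have hd1 : 9 ∣ Nat.card (Subgroup.centralizer ((P : Subgroup G) : Set G)) := by
    have := Subgroup.card_dvd_of_le hPC
    rwa [hP] at this
  have hd2 : Nat.card (Subgroup.centralizer ((P : Subgroup G) : Set G)) ∣ 36 := by
    have := Subgroup.card_dvd_of_le hCN
    rwa [hN] at this
  have hcases : Nat.card (Subgroup.centralizer ((P : Subgroup G) : Set G)) = 18 ∨
      Nat.card (Subgroup.centralizer ((P : Subgroup G) : Set G)) = 36 := by
    have hle := Nat.le_of_dvd (by norm_num) hd2
    generalize Nat.card (Subgroup.centralizer ((P : Subgroup G) : Set G)) = k at hd1 hd2 hle hC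
    interval_cases k <;> omega
  rcases hcases with h18 | h36
  · -- an involution of `C(P)`
    obtain ⟨t', ht'⟩ := exists_prime_orderOf_dvd_card'
      (G := Subgroup.centralizer ((P : Subgroup G) : Set G)) 2 (by rw [h18]; norm_num)
    obtain ⟨t, htC, ht⟩ : ∃ t : G, t ∈ Subgroup.centralizer ((P : Subgroup G) : Set G) ∧
        orderOf t = 2 := ⟨t'.1, t'.2, (Subgroup.orderOf_coe t').trans ht'⟩
    -- index of `P` in `C(P)` is 2
    have hrel : (P : Subgroup G).relIndex (Subgroup.centralizer ((P : Subgroup G) : Set G)) = 2 := by
      have h2 := Subgroup.relIndex_mul_relIndex ⊥ (P : Subgroup G)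
        (Subgroup.centralizer ((P : Subgroup G) : Set G)) bot_le hPC
      rw [Subgroup.relIndex_bot_left, Subgroup.relIndex_bot_left, hP, h18] at h2
      omega
    have ht2 : t * t = 1 := by
      have := pow_orderOf_eq_one t
      rwa [ht, pow_two] at this
    -- uniqueness of the involution
    have huniq : ∀ s : G, s ∈ Subgroup.centralizer ((P : Subgroup G) : Set G) → orderOf s = 2 →
        s = t := by
      intro s hsC hs
      have h1 := Subgroup.mul_mem_iff_of_index_two (H := (P : Subgroup G).subgroupOf
        (Subgroup.centralizer ((P : Subgroup G) : Set G))) hrel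
        (a := ⟨s, hsC⟩) (b := ⟨t, htC⟩)
      rw [Subgroup.mem_subgroupOf, Subgroup.mem_subgroupOf, Subgroup.mem_subgroupOf] at h1
      have hstP : s * t ∈ (P : Subgroup G) :=
        h1.mpr ⟨fun h => absurd h (a7_order_two_not_mem hG P s hs),
          fun h => absurd h (a7_order_two_not_mem hG P t ht)⟩
      -- `t` commutes with `s * t`
      have hcomm : (s * t) * t = t * (s * t) := (Subgroup.mem_centralizer_iff.mp htC) (s * t) hstP
      have hs2 : s * s = 1 := by
        have := pow_orderOf_eq_one s
        rwa [hs, pow_two] at this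
      -- so `s` commutes with `t`
      have hst : s * t = t * s := by
        have h3 : s = t * s * t := by
          calc s = s * (t * t) := by rw [ht2, mul_one]
            _ = (s * t) * t := by rw [mul_assoc]
            _ = t * (s * t) := hcomm
            _ = t * s * t := by rw [mul_assoc]
        calc s * t = (t * s * t) * t := by rw [← h3]
          _ = t * s * (t * t) := by rw [mul_assoc]
          _ = t * s := by rw [ht2, mul_one]
      have hsq : (s * t) ^ 2 = 1 := by
        calc (s * t) ^ 2 = s * t * (s * t) := pow_two _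
          _ = s * t * (t * s) := by rw [hst]
          _ = s * (t * t) * s := by simp only [mul_assoc]
          _ = 1 := by rw [ht2, mul_one, hs2]
      have hd2 : orderOf (s * t) ∣ 2 := orderOf_dvd_of_pow_eq_one hsq
      have hd9 : orderOf (s * t) ∣ 9 := by
        have := Subgroup.orderOf_dvd_natCard (P : Subgroup G) hstP
        rwa [hP] at this
      have hd1 : orderOf (s * t) ∣ 1 := by
        have := Nat.dvd_gcd hd2 hd9
        norm_num at this
        simpa using this
      have hst1 : s * t = 1 := orderOf_eq_one_iff.mp (Nat.dvd_one.mp hd1)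
      calc s = s * (t * t) := by rw [ht2, mul_one]
        _ = (s * t) * t := by rw [mul_assoc]
        _ = t := by rw [hst1, one_mul]
    -- `N(P)` centralizes `t`
    have hNt : Subgroup.normalizer ((P : Subgroup G) : Set G) ≤ Subgroup.centralizer ({t} : Set G) := by
      intro n hn
      have hn' : n⁻¹ ∈ Subgroup.normalizer ((P : Subgroup G) : Set G) := Subgroup.inv_mem _ hn
      have hmem : n * t * n⁻¹ ∈ Subgroup.centralizer ((P : Subgroup G) : Set G) := by
        rw [Subgroup.mem_centralizer_iff]
        intro g hg
        have hg' : n⁻¹ * g * n⁻¹⁻¹ ∈ (P : Subgroup G) :=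
          (Subgroup.mem_normalizer_iff.mp hn' g).mp hg
        have hc : (n⁻¹ * g * n⁻¹⁻¹) * t = t * (n⁻¹ * g * n⁻¹⁻¹) :=
          (Subgroup.mem_centralizer_iff.mp htC) _ hg'
        calc g * (n * t * n⁻¹) = n * ((n⁻¹ * g * n⁻¹⁻¹) * t) * n⁻¹ := by group
          _ = n * (t * (n⁻¹ * g * n⁻¹⁻¹)) * n⁻¹ := by rw [hc]
          _ = n * t * n⁻¹ * g := by group
      have hord : orderOf (n * t * n⁻¹) = 2 := by
        have := MulEquiv.orderOf_eq (MulAut.conj n) t
        rw [MulAut.conj_apply] at this
        rw [this, ht]
      have heq := huniq _ hmem hord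
      rw [Subgroup.mem_centralizer_singleton_iff]
      calc n * t = (n * t * n⁻¹) * n := by group
        _ = t * n := by rw [heq]
    refine ⟨Subgroup.centralizer ({t} : Set G), ?_⟩
    apply hOV _ hNt
    · intro hle
      have h8 := hTT t ht
      have := Subgroup.card_dvd_of_le hle
      rw [hN] at this
      have := dvd_trans h8 this
      omega
    · intro htop
      apply a7_normalizer_zpowers_ne_top hG t (by rw [ht]; norm_num) (by rw [ht]; norm_num)
      rw [eq_top_iff]
      apply a7_le_normalizer_zpowers
      intro n _
      have hn : n ∈ Subgroup.centralizer ({t} : Set G) := by rw [htop]; exact Subgroup.mem_top n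
      rw [Subgroup.mem_centralizer_singleton_iff] at hn
      have e : n * t * n⁻¹ = t := by rw [hn]; group
      rw [e]
      exact Subgroup.mem_zpowers t
  · -- `C(P) = N(P)`: Burnside's transfer theorem
    exfalso
    have hNC : Subgroup.normalizer ((P : Subgroup G) : Set G)
        ≤ Subgroup.centralizer ((P : Subgroup G) : Set G) := by
      have heq : Subgroup.centralizer ((P : Subgroup G) : Set G)
          = Subgroup.normalizer ((P : Subgroup G) : Set G) :=
        Subgroup.eq_of_le_of_card_ge hCN (by rw [hN, h36])
      rw [heq]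
    have hcomp := MonoidHom.ker_transferSylow_isComplement' P hNC
    have hcard := hcomp.card_mul_card
    rw [hP, hG] at hcard
    have hker : Nat.card (MonoidHom.transferSylow P hNC).ker = 280 := by omega
    rcases (MonoidHom.normal_ker (MonoidHom.transferSylow P hNC)).eq_bot_or_eq_top with h | h
    · rw [h, Subgroup.card_bot] at hker
      omega
    · rw [h, Subgroup.card_top, hG] at hker
      omega

end Cfsg.Agent.Helper11
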