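import Mathlib
import Cfsg.Prelude.Def_Solvable
import Cfsg.Agent.Helper10.PCore

/-!
Helper library of seat helper11: a finite group `G` with `C_G(O_p(G)) ≤ O_p(G)` whose Sylow
`p`-subgroup `S` has class at most 2.  If `V` is a normal `p`-subgroup containing the elements of
order `p` of `Z(S)`, then every `p`-subgroup of `C_G(V)` lies in `O_p(G)`.
Everything lives in `Cfsg.Agent.Helper11`.
-/

set_option autoImplicit false

namespace Cfsg.Agent.Helper11

variable {G : Type*} [Group G]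

theorem c2_pow_conj (g q w : G) (hgw : g * w = w * g) (hq : g * q * g⁻¹ = w * q) (n : ℕ) :
    g ^ n * q * (g ^ n)⁻¹ = w ^ n * q := by
  induction n with
  | zero => simp
  | succ n ih =>
    have hgwn : g * w ^ n = w ^ n * g := (Commute.pow_right (show Commute g w from hgw) n).eq
    calc g ^ (n + 1) * q * (g ^ (n + 1))⁻¹ = g * (g ^ n * q * (g ^ n)⁻¹) * g⁻¹ := by
          rw [pow_succ']; group
      _ = g * (w ^ n * q) * g⁻¹ := by rw [ih]
      _ = (g * w ^ n) * q * g⁻¹ := by group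
      _ = w ^ n * (g * q * g⁻¹) := by rw [hgwn]; group
      _ = w ^ (n + 1) * q := by rw [hq, pow_succ]; group

/-- If `g` of order prime to `p` commutes with the `p`-element `[g, q]`, then `g` commutes with `q`. -/
theorem c2_trick {p : ℕ} (g q w : G) (hgw : g * w = w * g) (hq : g * q * g⁻¹ = w * q)
    (n k : ℕ) (hn : g ^ n = 1) (hw : w ^ (p ^ k) = 1) (hcop : Nat.Coprime n p) :
    g * q = q * g := by
  have h1 := c2_pow_conj g q w hgw hq n
  rw [hn, one_mul, inv_one, mul_one] at h1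
  have hwn : w ^ n = 1 := by
    have : w ^ n * q = 1 * q := by rw [one_mul]; exact h1.symm
    exact mul_right_cancel this
  have hw1 : w = 1 := by
    have hd1 : orderOf w ∣ n := orderOf_dvd_of_pow_eq_one hwn
    have hd2 : orderOf w ∣ p ^ k := orderOf_dvd_of_pow_eq_one hw
    have hd : orderOf w ∣ Nat.gcd n (p ^ k) := Nat.dvd_gcd hd1 hd2
    rw [Nat.Coprime.gcd_eq_one (Nat.Coprime.pow_right k hcop)] at hd
    exact orderOf_eq_one_iff.mp (Nat.dvd_one.mp hd)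
  rw [hw1, one_mul] at hq
  calc g * q = g * q * g⁻¹ * g := by group
    _ = q * g := by rw [hq]

/-- The elements of order dividing `p` of an abelian subgroup. -/
def omTors (Z : Subgroup G) (p : ℕ) (hab : ∀ x ∈ Z, ∀ y ∈ Z, x * y = y * x) : Subgroup G where
  carrier := {x | x ∈ Z ∧ x ^ p = 1}
  mul_mem' := by
    rintro a b ⟨ha, hap⟩ ⟨hb, hbp⟩
    exact ⟨Z.mul_mem ha hb, by
      rw [(show Commute a b from hab a ha b hb).mul_pow, hap, hbp, one_mul]⟩
  one_mem' := ⟨Z.one_mem, one_pow _⟩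
  inv_mem' := by
    rintro a ⟨ha, hap⟩
    exact ⟨Z.inv_mem ha, by rw [inv_pow, hap, inv_one]⟩

theorem mem_omTors (Z : Subgroup G) (p : ℕ) (hab : ∀ x ∈ Z, ∀ y ∈ Z, x * y = y * x) (x : G) :
    x ∈ omTors Z p hab ↔ x ∈ Z ∧ x ^ p = 1 := Iff.rfl

theorem omTors_normal (Z : Subgroup G) [hZ : Z.Normal] (p : ℕ)
    (hab : ∀ x ∈ Z, ∀ y ∈ Z, x * y = y * x) : (omTors Z p hab).Normal := by
  constructor
  rintro x ⟨hx, hxp⟩ g
  exact ⟨hZ.conj_mem x hx g, by rw [conj_pow, hxp, mul_one, mul_inv_cancel]⟩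

/-- The elements `g` with `[g, k] ∈ N` for all `k ∈ K` (`N` normal). -/
def stabSec (K N : Subgroup G) [hN : N.Normal] : Subgroup G where
  carrier := {g | ∀ k ∈ K, g * k * g⁻¹ * k⁻¹ ∈ N}
  one_mem' := by
    intro k _
    have : (1 : G) * k * 1⁻¹ * k⁻¹ = 1 := by group
    rw [this]; exact N.one_mem
  mul_mem' := by
    intro a b ha hb k hk
    have h1 := hb k hk
    have h2 := ha k hk
    have h3 := hN.conj_mem _ h1 a
    have h4 : a * b * k * (a * b)⁻¹ * k⁻¹ =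
        (a * (b * k * b⁻¹ * k⁻¹) * a⁻¹) * (a * k * a⁻¹ * k⁻¹) := by group
    rw [h4]; exact N.mul_mem h3 h2
  inv_mem' := by
    intro a ha k hk
    have h1 := ha k hk
    have h3 := hN.conj_mem _ (N.inv_mem h1) a⁻¹
    have h4 : a⁻¹ * k * a⁻¹⁻¹ * k⁻¹ = a⁻¹ * (a * k * a⁻¹ * k⁻¹)⁻¹ * a⁻¹⁻¹ := by group
    rw [h4]; exact h3

theorem mem_stabSec (K N : Subgroup G) [N.Normal] (g : G) :
    g ∈ stabSec K N ↔ ∀ k ∈ K, g * k * g⁻¹ * k⁻¹ ∈ N := Iff.rfl

theorem stabSec_normal (K N : Subgroup G) [hK : K.Normal] [hN : N.Normal] :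
    (stabSec K N).Normal := by
  constructor
  intro n hn g k hk
  have h1 := hn (g⁻¹ * k * g⁻¹⁻¹) (hK.conj_mem k hk g⁻¹)
  have h2 := hN.conj_mem _ h1 g
  have h3 : g * n * g⁻¹ * k * (g * n * g⁻¹)⁻¹ * k⁻¹ =
      g * (n * (g⁻¹ * k * g⁻¹⁻¹) * n⁻¹ * (g⁻¹ * k * g⁻¹⁻¹)⁻¹) * g⁻¹ := by group
  rw [h3]; exact h2

/-- Main lemma: `S ∩ C_G(V) ≤ O_p(G)`. -/
theorem c2_core [Finite G] {p : ℕ} [Fact p.Prime]
    (hc : Subgroup.centralizer (Cfsg.pCore p G : Set G) ≤ Cfsg.pCore p G)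
    (S : Sylow p G)
    (hcl : ∀ a ∈ (S : Subgroup G), ∀ b ∈ (S : Subgroup G), ∀ c ∈ (S : Subgroup G),
      (a * b * a⁻¹ * b⁻¹) * c = c * (a * b * a⁻¹ * b⁻¹))
    (V : Subgroup G) [V.Normal] (hVp : IsPGroup p V)
    (hΩ : ∀ z ∈ (S : Subgroup G), (∀ s ∈ (S : Subgroup G), s * z = z * s) → z ^ p = 1 → z ∈ V) :
    (S : Subgroup G) ⊓ Subgroup.centralizer (V : Set G) ≤ Cfsg.pCore p G := by
  classical
  have hp : p.Prime := Fact.out
  set Q := Cfsg.pCore p G with hQ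
  have hQn : Q.Normal := Helper10.pCore_normal p G
  have hQS : Q ≤ (S : Subgroup G) := Helper10.pCore_le_sylow S
  have hQp : IsPGroup p Q := Helper10.pCore_isPGroup p G
  have hZS : ∀ z ∈ (S : Subgroup G), (∀ s ∈ (S : Subgroup G), s * z = z * s) →
      z ∈ Q ⊓ Subgroup.centralizer (Q : Set G) := by
    intro z hz hzc
    have h1 : z ∈ Subgroup.centralizer (Q : Set G) := by
      rw [Subgroup.mem_centralizer_iff]
      intro q hq
      exact hzc q (hQS hq)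
    exact ⟨hc h1, h1⟩
  set Z' := Subgroup.normalClosure
    {z : G | z ∈ (S : Subgroup G) ∧ ∀ s ∈ (S : Subgroup G), s * z = z * s} with hZ'
  have hZ'n : Z'.Normal := Subgroup.normalClosure_normal
  have hZQn : (Q ⊓ Subgroup.centralizer (Q : Set G)).Normal := inferInstance
  have hZ'le : Z' ≤ Q ⊓ Subgroup.centralizer (Q : Set G) :=
    Subgroup.normalClosure_le_normal (fun z hz => hZS z hz.1 hz.2)
  have hZ'Q : Z' ≤ Q := hZ'le.trans inf_le_left
  have hZ'c : ∀ z ∈ Z', ∀ q ∈ Q, q * z = z * q := by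
    intro z hz q hq
    have h1 : z ∈ Subgroup.centralizer (Q : Set G) := (hZ'le hz).2
    rw [Subgroup.mem_centralizer_iff] at h1
    exact h1 q hq
  have hab : ∀ x ∈ Z', ∀ y ∈ Z', x * y = y * x := fun x hx y hy => hZ'c y hy x (hZ'Q hx)
  have hZSZ' : ∀ z ∈ (S : Subgroup G), (∀ s ∈ (S : Subgroup G), s * z = z * s) → z ∈ Z' :=
    fun z hz hzc => Subgroup.subset_normalClosure ⟨hz, hzc⟩
  have hΩn : (omTors Z' p hab).Normal := omTors_normal Z' p hab
  have hK1n : (stabSec Q Z').Normal := stabSec_normal Q Z'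
  have hK2n : (stabSec (omTors Z' p hab) V).Normal := stabSec_normal (omTors Z' p hab) V
  set K := stabSec Q Z' ⊓ stabSec (omTors Z' p hab) V ⊓ Subgroup.centralizer (V : Set G) with hK
  have hKn : K.Normal := inferInstance
  -- elements of `K` of order prime to `p` are trivial
  have key : ∀ g ∈ K, ∀ n : ℕ, Nat.Coprime n p → g ^ n = 1 → g = 1 := by
    rintro g ⟨⟨hg1, hg2⟩, hgV⟩ n hcop hgn
    have hgV' : ∀ v ∈ V, g * v = v * g := by
      intro v hv
      have h : g ∈ Subgroup.centralizer (V : Set G) := hgV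
      rw [Subgroup.mem_centralizer_iff] at h
      exact (h v hv).symm
    have hgΩ : ∀ x ∈ omTors Z' p hab, g * x = x * g := by
      intro x hx
      have hw : g * x * g⁻¹ * x⁻¹ ∈ V := hg2 x hx
      obtain ⟨k, hk⟩ := hVp ⟨_, hw⟩
      have hk' : (g * x * g⁻¹ * x⁻¹) ^ (p ^ k) = 1 := by
        simpa using congrArg Subtype.val hk
      exact c2_trick g x _ (hgV' _ hw) (by group) n k hgn hk' hcop
    have hgZ : ∀ k : ℕ, ∀ z ∈ Z', z ^ (p ^ k) = 1 → g * z = z * g := by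
      intro k
      induction k with
      | zero =>
        intro z _ hz
        rw [pow_zero, pow_one] at hz
        rw [hz, mul_one, one_mul]
      | succ k ih =>
        intro z hz hzk
        have hzp : g * z ^ p = z ^ p * g := by
          apply ih _ (Z'.pow_mem hz p)
          rw [← pow_mul, ← pow_succ']; exact hzk
        have hwZ : g * z * g⁻¹ * z⁻¹ ∈ Z' :=
          Z'.mul_mem (hZ'n.conj_mem z hz g) (Z'.inv_mem hz)
        have hwp : (g * z * g⁻¹ * z⁻¹) ^ p = 1 := by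
          have hcomm : Commute (g * z * g⁻¹) z⁻¹ :=
            hab _ (hZ'n.conj_mem z hz g) _ (Z'.inv_mem hz)
          rw [hcomm.mul_pow, conj_pow, hzp, inv_pow]
          group
        have hwΩ : g * z * g⁻¹ * z⁻¹ ∈ omTors Z' p hab := ⟨hwZ, hwp⟩
        exact c2_trick g z _ (hgΩ _ hwΩ) (by group) n 1 hgn (by rw [pow_one]; exact hwp) hcop
    have hgQ : ∀ q ∈ Q, g * q = q * g := by
      intro q hq
      have hw : g * q * g⁻¹ * q⁻¹ ∈ Z' := hg1 q hq
      obtain ⟨k, hk⟩ := hQp ⟨_, hZ'Q hw⟩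
      have hk' : (g * q * g⁻¹ * q⁻¹) ^ (p ^ k) = 1 := by
        simpa using congrArg Subtype.val hk
      have hgw : g * (g * q * g⁻¹ * q⁻¹) = (g * q * g⁻¹ * q⁻¹) * g := hgZ k _ hw hk'
      exact c2_trick g q _ hgw (by group) n k hgn hk' hcop
    have hgQ' : g ∈ Q := hc (by
      rw [Subgroup.mem_centralizer_iff]; intro q hq; exact (hgQ q hq).symm)
    obtain ⟨k, hk⟩ := hQp ⟨g, hgQ'⟩
    have hk' : g ^ (p ^ k) = 1 := by simpa using congrArg Subtype.val hk
    have hd1 : orderOf g ∣ n := orderOf_dvd_of_pow_eq_one hgn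
    have hd2 : orderOf g ∣ p ^ k := orderOf_dvd_of_pow_eq_one hk'
    have hd : orderOf g ∣ Nat.gcd n (p ^ k) := Nat.dvd_gcd hd1 hd2
    rw [Nat.Coprime.gcd_eq_one (Nat.Coprime.pow_right k hcop)] at hd
    exact orderOf_eq_one_iff.mp (Nat.dvd_one.mp hd)
  -- `K` is a `p`-group
  have hKp : IsPGroup p K := by
    rintro ⟨g, hg⟩
    have hn0 : orderOf g ≠ 0 := (orderOf_pos g).ne'
    obtain ⟨a, m, hm, hnm⟩ := Nat.exists_eq_pow_mul_and_not_dvd hn0 p hp.ne_one
    refine ⟨a, ?_⟩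
    apply Subtype.ext
    have h1 : (g ^ (p ^ a)) ^ m = 1 := by rw [← pow_mul, ← hnm, pow_orderOf_eq_one]
    have hcop : Nat.Coprime m p := ((Nat.Prime.coprime_iff_not_dvd hp).mpr hm).symm
    have h2 := key (g ^ (p ^ a)) (K.pow_mem hg _) m hcop h1
    simpa using h2
  have hKQ : K ≤ Q := Helper10.le_pCore K hKn hKp
  refine le_trans ?_ hKQ
  rintro s ⟨hsS, hsV⟩
  have hsS' : s ∈ (S : Subgroup G) := hsS
  refine ⟨⟨?_, ?_⟩, hsV⟩
  · intro q hq
    have hqS : q ∈ (S : Subgroup G) := hQS hq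
    apply hZSZ' _ (Subgroup.mul_mem _ (Subgroup.mul_mem _ (Subgroup.mul_mem _ hsS' hqS)
      (Subgroup.inv_mem _ hsS')) (Subgroup.inv_mem _ hqS))
    intro c hc'
    exact (hcl s hsS' q hqS c hc').symm
  · rintro x ⟨hxZ, hxp⟩
    have hxS : x ∈ (S : Subgroup G) := hQS (hZ'Q hxZ)
    apply hΩ
    · exact Subgroup.mul_mem _ (Subgroup.mul_mem _ (Subgroup.mul_mem _ hsS' hxS)
        (Subgroup.inv_mem _ hsS')) (Subgroup.inv_mem _ hxS)
    · intro c hc'
      exact (hcl s hsS' x hxS c hc').symm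
    · have hcomm : Commute (s * x * s⁻¹) x⁻¹ :=
        hab _ (hZ'n.conj_mem x hxZ s) _ (Z'.inv_mem hxZ)
      rw [hcomm.mul_pow, conj_pow, hxp, inv_pow, hxp]
      group

/-- Every `p`-subgroup of `C_G(V)` lies in `O_p(G)`. -/
theorem c2_pgroup_le [Finite G] {p : ℕ} [Fact p.Prime]
    (hc : Subgroup.centralizer (Cfsg.pCore p G : Set G) ≤ Cfsg.pCore p G)
    (S : Sylow p G)
    (hcl : ∀ a ∈ (S : Subgroup G), ∀ b ∈ (S : Subgroup G), ∀ c ∈ (S : Subgroup G),
      (a * b * a⁻¹ * b⁻¹) * c = c * (a * b * a⁻¹ * b⁻¹))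
    (V : Subgroup G) [V.Normal] (hVp : IsPGroup p V)
    (hΩ : ∀ z ∈ (S : Subgroup G), (∀ s ∈ (S : Subgroup G), s * z = z * s) → z ^ p = 1 → z ∈ V)
    (A : Subgroup G) (hAp : IsPGroup p A) (hAV : A ≤ Subgroup.centralizer (V : Set G)) :
    A ≤ Cfsg.pCore p G := by
  obtain ⟨P, hAP⟩ := hAp.exists_le_sylow
  obtain ⟨g, hg⟩ := MulAction.exists_smul_eq G S P
  have hmem : ∀ x, x ∈ (P : Subgroup G) ↔ g⁻¹ * x * g ∈ (S : Subgroup G) := by
    intro x
    rw [← hg]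
    change x ∈ ((g • S : Sylow p G) : Set G) ↔ _
    rw [Sylow.coe_smul, Set.mem_smul_set_iff_inv_smul_mem]
    simp only [MulAut.smul_def, MulAut.inv_apply, MulAut.conj_symm_apply]
    exact Iff.rfl
  intro a ha
  have h1 : g⁻¹ * a * g ∈ (S : Subgroup G) := (hmem a).mp (hAP ha)
  have h2 : g⁻¹ * a * g ∈ Subgroup.centralizer (V : Set G) := by
    have h := (inferInstance : (Subgroup.centralizer (V : Set G)).Normal).conj_mem a (hAV ha) g⁻¹
    rwa [inv_inv] at h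
  have h3 := c2_core hc S hcl V hVp hΩ ⟨h1, h2⟩
  have h4 := (Helper10.pCore_normal p G).conj_mem _ h3 g
  have h5 : g * (g⁻¹ * a * g) * g⁻¹ = a := by group
  rwa [h5] at h4

end Cfsg.Agent.Helper11
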