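import Mathlib
import Cfsg.Prelude.Def_PLocal
import Cfsg.Agent.Helper10.Thompson

/-!
Helper library of seat helper11: transport of the conjugation action of `G` on a normal subgroup `V`
to the holomorph-type semidirect product `V ⋊ Aut(V)`, in which the image of `G` acts faithfully
on the image of `V`; best offenders are carried to best offenders.
Everything lives in `Cfsg.Agent.Helper11`.
-/

set_option autoImplicit false

namespace Cfsg.Agent.Helper11

variable {G : Type*} [Group G]

/-- The semidirect product `V ⋊ Aut(V)`. -/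
abbrev Holo (V : Subgroup G) : Type _ := SemidirectProduct ↥V (MulAut ↥V) (MonoidHom.id _)

theorem holo_finite [Finite G] (V : Subgroup G) : Finite (Holo V) :=
  Finite.of_equiv _ (SemidirectProduct.equivProd (N := ↥V) (G := MulAut ↥V)
    (φ := MonoidHom.id _)).symm

/-- The homomorphism `G → V ⋊ Aut(V)` given by the conjugation action on `V`. -/
def holoHom (V : Subgroup G) [V.Normal] : G →* Holo V :=
  (SemidirectProduct.inr : MulAut ↥V →* Holo V).comp (MulAut.conjNormal (H := V))

/-- The copy of `V` inside `V ⋊ Aut(V)`. -/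
def holoV (V : Subgroup G) : Subgroup (Holo V) :=
  (SemidirectProduct.inl : ↥V →* Holo V).range

theorem holoV_normal (V : Subgroup G) : (holoV V).Normal := by
  unfold holoV
  rw [SemidirectProduct.range_inl_eq_ker_rightHom]
  exact MonoidHom.normal_ker _

theorem holoHom_apply (V : Subgroup G) [V.Normal] (g : G) :
    holoHom V g = SemidirectProduct.inr (MulAut.conjNormal (H := V) g) := rfl

theorem holoHom_eq_one_iff (V : Subgroup G) [V.Normal] (g : G) :
    holoHom V g = 1 ↔ g ∈ Subgroup.centralizer (V : Set G) := by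
  rw [holoHom_apply, Subgroup.mem_centralizer_iff]
  constructor
  · intro h v hv
    have h1 : MulAut.conjNormal (H := V) g = 1 :=
      SemidirectProduct.inr_injective (by rw [map_one]; exact h)
    have h2 : ((MulAut.conjNormal (H := V) g) ⟨v, hv⟩ : G) = v := by rw [h1]; rfl
    rw [MulAut.conjNormal_apply] at h2
    have h3 : g * v = v * g := by
      calc g * v = g * v * g⁻¹ * g := by group
        _ = v * g := by rw [h2]
    exact h3.symm
  · intro h
    have h1 : MulAut.conjNormal (H := V) g = 1 := by
      ext v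
      rw [MulAut.conjNormal_apply]
      have h2 := h v v.2
      show g * (v : G) * g⁻¹ = v
      rw [← h2]; group
    rw [h1, map_one]

theorem holoHom_ker (V : Subgroup G) [V.Normal] :
    (holoHom V).ker = Subgroup.centralizer (V : Set G) := by
  ext g
  rw [MonoidHom.mem_ker, holoHom_eq_one_iff]

/-- `inl v` commutes with the image of `b` iff `v` commutes with `b`. -/
theorem holo_inl_commute_iff (V : Subgroup G) [V.Normal] (v : ↥V) (b : G) :
    holoHom V b * (SemidirectProduct.inl v : Holo V) = SemidirectProduct.inl v * holoHom V b ↔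
      b * (v : G) = v * b := by
  rw [holoHom_apply]
  have key : (SemidirectProduct.inr (MulAut.conjNormal (H := V) b) : Holo V) *
      SemidirectProduct.inl v =
      SemidirectProduct.inl ((MulAut.conjNormal (H := V) b) v) *
        SemidirectProduct.inr (MulAut.conjNormal (H := V) b) := by
    have h := SemidirectProduct.inl_aut (φ := MonoidHom.id (MulAut ↥V))
      (MulAut.conjNormal (H := V) b) v
    rw [MonoidHom.id_apply] at h
    rw [h, map_inv]; group
  rw [key]
  constructor
  · intro h
    have h1 := mul_right_cancel h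
    have h2 := SemidirectProduct.inl_injective h1
    have h3 : ((MulAut.conjNormal (H := V) b) v : G) = v := by rw [h2]
    rw [MulAut.conjNormal_apply] at h3
    calc b * (v : G) = b * v * b⁻¹ * b := by group
      _ = v * b := by rw [h3]
  · intro h
    have h2 : (MulAut.conjNormal (H := V) b) v = v := by
      apply Subtype.ext
      rw [MulAut.conjNormal_apply, h]; group
    rw [h2]

/-- The fixed points of `B` on `V` correspond to the fixed points of its image on the copy of `V`. -/
theorem holoV_inf_centralizer_map (V : Subgroup G) [V.Normal] (B : Subgroup G) :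
    holoV V ⊓ Subgroup.centralizer ((B.map (holoHom V) : Subgroup (Holo V)) : Set (Holo V)) =
      ((Subgroup.centralizer (B : Set G)).subgroupOf V).map
        (SemidirectProduct.inl : ↥V →* Holo V) := by
  ext x
  rw [Subgroup.mem_inf, Subgroup.mem_map]
  constructor
  · rintro ⟨⟨v, rfl⟩, hx⟩
    refine ⟨v, ?_, rfl⟩
    rw [Subgroup.mem_subgroupOf, Subgroup.mem_centralizer_iff]
    intro b hb
    rw [Subgroup.mem_centralizer_iff] at hx
    exact (holo_inl_commute_iff V v b).mp (hx _ (Subgroup.mem_map_of_mem _ hb))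
  · rintro ⟨v, hv, rfl⟩
    refine ⟨⟨v, rfl⟩, ?_⟩
    rw [Subgroup.mem_subgroupOf, Subgroup.mem_centralizer_iff] at hv
    rw [Subgroup.mem_centralizer_iff]
    rintro _ ⟨b, hb, rfl⟩
    exact (holo_inl_commute_iff V v b).mpr (hv b hb)

theorem holoV_inf_centralizer_card (V : Subgroup G) [V.Normal] (B : Subgroup G) :
    Nat.card ↥(holoV V ⊓
        Subgroup.centralizer ((B.map (holoHom V) : Subgroup (Holo V)) : Set (Holo V))) =
      Nat.card ↥(V ⊓ Subgroup.centralizer (B : Set G)) := by
  rw [holoV_inf_centralizer_map,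
    Subgroup.card_map_of_injective SemidirectProduct.inl_injective,
    ← Subgroup.inf_subgroupOf_left]
  exact Nat.card_congr (Subgroup.subgroupOfEquivOfLe inf_le_left).toEquiv

/-- The image of `G` acts faithfully on the copy of `V`. -/
theorem holo_faithful (V : Subgroup G) [V.Normal] (H : Subgroup (Holo V))
    (hH : H ≤ (holoHom V).range) :
    H ⊓ Subgroup.centralizer ((holoV V : Subgroup (Holo V)) : Set (Holo V)) = ⊥ := by
  rw [eq_bot_iff]
  rintro x ⟨hxH, hxC⟩
  obtain ⟨g, rfl⟩ := hH hxH
  rw [Subgroup.mem_bot, holoHom_eq_one_iff, Subgroup.mem_centralizer_iff]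
  intro v hv
  have hxC' : holoHom V g ∈
      Subgroup.centralizer ((holoV V : Subgroup (Holo V)) : Set (Holo V)) := hxC
  rw [Subgroup.mem_centralizer_iff] at hxC'
  have h1 := hxC' (SemidirectProduct.inl ⟨v, hv⟩) ⟨⟨v, hv⟩, rfl⟩
  exact ((holo_inl_commute_iff V ⟨v, hv⟩ g).mp h1.symm).symm

theorem holoV_elemAb (V : Subgroup G) {p : ℕ} (hV : Cfsg.IsElementaryAbelian p V) :
    Cfsg.IsElementaryAbelian p (holoV V) := by
  rw [Helper10.elemAb_iff] at hV ⊢
  constructor
  · rintro _ ⟨a, rfl⟩ _ ⟨b, rfl⟩
    rw [← map_mul, ← map_mul]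
    congr 1
    exact Subtype.ext (hV.1 a a.2 b b.2)
  · rintro _ ⟨a, rfl⟩
    rw [← map_pow]
    have : a ^ p = 1 := Subtype.ext (by simpa using hV.2 a a.2)
    rw [this, map_one]

theorem holo_map_comap (V : Subgroup G) [V.Normal] (A : Subgroup G) (B' : Subgroup (Holo V))
    (hB' : B' ≤ A.map (holoHom V)) : (A ⊓ B'.comap (holoHom V)).map (holoHom V) = B' := by
  apply le_antisymm
  · rintro _ ⟨b, hb, rfl⟩
    exact hb.2
  · intro b' hb'
    obtain ⟨a, ha, rfl⟩ := hB' hb'
    exact ⟨a, ⟨ha, hb'⟩, rfl⟩

theorem holo_card_eq (V : Subgroup G) [V.Normal] (B : Subgroup G) :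
    Nat.card B = Nat.card ↥((holoHom V).ker ⊓ B) * Nat.card ↥(B.map (holoHom V)) := by
  rw [Helper10.card_eq_card_mul_relIndex (inf_le_right : (holoHom V).ker ⊓ B ≤ B),
    Subgroup.inf_relIndex_right, Subgroup.relIndex_ker]

/-- Best offenders on `V` are carried to best offenders on the copy of `V` in the holomorph. -/
theorem holo_bestOffender [Finite G] (V : Subgroup G) [V.Normal] (p : ℕ) (A : Subgroup G)
    (hA : Cfsg.IsBestOffenderOn p V A) :
    Cfsg.IsBestOffenderOn p (holoV V) (A.map (holoHom V)) := by
  obtain ⟨h1, h2, h3⟩ := hA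
  refine ⟨?_, ?_, ?_⟩
  · intro B' hB'
    set B := A ⊓ B'.comap (holoHom V) with hB
    have hBm : B.map (holoHom V) = B' := holo_map_comap V A B' hB'
    have hk : (holoHom V).ker ⊓ B = (holoHom V).ker ⊓ A := by
      apply le_antisymm
      · exact inf_le_inf_left _ inf_le_left
      · rintro x ⟨hxk, hxA⟩
        refine ⟨hxk, hxA, ?_⟩
        have hxk' : holoHom V x = 1 := hxk
        show holoHom V x ∈ B'
        rw [hxk']; exact B'.one_mem
    have hcB := holo_card_eq V B
    have hcA := holo_card_eq V A
    rw [hk, hBm] at hcB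
    have hle := h1 B inf_le_left
    rw [hcB, hcA] at hle
    have hfB := holoV_inf_centralizer_card V B
    have hfA := holoV_inf_centralizer_card V A
    rw [hBm] at hfB
    rw [hfB, hfA]
    have hpos : 0 < Nat.card ↥((holoHom V).ker ⊓ A) := Nat.card_pos
    rw [mul_assoc, mul_assoc] at hle
    exact Nat.le_of_mul_le_mul_left hle hpos
  · rw [← Subgroup.map_commutator]
    rintro _ ⟨x, hx, rfl⟩
    have hx1 : holoHom V x = 1 := (holoHom_eq_one_iff V x).mpr (h2 hx)
    rw [hx1]; exact Subgroup.one_mem _
  · rintro _ ⟨a, ha, rfl⟩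
    have hx1 : holoHom V (a ^ p) = 1 := (holoHom_eq_one_iff V _).mpr (h3 a ha)
    rw [← map_pow, hx1]; exact Subgroup.one_mem _

end Cfsg.Agent.Helper11
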