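/-
CALL LM (helper21; row S4067), piece ETO: `p` odd, a non-central element `x` with `x ^ p = 1` in a
group with `G' ≤ Z(G)`, `|G'| = p` gives an automorphism moving every element outside
`M = C_G(x)` to a non-conjugate element.

Route: `β g = [g, x]` is a hom onto `G'`, `M = ker β`; `ψ := (zpowers x).subtype ∘ e ∘ β` with `e`
an isomorphism of the two groups of order `p`; `σ g = ψ g * g * ψ g` is a hom because
`(g, h) ↦ [g, ψ h]` is symmetric.
-/
import Mathlib

set_option autoImplicit false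

namespace Cfsg.Agent.Helper11.LM

/-- commutators are multiplicative in the first variable when they are central -/
theorem lm_comm_mul_left {G : Type*} [Group G]
    (hcen : ∀ a b t : G, t * (a * b * a⁻¹ * b⁻¹) = (a * b * a⁻¹ * b⁻¹) * t) (g h y : G) :
    (g * h) * y * (g * h)⁻¹ * y⁻¹ = (g * y * g⁻¹ * y⁻¹) * (h * y * h⁻¹ * y⁻¹) := by
  have e1 : (g * h) * y * (g * h)⁻¹ * y⁻¹ =
      g * (h * y * h⁻¹ * y⁻¹) * g⁻¹ * (g * y * g⁻¹ * y⁻¹) := by group
  rw [e1, hcen h y g, hcen h y (g * y * g⁻¹ * y⁻¹)]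
  group

/-- commutators are multiplicative in the second variable when they are central -/
theorem lm_comm_mul_right {G : Type*} [Group G]
    (hcen : ∀ a b t : G, t * (a * b * a⁻¹ * b⁻¹) = (a * b * a⁻¹ * b⁻¹) * t) (g y z : G) :
    g * (y * z) * g⁻¹ * (y * z)⁻¹ = (g * y * g⁻¹ * y⁻¹) * (g * z * g⁻¹ * z⁻¹) := by
  have e1 : g * (y * z) * g⁻¹ * (y * z)⁻¹ =
      (g * y * g⁻¹ * y⁻¹) * (y * (g * z * g⁻¹ * z⁻¹) * y⁻¹) := by group
  rw [e1, hcen g z y]
  group

/-- the multiplicativity computation for `g ↦ ψ g * g * ψ g` -/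
theorem lm_sigma_aux {G : Type*} [Group G] (g h P Q z : G) (hz : ∀ y, y * z = z * y)
    (h1 : g * Q = z * Q * g) (h2 : P * h = z⁻¹ * h * P) (hPQ : P * Q = Q * P) :
    P * Q * (g * h) * (P * Q) = P * g * P * (Q * h * Q) := by
  have e3 : z * Q * g = Q * g * z := by rw [mul_assoc, ← hz]
  have e : P * g * P * (Q * h * Q) = P * Q * (g * h) * (P * Q) := by
    calc P * g * P * (Q * h * Q) = P * g * (P * Q) * h * Q := by group
      _ = P * g * (Q * P) * h * Q := by rw [hPQ]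
      _ = P * (g * Q) * (P * h) * Q := by group
      _ = P * (z * Q * g) * (z⁻¹ * h * P) * Q := by rw [h1, h2]
      _ = P * (Q * g * z) * (z⁻¹ * h * P) * Q := by rw [e3]
      _ = P * Q * (g * h) * (P * Q) := by group
  exact e.symm

/-- ETO: `p` odd, a non-central element of order `p` gives a transvection automorphism. -/
theorem lm_eto {G : Type*} [Group G] [Finite G] (hZ : commutator G ≤ Subgroup.center G)
    (hc : Nat.card (commutator G) = (Nat.card G).minFac) (hodd : (Nat.card G).minFac ≠ 2)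
    (x : G) (hxZ : x ∉ Subgroup.center G) (hxp : x ^ (Nat.card G).minFac = 1) :
    ∃ σ : MulAut G, ∃ M : Subgroup G, M.index = (Nat.card G).minFac ∧ Subgroup.center G ≤ M ∧
      ∀ g : G, g ∉ M → ¬ IsConj g (σ g) := by
  classical
  obtain ⟨p, hp⟩ : ∃ p, p = (Nat.card G).minFac := ⟨_, rfl⟩
  rw [← hp] at hc hodd hxp ⊢
  have hx1 : x ≠ 1 := by
    rintro rfl
    exact hxZ (Subgroup.one_mem _)
  have hG1 : Nat.card G ≠ 1 := by
    intro h1
    have hsub : Subsingleton G := (Nat.card_eq_one_iff_unique.mp h1).1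
    exact hx1 (Subsingleton.elim x 1)
  have hpp : p.Prime := by
    rw [hp]
    exact Nat.minFac_prime hG1
  have hfact : Fact p.Prime := ⟨hpp⟩
  have hcomm_mem : ∀ a b : G, a * b * a⁻¹ * b⁻¹ ∈ commutator G := by
    intro a b
    rw [commutator_def, ← commutatorElement_def]
    exact Subgroup.commutator_mem_commutator (Subgroup.mem_top a) (Subgroup.mem_top b)
  have hcen : ∀ a b t : G, t * (a * b * a⁻¹ * b⁻¹) = (a * b * a⁻¹ * b⁻¹) * t := by
    intro a b t
    exact Subgroup.mem_center_iff.mp (hZ (hcomm_mem a b)) t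
  -- the hom `β g = [g, x]`
  obtain ⟨β, hβ⟩ : ∃ β : G →* G, ∀ g, β g = g * x * g⁻¹ * x⁻¹ :=
    ⟨MonoidHom.mk' (fun g => g * x * g⁻¹ * x⁻¹) (fun g h => lm_comm_mul_left hcen g h x),
      fun g => rfl⟩
  have hβx : β x = 1 := by
    rw [hβ]
    group
  have hβrange : β.range ≤ commutator G := by
    rintro _ ⟨g, rfl⟩
    rw [hβ]
    exact hcomm_mem g x
  obtain ⟨a, ha⟩ : ∃ a : G, β a ≠ 1 := by
    by_contra hcon
    push Not at hcon
    apply hxZ
    rw [Subgroup.mem_center_iff]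
    intro g
    have h1 := hcon g
    rw [hβ] at h1
    have h2 : g * x = (g * x * g⁻¹ * x⁻¹) * (x * g) := by group
    rw [h2, h1, one_mul]
  have hcard_range : Nat.card β.range = p := by
    have h1 : Nat.card β.range ∣ p := by
      rw [← hc]
      exact Subgroup.card_dvd_of_le hβrange
    rcases (Nat.dvd_prime hpp).mp h1 with h2 | h2
    · exfalso
      have h3 : β.range = ⊥ := Subgroup.card_eq_one.mp h2
      have h4 : β a ∈ β.range := ⟨a, rfl⟩
      rw [h3, Subgroup.mem_bot] at h4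
      exact ha h4
    · exact h2
  have hox : orderOf x = p := orderOf_eq_prime hxp hx1
  have hcard_zp : Nat.card (Subgroup.zpowers x) = p := by
    rw [Nat.card_zpowers, hox]
  -- the hom `ψ`
  obtain ⟨e⟩ : Nonempty (↥β.range ≃* ↥(Subgroup.zpowers x)) :=
    ⟨mulEquivOfPrimeCardEq hcard_range hcard_zp⟩
  obtain ⟨ψ, hψ⟩ : ∃ ψ : G →* G, ∀ g, ψ g = ((e (β.rangeRestrict g) : ↥(Subgroup.zpowers x)) : G) :=
    ⟨(Subgroup.zpowers x).subtype.comp (e.toMonoidHom.comp β.rangeRestrict), fun g => rfl⟩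
  have hψmem : ∀ g, ψ g ∈ Subgroup.zpowers x := by
    intro g
    rw [hψ]
    exact (e (β.rangeRestrict g)).2
  have hψker : ∀ g, β g = 1 → ψ g = 1 := by
    intro g hg
    have h1 : β.rangeRestrict g = 1 := Subtype.ext hg
    rw [hψ, h1, map_one]
    rfl
  have hψinj : ∀ g, ψ g = 1 → β g = 1 := by
    intro g hg
    rw [hψ] at hg
    have h1 : e (β.rangeRestrict g) = 1 := Subtype.ext hg
    have h2 : β.rangeRestrict g = 1 := by
      rw [← map_one e] at h1
      exact e.injective h1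
    exact congrArg Subtype.val h2
  have hβzp : ∀ y ∈ Subgroup.zpowers x, β y = 1 := by
    intro y hy
    obtain ⟨n, rfl⟩ := Subgroup.mem_zpowers_iff.mp hy
    rw [map_zpow, hβx, one_zpow]
  have hψψ : ∀ g, ψ (ψ g) = 1 := fun g => hψker _ (hβzp _ (hψmem g))
  have hψcomm : ∀ g h, ψ g * ψ h = ψ h * ψ g := by
    intro g h
    obtain ⟨n, hn⟩ := Subgroup.mem_zpowers_iff.mp (hψmem g)
    obtain ⟨m, hm⟩ := Subgroup.mem_zpowers_iff.mp (hψmem h)
    rw [← hn, ← hm, ← zpow_add, ← zpow_add, add_comm]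
  -- everything is a power of `β a`
  have hra : β.rangeRestrict a ≠ 1 := by
    intro h
    exact ha (congrArg Subtype.val h)
  have htop : Subgroup.zpowers (β.rangeRestrict a) = ⊤ :=
    zpowers_eq_top_of_prime_card hcard_range hra
  have hpow : ∀ g, ∃ k : ℤ, β g = β a ^ k ∧ ψ g = ψ a ^ k := by
    intro g
    have h1 : β.rangeRestrict g ∈ Subgroup.zpowers (β.rangeRestrict a) := by
      rw [htop]
      exact Subgroup.mem_top _
    obtain ⟨k, hk⟩ := Subgroup.mem_zpowers_iff.mp h1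
    refine ⟨k, ?_, ?_⟩
    · have h2 := congrArg Subtype.val hk
      rw [Subgroup.coe_zpow] at h2
      exact h2.symm
    · rw [hψ, hψ, ← hk, map_zpow, Subgroup.coe_zpow]
  obtain ⟨c, hcx⟩ := Subgroup.mem_zpowers_iff.mp (hψmem a)
  have hsym : ∀ g h, g * ψ h * g⁻¹ * (ψ h)⁻¹ = h * ψ g * h⁻¹ * (ψ g)⁻¹ := by
    have key : ∀ g h (k l : ℤ), β g = β a ^ k → ψ h = ψ a ^ l →
        g * ψ h * g⁻¹ * (ψ h)⁻¹ = β a ^ (k * (c * l)) := by
      intro g h k l hk hl
      obtain ⟨γ, hγ⟩ : ∃ γ : G →* G, ∀ y, γ y = g * y * g⁻¹ * y⁻¹ :=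
        ⟨MonoidHom.mk' (fun y => g * y * g⁻¹ * y⁻¹) (fun y z => lm_comm_mul_right hcen g y z),
          fun y => rfl⟩
      rw [← hγ, hl, ← hcx, map_zpow, map_zpow, hγ, ← hβ, hk, ← zpow_mul, ← zpow_mul]
    intro g h
    obtain ⟨k, hk1, hk2⟩ := hpow g
    obtain ⟨l, hl1, hl2⟩ := hpow h
    rw [key g h k l hk1 hl2, key h g l k hl1 hk2]
    congr 1
    ring
  -- the automorphism
  have hσmul : ∀ g h, ψ (g * h) * (g * h) * ψ (g * h) = ψ g * g * ψ g * (ψ h * h * ψ h) := by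
    intro g h
    rw [map_mul]
    refine lm_sigma_aux g h (ψ g) (ψ h) (g * ψ h * g⁻¹ * (ψ h)⁻¹) (fun y => hcen g (ψ h) y) ?_ ?_
      (hψcomm g h)
    · group
    · rw [hsym g h]
      group
  obtain ⟨σ₀, hσ₀⟩ : ∃ σ₀ : G →* G, ∀ g, σ₀ g = ψ g * g * ψ g :=
    ⟨MonoidHom.mk' (fun g => ψ g * g * ψ g) hσmul, fun g => rfl⟩
  have hσinj : Function.Injective σ₀ := by
    rw [injective_iff_map_eq_one]
    intro g hg
    rw [hσ₀] at hg
    have h1 : g = (ψ g)⁻¹ * (ψ g)⁻¹ := by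
      calc g = (ψ g)⁻¹ * (ψ g * g * ψ g) * (ψ g)⁻¹ := by group
        _ = (ψ g)⁻¹ * (ψ g)⁻¹ := by rw [hg, mul_one]
    have h3 : ψ g = 1 := by
      have h4 : ψ g = ψ ((ψ g)⁻¹ * (ψ g)⁻¹) := congrArg ψ h1
      rw [map_mul, map_inv, hψψ, inv_one, one_mul] at h4
      exact h4
    calc g = (ψ g)⁻¹ * (ψ g)⁻¹ := h1
      _ = 1 := by rw [h3, inv_one, one_mul]
  have hσbij : Function.Bijective σ₀ := ⟨hσinj, Finite.surjective_of_injective hσinj⟩
  refine ⟨MulEquiv.ofBijective σ₀ hσbij, β.ker, ?_, ?_, ?_⟩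
  · rw [Subgroup.index_ker, hcard_range]
  · intro z hz
    rw [MonoidHom.mem_ker, hβ]
    have h1 : x * z = z * x := Subgroup.mem_center_iff.mp hz x
    rw [← h1]
    group
  · intro g hg hconj
    rw [MonoidHom.mem_ker] at hg
    rw [MulEquiv.ofBijective_apply, hσ₀, isConj_iff] at hconj
    obtain ⟨t, ht⟩ := hconj
    -- `(ψ g)^2` is central
    have h1 : ψ g * ψ g = (g * ψ g * g⁻¹ * (ψ g)⁻¹)⁻¹ * (t * g * t⁻¹ * g⁻¹) := by
      have e1 : t * g * t⁻¹ * g⁻¹ = ψ g * (g * ψ g * g⁻¹ * (ψ g)⁻¹) * ψ g := by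
        rw [ht]
        group
      rw [e1, hcen g (ψ g) (ψ g)]
      group
    have h2 : ψ g * ψ g ∈ Subgroup.center G := by
      rw [h1]
      exact Subgroup.mul_mem _ (Subgroup.inv_mem _ (hZ (hcomm_mem g (ψ g)))) (hZ (hcomm_mem t g))
    have hψg1 : ψ g ≠ 1 := fun h => hg (hψinj g h)
    have h3 : ψ g * ψ g ≠ 1 := by
      intro h
      have h4 : orderOf (ψ g) ∣ 2 := orderOf_dvd_of_pow_eq_one (by rw [pow_two]; exact h)
      have h5 : orderOf (ψ g) ∣ p := by
        obtain ⟨n, hn⟩ := Subgroup.mem_zpowers_iff.mp (hψmem g)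
        apply orderOf_dvd_of_pow_eq_one
        rw [← hn, ← zpow_natCast, ← zpow_mul, mul_comm, zpow_mul, zpow_natCast, hxp, one_zpow]
      rcases (Nat.dvd_prime hpp).mp h5 with h6 | h6
      · exact hψg1 (orderOf_eq_one_iff.mp h6)
      · rw [h6] at h4
        exact hodd ((Nat.prime_dvd_prime_iff_eq hpp Nat.prime_two).mp h4)
    -- so `x` is central
    have h7 : (⟨ψ g * ψ g, Subgroup.mul_mem _ (hψmem g) (hψmem g)⟩ : ↥(Subgroup.zpowers x)) ≠ 1 := by
      intro h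
      exact h3 (congrArg Subtype.val h)
    have h8 := zpowers_eq_top_of_prime_card hcard_zp h7
    have h9 : (⟨x, Subgroup.mem_zpowers x⟩ : ↥(Subgroup.zpowers x)) ∈
        Subgroup.zpowers (⟨ψ g * ψ g, Subgroup.mul_mem _ (hψmem g) (hψmem g)⟩ :
          ↥(Subgroup.zpowers x)) := by
      rw [h8]
      exact Subgroup.mem_top _
    obtain ⟨n, hn⟩ := Subgroup.mem_zpowers_iff.mp h9
    have h10 : (ψ g * ψ g) ^ n = x := by
      have := congrArg Subtype.val hn
      rw [Subgroup.coe_zpow] at this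
      exact this
    apply hxZ
    rw [← h10]
    exact Subgroup.zpow_mem _ h2 n

end Cfsg.Agent.Helper11.LM
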