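/-
CALL S1906 (helper14), piece T1A: the transfer of an involution is the product over the cosets
fixed by it.
-/
import Mathlib

set_option autoImplicit false

namespace Cfsg.Agent.Helper11.S1906P

variable {G : Type*} [Group G] [Finite G] {A : Type*} [CommGroup A]

omit [Finite G] in
open scoped Classical in
theorem s1906_t1a_aux (H : Subgroup G) (ϕ : ↥H →* A) (u : G) (hu2 : u * u = 1)
    [Fintype (G ⧸ H)] (t : G ⧸ H → G) (ht : ∀ q, t q ∈ H)
    (hteq : ∀ q : G ⧸ H, t q = q.out⁻¹ * (u * (u • q).out)) :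
    ∏ q : G ⧸ H, ϕ ⟨t q, ht q⟩ =
      ∏ q : G ⧸ H, (if h : q.out⁻¹ * u * q.out ∈ H then ϕ ⟨q.out⁻¹ * u * q.out, h⟩ else 1) := by
  have hfix : ∀ q : G ⧸ H, u • q = q ↔ q.out⁻¹ * u * q.out ∈ H := by
    intro q
    have h1 : u • q = ((u * q.out : G) : G ⧸ H) := by
      conv_lhs => rw [← QuotientGroup.out_eq' q]
      rfl
    rw [h1]
    conv_lhs => rhs; rw [← QuotientGroup.out_eq' q]
    rw [QuotientGroup.eq, ← H.inv_mem_iff]
    simp [mul_assoc]
  have hD : ∀ q : G ⧸ H, u • q = q →
      (if h : q.out⁻¹ * u * q.out ∈ H then ϕ ⟨q.out⁻¹ * u * q.out, h⟩ else 1) =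
        ϕ ⟨t q, ht q⟩ := by
    intro q hq
    rw [dif_pos ((hfix q).mp hq)]
    refine congrArg ϕ (Subtype.ext ?_)
    change q.out⁻¹ * u * q.out = t q
    rw [hteq q, hq, mul_assoc]
  have key : ∏ q : G ⧸ H, (ϕ ⟨t q, ht q⟩ /
      (if h : q.out⁻¹ * u * q.out ∈ H then ϕ ⟨q.out⁻¹ * u * q.out, h⟩ else 1)) = 1 := by
    refine Finset.prod_involution (fun q _ => u • q) ?_ ?_ ?_ ?_
    · intro q _
      by_cases hq : u • q = q
      · rw [hq, hD q hq, div_self', one_mul]
      · have hq' : u • (u • q) ≠ u • q := by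
          rw [smul_smul, hu2, one_smul]
          exact fun h => hq h.symm
        rw [dif_neg ((hfix q).not.mp hq), dif_neg ((hfix (u • q)).not.mp hq'), div_one, div_one,
          ← map_mul]
        have h3 : (⟨t q, ht q⟩ : ↥H) * ⟨t (u • q), ht (u • q)⟩ = 1 := by
          apply Subtype.ext
          rw [Subgroup.coe_mul, Subgroup.coe_one]
          change t q * t (u • q) = 1
          rw [hteq q, hteq (u • q), smul_smul, hu2, one_smul]
          calc q.out⁻¹ * (u * (u • q).out) * ((u • q).out⁻¹ * (u * q.out))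
              = q.out⁻¹ * (u * u) * q.out := by group
            _ = 1 := by rw [hu2, mul_one, inv_mul_cancel]
        rw [h3, map_one]
    · intro q _ hne hq
      apply hne
      rw [hD q hq, div_self']
    · intro q _
      exact Finset.mem_univ _
    · intro q _
      rw [smul_smul, hu2, one_smul]
  rw [Finset.prod_div_distrib, div_eq_one] at key
  exact key

open scoped Classical in
theorem s1906_t1a (H : Subgroup G) (ϕ : ↥H →* A) (u : G) (hu2 : u * u = 1) :
    MonoidHom.transfer ϕ u =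
      ∏ᶠ q : G ⧸ H, (if h : q.out⁻¹ * u * q.out ∈ H then ϕ ⟨q.out⁻¹ * u * q.out, h⟩ else 1) := by
  let _ : Fintype (G ⧸ H) := H.fintypeQuotientOfFiniteIndex
  rw [finprod_eq_prod_of_fintype]
  have hinv : u⁻¹ = u := inv_eq_of_mul_eq_one_right hu2
  let T : H.LeftTransversal :=
    ⟨Set.range Quotient.out, Subgroup.isComplement_range_left Quotient.out_eq'⟩
  have hT : ∀ q : G ⧸ H, (T.2.leftQuotientEquiv q : G) = q.out := fun q =>
    Subgroup.IsComplement.leftQuotientEquiv_apply Quotient.out_eq' q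
  have hT' : ∀ q : G ⧸ H, ((u • T).2.leftQuotientEquiv q : G) = u * (u • q).out := by
    intro q
    rw [Subgroup.smul_apply_eq_smul_apply_inv_smul, hT, smul_eq_mul, hinv]
  rw [MonoidHom.transfer_def ϕ T u]
  unfold Subgroup.leftTransversals.diff
  exact s1906_t1a_aux H ϕ u hu2 _ _ (fun q => by rw [hT, hT'])

end Cfsg.Agent.Helper11.S1906P
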