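/-
CALL S1906 (helper14), piece T1B: orbit parity of a Sylow 2-subgroup on its cosets.
-/
import Mathlib

set_option autoImplicit false

namespace Cfsg.Agent.Helper11.S1906P

theorem s1906_t1b_even {X : Type*} [Group X] [Finite X] (hX : IsPGroup 2 X) {Ω : Type*}
    [MulAction X Ω] [Finite Ω] (S : Set Ω) (hS : ∀ x : X, ∀ q ∈ S, x • q ∈ S)
    (hfix : ∀ q ∈ S, ∃ x : X, x • q ≠ q) : Even (Nat.card S) := by
  have : Fact (Nat.Prime 2) := ⟨Nat.prime_two⟩
  let Sb : SubMulAction X Ω := { carrier := S, smul_mem' := fun x q hq => hS x q hq }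
  have h1 := hX.card_modEq_card_fixedPoints Sb
  have h2 : IsEmpty (MulAction.fixedPoints X Sb) := by
    constructor
    rintro ⟨⟨q, hq⟩, hfixed⟩
    obtain ⟨x, hx⟩ := hfix q hq
    apply hx
    have h3 := hfixed x
    exact congrArg Subtype.val h3
  have h4 : Nat.card (MulAction.fixedPoints X Sb) = 0 := Nat.card_of_isEmpty
  rw [h4] at h1
  exact even_iff_two_dvd.mpr ((Nat.modEq_zero_iff_dvd).mp h1)

variable {G : Type*} [Group G] [Finite G] {A : Type*} [CommGroup A]

theorem s1906_t1b (X : Sylow 2 G) (ψ : G ⧸ (X : Subgroup G) → A) (c : A) (hc : c * c = 1)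
    (hinv : ∀ x ∈ (X : Subgroup G), ∀ g : G,
      ψ ((x * g : G) : G ⧸ (X : Subgroup G)) = ψ ((g : G) : G ⧸ (X : Subgroup G)))
    (hsq : ∀ q, ψ q * ψ q = 1)
    (hN : ∀ h : G, (∀ x ∈ (X : Subgroup G), h⁻¹ * x * h ∈ (X : Subgroup G)) →
      ψ ((h : G) : G ⧸ (X : Subgroup G)) = c) :
    ∏ᶠ q : G ⧸ (X : Subgroup G), ψ q = c := by
  classical
  have : Fact (Nat.Prime 2) := ⟨Nat.prime_two⟩
  let _ : Fintype (G ⧸ (X : Subgroup G)) := Fintype.ofFinite _
  rw [finprod_eq_prod_of_fintype]
  have hX : IsPGroup 2 ↥(X : Subgroup G) := X.isPGroup'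
  have hinv' : ∀ (x : ↥(X : Subgroup G)) (q : G ⧸ (X : Subgroup G)), ψ (x • q) = ψ q := by
    intro x q
    induction q using QuotientGroup.induction_on with
    | H g => exact hinv x.1 x.2 g
  have hfixc : ∀ q : G ⧸ (X : Subgroup G), (∀ x : ↥(X : Subgroup G), x • q = q) → ψ q = c := by
    intro q hq
    induction q using QuotientGroup.induction_on with
    | H h =>
      apply hN
      intro x hx
      have h1 := hq ⟨x⁻¹, inv_mem hx⟩
      have h2 : ((x⁻¹ * h : G) : G ⧸ (X : Subgroup G)) = (h : G ⧸ (X : Subgroup G)) := h1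
      rw [QuotientGroup.eq] at h2
      simpa [mul_assoc] using h2
  have heven : ∀ b : A, b ≠ c →
      Even (Finset.card (Finset.univ.filter (fun q : G ⧸ (X : Subgroup G) => ψ q = b))) := by
    intro b hb
    have h1 := s1906_t1b_even hX {q : G ⧸ (X : Subgroup G) | ψ q = b}
      (fun x q hq => by
        change ψ q = b at hq
        change ψ (x • q) = b
        rw [hinv' x q, hq])
      (fun q hq => by
        by_contra hcon
        push Not at hcon
        exact hb ((show ψ q = b from hq).symm.trans (hfixc q hcon)))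
    rwa [Nat.card_eq_fintype_card, Fintype.card_subtype] at h1
  have hevenc :
      Even (Finset.card (Finset.univ.filter (fun q : G ⧸ (X : Subgroup G) => ¬ ψ q = c))) := by
    have h1 := s1906_t1b_even hX {q : G ⧸ (X : Subgroup G) | ¬ ψ q = c}
      (fun x q hq => by
        change ¬ ψ q = c at hq
        change ¬ ψ (x • q) = c
        rw [hinv' x q]
        exact hq)
      (fun q hq => by
        by_contra hcon
        push Not at hcon
        exact (show ¬ ψ q = c from hq) (hfixc q hcon))
    rwa [Nat.card_eq_fintype_card, Fintype.card_subtype] at h1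
  have hoddΩ : Odd (Fintype.card (G ⧸ (X : Subgroup G))) := by
    rw [← Nat.card_eq_fintype_card, ← Subgroup.index_eq_card, ← Nat.not_even_iff_odd,
      even_iff_two_dvd]
    exact X.not_dvd_index
  have hodd :
      Odd (Finset.card (Finset.univ.filter (fun q : G ⧸ (X : Subgroup G) => ψ q = c))) := by
    have h2 := Finset.card_filter_add_card_filter_not
      (s := (Finset.univ : Finset (G ⧸ (X : Subgroup G)))) (fun q => ψ q = c)
    rw [Finset.card_univ] at h2
    rw [← h2] at hoddΩ
    rcases Nat.even_or_odd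
      (Finset.card (Finset.univ.filter (fun q : G ⧸ (X : Subgroup G) => ψ q = c))) with h | h
    · exact absurd (h.add hevenc) (Nat.not_even_iff_odd.mpr hoddΩ)
    · exact h
  have hcomp := Finset.prod_comp (s := (Finset.univ : Finset (G ⧸ (X : Subgroup G))))
    (fun a : A => a) ψ
  rw [hcomp, Finset.prod_eq_single c]
  · obtain ⟨k, hk⟩ := hodd
    rw [hk, pow_succ, pow_mul, pow_two, hc, one_pow, one_mul]
  · intro b hbmem hb
    obtain ⟨k, hk⟩ := heven b hb
    obtain ⟨q, -, rfl⟩ := Finset.mem_image.mp hbmem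
    rw [hk, ← two_mul, pow_mul, pow_two, hsq q, one_pow]
  · intro hnot
    exfalso
    apply hnot
    have hpos : 0 <
        Finset.card (Finset.univ.filter (fun q : G ⧸ (X : Subgroup G) => ψ q = c)) := hodd.pos
    obtain ⟨q, hq⟩ := Finset.card_pos.mp hpos
    exact Finset.mem_image.mpr ⟨q, Finset.mem_univ _, (Finset.mem_filter.mp hq).2⟩

end Cfsg.Agent.Helper11.S1906P
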