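/-
CALL S1906 (helper14), piece T2: a homomorphism to an abelian group that is nontrivial on an
involution gives a subgroup of index 2.
-/
import Mathlib

set_option autoImplicit false

namespace Cfsg.Agent.Helper11.S1906P

variable {G : Type*} [Group G] [Finite G] {A : Type*} [CommGroup A]

theorem s1906_t2 (Vt : G →* A) (u : G) (hu2 : u * u = 1) (hV : Vt u ≠ 1) :
    ∃ H : Subgroup G, H.index = 2 := by
  have : Fact (Nat.Prime 2) := ⟨Nat.prime_two⟩
  obtain ⟨a, m, hm, hcard⟩ := Nat.exists_eq_two_pow_mul_odd (Nat.card_pos (α := G)).ne'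
  -- the homomorphism `g ↦ (Vt g) ^ m`
  let f : G →* A := (powMonoidHom m).comp Vt
  have hf : ∀ g : G, f g = Vt g ^ m := fun g => rfl
  have hf2 : ∀ g : G, f g ^ 2 ^ a = 1 := by
    intro g
    rw [hf, ← pow_mul, mul_comm, ← hcard, ← map_pow, pow_card_eq_one', map_one]
  have hVu2 : Vt u ^ 2 = 1 := by rw [pow_two, ← map_mul, hu2, map_one]
  have hfu : f u = Vt u := by
    obtain ⟨k, hk⟩ := hm
    rw [hf, hk, pow_succ, pow_mul, hVu2, one_pow, one_mul]
  have : Finite ↥f.range := Finite.of_surjective f.rangeRestrict f.rangeRestrict_surjective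
  have hPR : IsPGroup 2 ↥f.range := by
    rintro ⟨r, g, rfl⟩
    refine ⟨a, ?_⟩
    exact Subtype.ext (by rw [Subgroup.coe_pow, Subgroup.coe_one]; exact hf2 g)
  obtain ⟨k, hk⟩ := IsPGroup.iff_card.mp hPR
  have hk0 : k ≠ 0 := by
    rintro rfl
    rw [pow_zero] at hk
    have h1 : Subsingleton ↥f.range := (Nat.card_eq_one_iff_unique.mp hk).1
    have h2 : (⟨f u, u, rfl⟩ : ↥f.range) = 1 := Subsingleton.elim _ _
    have h3 : f u = 1 := congrArg Subtype.val h2
    exact hV (hfu ▸ h3)
  obtain ⟨K, hK⟩ := Sylow.exists_subgroup_card_pow_prime (G := ↥f.range) 2 (n := k - 1)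
    (by rw [hk]; exact pow_dvd_pow 2 (Nat.sub_le k 1))
  have hKi : K.index = 2 := by
    have h1 := K.index_mul_card
    rw [hK, hk] at h1
    have h2 : (2 : ℕ) ^ k = 2 * 2 ^ (k - 1) := by
      rw [← pow_succ']
      congr 1
      omega
    rw [h2] at h1
    exact Nat.eq_of_mul_eq_mul_right (by positivity) h1
  refine ⟨K.comap f.rangeRestrict, ?_⟩
  rw [Subgroup.index_comap_of_surjective K f.rangeRestrict_surjective, hKi]

end Cfsg.Agent.Helper11.S1906P
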