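/-
CALL S1906 (helper14), piece TW: the transfer factor at a coset does not depend on the
representative.
-/
import Mathlib

set_option autoImplicit false

namespace Cfsg.Agent.Helper11.S1906P

variable {G : Type*} [Group G] [Finite G] {A : Type*} [CommGroup A]

open scoped Classical in
theorem s1906_tw (H : Subgroup G) (ϕ : ↥H →* A) (u g : G) :
    (if h : (g : G ⧸ H).out⁻¹ * u * (g : G ⧸ H).out ∈ H then
        ϕ ⟨(g : G ⧸ H).out⁻¹ * u * (g : G ⧸ H).out, h⟩ else 1) =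
      (if h : g⁻¹ * u * g ∈ H then ϕ ⟨g⁻¹ * u * g, h⟩ else 1) := by
  obtain ⟨x, hx⟩ := QuotientGroup.mk_out_eq_mul H g
  have e : (g : G ⧸ H).out⁻¹ * u * (g : G ⧸ H).out = (x : G)⁻¹ * (g⁻¹ * u * g) * x := by
    rw [hx]; group
  by_cases h : g⁻¹ * u * g ∈ H
  · have h' : (g : G ⧸ H).out⁻¹ * u * (g : G ⧸ H).out ∈ H := by
      rw [e]
      exact H.mul_mem (H.mul_mem (H.inv_mem x.2) h) x.2
    rw [dif_pos h, dif_pos h']
    have h3 : (⟨_, h'⟩ : ↥H) = x⁻¹ * ⟨g⁻¹ * u * g, h⟩ * x := Subtype.ext e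
    rw [h3, map_mul, map_mul, map_inv, mul_comm, ← mul_assoc, mul_inv_cancel, one_mul]
  · have h' : ¬ (g : G ⧸ H).out⁻¹ * u * (g : G ⧸ H).out ∈ H := by
      rw [e]
      intro hc
      apply h
      have h4 := H.mul_mem (H.mul_mem x.2 hc) (H.inv_mem x.2)
      have h5 : (x : G) * ((x : G)⁻¹ * (g⁻¹ * u * g) * x) * (x : G)⁻¹ = g⁻¹ * u * g := by group
      rwa [h5] at h4
    rw [dif_neg h, dif_neg h']

end Cfsg.Agent.Helper11.S1906P
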