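import Mathlib
import Cfsg.Agent.Helper11.HoloTransport
import Cfsg.Agent.Helper10.PCore
import Cfsg.Agent.Helper63.PSolv
import Cfsg.Agent.Helper63.HHPSol
import Cfsg.Agent.Helper46.SFourE
import Cfsg.Agent.S0602
import Cfsg.Agent.S0606
import Cfsg.Agent.S0617

/-!
Helper library of seat helper11: in a finite solvable group without sections isomorphic to the
symmetric group of degree 4, the Thompson subgroup `J(G)` (for the prime 2) centralizes every
normal elementary abelian 2-subgroup `V` with `O_2(G / C_G(V)) = 1`.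
Everything lives in `Cfsg.Agent.Helper11`.
-/

set_option autoImplicit false

namespace Cfsg.Agent.Helper11

open Cfsg

theorem sl2_two_inverted : ∃ x y : Matrix.SpecialLinearGroup (Fin 2) (ZMod 2),
    y ≠ 1 ∧ y ^ 3 = 1 ∧ x * y * x⁻¹ * y = 1 := by
  refine ⟨⟨!![0, 1; 1, 0], by decide⟩, ⟨!![0, 1; 1, 1], by decide⟩, ?_, ?_, ?_⟩
  · intro h
    have h2 := congrArg (fun m : Matrix.SpecialLinearGroup (Fin 2) (ZMod 2) => m.1 0 0) h
    revert h2
    decide
  · decide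
  · decide

/-- A `p`-subgroup `K₀` normalized by `A` meets `A` inside `O_p(A)`. -/
theorem holo_mem_pCore_map {X : Type*} [Group X] {p : ℕ} (A K₀ : Subgroup X)
    (hK₀ : IsPGroup p K₀) (hK : ∀ γ ∈ A, ∀ κ ∈ K₀, γ * κ * γ⁻¹ ∈ K₀) {κ : X} (hκK : κ ∈ K₀)
    (hκA : κ ∈ A) : κ ∈ (Cfsg.pCore p A).map A.subtype := by
  have hKn : (K₀.subgroupOf A).Normal := by
    constructor
    intro n hn g
    rw [Subgroup.mem_subgroupOf] at hn ⊢
    exact hK g.1 g.2 n.1 hn
  have hKp : IsPGroup p (K₀.subgroupOf A) := hK₀.comap_subtype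
  have hle : K₀.subgroupOf A ≤ Cfsg.pCore p A := Helper10.le_pCore _ hKn hKp
  exact ⟨⟨κ, hκA⟩, hle (by rw [Subgroup.mem_subgroupOf]; exact hκK), rfl⟩

/-- The image of a normal subgroup `J` of `G` in the holomorph of `V` has trivial `O_p` as soon as
`O_p(G / C_G(V)) = 1`. -/
theorem holo_pCore_eq_bot {G : Type*} [Group G] [Finite G] {p : ℕ} [Fact p.Prime]
    (V : Subgroup G) [V.Normal]
    (hD : ∀ D : Subgroup G, D.Normal → Subgroup.centralizer (V : Set G) ≤ D →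
      (∃ k : ℕ, (Subgroup.centralizer (V : Set G)).relIndex D = p ^ k) →
      D = Subgroup.centralizer (V : Set G))
    (J : Subgroup G) [hJ : J.Normal] : Cfsg.pCore p ↥(J.map (holoHom V)) = ⊥ := by
  haveI := holo_finite V
  set φ := holoHom V with hφ
  set H := J.map φ with hH
  set P := (Cfsg.pCore p ↥H).map H.subtype with hP
  have hPH : P ≤ H := by
    rintro _ ⟨x, _, rfl⟩
    exact x.2
  have hPp : IsPGroup p P := (Helper10.pCore_isPGroup p ↥H).map _
  have hPn : ∀ γ ∈ H, ∀ κ ∈ P, γ * κ * γ⁻¹ ∈ P := by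
    rintro γ hγ _ ⟨k, hk, rfl⟩
    exact ⟨⟨γ, hγ⟩ * k * ⟨γ, hγ⟩⁻¹,
      (Helper10.pCore_normal p ↥H).conj_mem k hk ⟨γ, hγ⟩, rfl⟩
  have hHconj : ∀ g : G, ∀ γ ∈ H, (φ g)⁻¹ * γ * φ g ∈ H := by
    rintro g _ ⟨j, hj, rfl⟩
    refine ⟨g⁻¹ * j * g, ?_, by rw [map_mul, map_mul, map_inv]⟩
    have h := hJ.conj_mem j hj g⁻¹
    rwa [inv_inv] at h
  have hconj : ∀ g : G, ∀ k ∈ P, φ g * k * (φ g)⁻¹ ∈ P := by
    intro g k hk
    refine holo_mem_pCore_map H (P.map (MulAut.conj (φ g)).toMonoidHom) (hPp.map _) ?_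
      ⟨k, hk, rfl⟩ ?_
    · rintro γ hγ _ ⟨k', hk', rfl⟩
      refine ⟨(φ g)⁻¹ * γ * φ g * k' * ((φ g)⁻¹ * γ * φ g)⁻¹, hPn _ (hHconj g γ hγ) k' hk', ?_⟩
      show φ g * ((φ g)⁻¹ * γ * φ g * k' * ((φ g)⁻¹ * γ * φ g)⁻¹) * (φ g)⁻¹ =
        γ * (φ g * k' * (φ g)⁻¹) * γ⁻¹
      group
    · obtain ⟨j, hj, rfl⟩ := hPH hk
      exact ⟨g * j * g⁻¹, hJ.conj_mem j hj g, by rw [map_mul, map_mul, map_inv]⟩
  have hDn : (P.comap φ).Normal := by
    constructor
    intro d hd g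
    show φ (g * d * g⁻¹) ∈ P
    rw [map_mul, map_mul, map_inv]
    exact hconj g _ hd
  have hCD : Subgroup.centralizer (V : Set G) ≤ P.comap φ := by
    intro c hc
    show φ c ∈ P
    rw [(holoHom_eq_one_iff V c).mpr hc]
    exact P.one_mem
  have hDm : (P.comap φ).map φ = P :=
    Subgroup.map_comap_eq_self (hPH.trans (Subgroup.map_le_range _ _))
  have hrel : ∃ k : ℕ, (Subgroup.centralizer (V : Set G)).relIndex (P.comap φ) = p ^ k := by
    rw [← holoHom_ker V, Subgroup.relIndex_ker, hDm]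
    exact IsPGroup.iff_card.mp hPp
  have hDC := hD (P.comap φ) hDn hCD hrel
  have hPbot : P = ⊥ := by
    rw [← hDm, hDC, ← holoHom_ker V]
    exact (Subgroup.map_eq_bot_iff _).mpr le_rfl
  exact (Subgroup.map_eq_bot_iff_of_injective _ H.subtype_injective).mp hPbot

/-- In a solvable `S₄`-free group the Thompson subgroup centralizes every normal elementary
abelian 2-subgroup `V` with `O_2(G / C_G(V)) = 1`. -/
theorem s4free_thompson_le_centralizer {G : Type*} [Group G] [Finite G]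
    [hsol : Group.IsSolvable G] (hS4 : ¬ Cfsg.Involves (Equiv.Perm (Fin 4)) G)
    (V : Subgroup G) [hVn : V.Normal] (hV : Cfsg.IsElementaryAbelian 2 V)
    (hD : ∀ D : Subgroup G, D.Normal → Subgroup.centralizer (V : Set G) ≤ D →
      (∃ k : ℕ, (Subgroup.centralizer (V : Set G)).relIndex D = 2 ^ k) →
      D = Subgroup.centralizer (V : Set G)) :
    Cfsg.thompsonSubgroup 2 G ≤ Subgroup.centralizer (V : Set G) := by
  haveI : Fact (Nat.Prime 2) := ⟨Nat.prime_two⟩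
  by_contra hnot
  apply hS4
  haveI := holo_finite V
  set φ := holoHom V with hφ
  haveI hJn : (Cfsg.thompsonSubgroup 2 G).Normal :=
    haveI := (Cfsg.Agent.S0602.result (G := G) (p := 2)).1
    Subgroup.normal_of_characteristic _
  set H := (Cfsg.thompsonSubgroup 2 G).map φ with hH
  have hVh : Cfsg.IsElementaryAbelian 2 (holoV V) := holoV_elemAb V hV
  have hHV : H ≤ Subgroup.normalizer ((holoV V : Subgroup (Holo V)) : Set (Holo V)) := by
    haveI := holoV_normal V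
    rw [Subgroup.normalizer_eq_top]
    exact le_top
  have hf : H ⊓ Subgroup.centralizer ((holoV V : Subgroup (Holo V)) : Set (Holo V)) = ⊥ :=
    holo_faithful V H (Subgroup.map_le_range _ _)
  have hOp : Cfsg.pCore 2 ↥H = ⊥ := holo_pCore_eq_bot V hD (Cfsg.thompsonSubgroup 2 G)
  have hsolH : Group.IsSolvable ↥H :=
    Group.isSolvable_of_surjective (f := φ.subgroupMap (Cfsg.thompsonSubgroup 2 G))
      (MonoidHom.subgroupMap_surjective φ _)
  have hPS : Cfsg.IsPSolvable 2 ↥H := Helper63.PSolv.isPSolvable_of_isSolvable 2 ↥H hsolH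
  have hS1 := Helper63.HHP.centralizer_pPrimeCore_le hPS hOp
  have hS3 : H = ⨆ A : {A : Subgroup (Holo V) // A ≤ H ∧ Cfsg.IsBestOffenderOn 2 (holoV V) A},
      (A : Subgroup (Holo V)) := by
    apply le_antisymm
    · rw [hH, Subgroup.map_le_iff_le_comap]
      apply sSup_le
      intro A hA
      rw [← Subgroup.map_le_iff_le_comap]
      exact le_iSup_of_le ⟨A.map φ, Subgroup.map_mono (le_sSup hA),
        holo_bestOffender V 2 A (Cfsg.Agent.S0606.result V hV A hA)⟩ le_rfl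
    · exact iSup_le (fun A => A.2.1)
  have hH1 : H ≠ ⊥ := by
    intro h
    apply hnot
    rw [hH, Subgroup.map_eq_bot_iff, holoHom_ker] at h
    exact h
  obtain ⟨_, hE, _, hsup, _⟩ := Cfsg.Agent.S0617.result (holoV V) H hVh hHV hf hS1 hS3 hH1
  have hne : Nonempty {E : Subgroup (Holo V) // ∃ A : Subgroup (Holo V), A ≤ H ∧
      Cfsg.IsBestOffenderOn 2 (holoV V) A ∧ ⁅holoV V, A⁆ ≠ ⊥ ∧
      (∀ B : Subgroup (Holo V), B ≤ A → Cfsg.IsBestOffenderOn 2 (holoV V) B →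
        ⁅holoV V, B⁆ ≠ ⊥ → B = A) ∧
      E = ⁅((Cfsg.pPrimeCore 2 ↥H).map H.subtype), A⁆ ⊔ A} := by
    by_contra hemp
    rw [not_nonempty_iff] at hemp
    rw [iSup_of_empty] at hsup
    exact hH1 hsup.symm
  obtain ⟨E⟩ := hne
  obtain ⟨_, ⟨e⟩, _⟩ := hE E
  have hEH : (E : Subgroup (Holo V)) ≤ H :=
    (le_iSup (fun E' : {E : Subgroup (Holo V) // ∃ A : Subgroup (Holo V), A ≤ H ∧
      Cfsg.IsBestOffenderOn 2 (holoV V) A ∧ ⁅holoV V, A⁆ ≠ ⊥ ∧
      (∀ B : Subgroup (Holo V), B ≤ A → Cfsg.IsBestOffenderOn 2 (holoV V) B →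
        ⁅holoV V, B⁆ ≠ ⊥ → B = A) ∧
      E = ⁅((Cfsg.pPrimeCore 2 ↥H).map H.subtype), A⁆ ⊔ A} => (E' : Subgroup (Holo V))) E).trans
      hsup.le
  obtain ⟨x₀, y₀, hy1, hy3, hxy⟩ := sl2_two_inverted
  obtain ⟨x, _, hx⟩ := hEH (e.symm x₀).2
  obtain ⟨y, _, hy⟩ := hEH (e.symm y₀).2
  have hVp : IsPGroup 2 V := Helper10.elemAb_isPGroup hV
  have hNtop : ∀ g : G, g ∈ Subgroup.normalizer (V : Set G) := by
    intro g
    rw [Subgroup.normalizer_eq_top]
    exact Subgroup.mem_top g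
  refine Helper46.involves_four_of_inverted V hVp x y (hNtop x) (hNtop y) ?_ 1 ?_ ?_
  · intro hyc
    apply hy1
    have h1 : φ y = 1 := (holoHom_eq_one_iff V y).mpr hyc
    rw [hy] at h1
    have h2 : e.symm y₀ = 1 := Subtype.ext h1
    have h3 := congrArg e h2
    rwa [MulEquiv.apply_symm_apply, map_one] at h3
  · rw [← holoHom_eq_one_iff, map_pow, hy, pow_one]
    have h1 : (e.symm y₀) ^ 3 = 1 := by rw [← map_pow, hy3, map_one]
    have h2 := congrArg Subtype.val h1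
    simpa using h2
  · rw [← holoHom_eq_one_iff, map_mul, map_mul, map_mul, map_inv, hx, hy]
    have h1 : e.symm x₀ * e.symm y₀ * (e.symm x₀)⁻¹ * e.symm y₀ = 1 := by
      rw [← map_inv, ← map_mul, ← map_mul, ← map_mul, hxy, map_one]
    have h2 := congrArg Subtype.val h1
    simpa using h2

end Cfsg.Agent.Helper11
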