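import Mathlib
import Cfsg.Agent.Helper11.S4FreeOff
import Cfsg.Agent.Helper11.ClassTwoCore
import Cfsg.Agent.Helper32.HallHigman
import Cfsg.Agent.S0601
import Cfsg.Agent.S0622
import Cfsg.Prelude.Def_ConjugacyFunctors

/-!
Helper library of seat helper11: a finite solvable `S₄`-free group `X` with `O_{2'}(X) = 1` whose
Sylow 2-subgroups have class at most 2 has its Thompson subgroup `J(X)` inside `O_2(X)`; the
Thompson subgroup as an isomorphism-invariant `p`-group functor.
Everything lives in `Cfsg.Agent.Helper11`.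
-/

set_option autoImplicit false

universe u

namespace Cfsg.Agent.Helper11

open Cfsg

/-- `J(X) ≤ O_2(X)` for a solvable `S₄`-free group with `O_{2'}(X) = 1` and Sylow 2-subgroups of
class at most 2. -/
theorem s4free_class_two_thompson_le_pCore {X : Type*} [Group X] [Finite X]
    [hsol : Group.IsSolvable X] (hS4 : ¬ Cfsg.Involves (Equiv.Perm (Fin 4)) X)
    (hred : Cfsg.pPrimeCore 2 X = ⊥) (T : Sylow 2 X)
    (hcl : ∀ a ∈ (T : Subgroup X), ∀ b ∈ (T : Subgroup X), ∀ c ∈ (T : Subgroup X),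
      (a * b * a⁻¹ * b⁻¹) * c = c * (a * b * a⁻¹ * b⁻¹)) :
    Cfsg.thompsonSubgroup 2 X ≤ Cfsg.pCore 2 X := by
  haveI : Fact (Nat.Prime 2) := ⟨Nat.prime_two⟩
  have hPS : Cfsg.IsPSolvable 2 X := Helper63.PSolv.isPSolvable_of_isSolvable 2 X hsol
  have hc := Helper32.centralizer_pCore_le_of_isPSolvable hPS hred
  obtain ⟨hVn, hV, hD⟩ := Cfsg.Agent.S0601.result hc
  have hJC := s4free_thompson_le_centralizer hS4 _ hV hD
  have hVp := Helper10.elemAb_isPGroup hV
  apply sSup_le
  intro A hA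
  refine c2_pgroup_le hc T hcl _ hVp ?_ A (Helper10.elemAb_isPGroup hA.1)
    ((le_sSup hA).trans hJC)
  intro z hz hzc hz2
  have h1 : z ∈ Cfsg.omegaOne 2 ((T : Subgroup X) ⊓ Subgroup.centralizer ((T : Subgroup X) : Set X)) := by
    apply Subgroup.subset_closure
    have hzC : z ∈ Subgroup.centralizer ((T : Subgroup X) : Set X) := by
      rw [Subgroup.mem_centralizer_iff]
      exact hzc
    exact ⟨⟨hz, hzC⟩, hz2⟩
  exact (le_iSup (fun S : Sylow 2 X => Cfsg.omegaOne 2
    ((S : Subgroup X) ⊓ Subgroup.centralizer ((S : Subgroup X) : Set X))) T) h1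

/-- The Thompson subgroup is an isomorphism-invariant `p`-group functor. -/
theorem thompsonSubgroup_isCharPFunctor (p : ℕ) [Fact p.Prime] :
    Cfsg.IsCharPFunctor.{u} p (fun (Q : Type u) [Group Q] => Cfsg.thompsonSubgroup p Q) := by
  constructor
  · intro Q _ _ hQ hnt
    apply (Cfsg.Agent.S0602.result (G := Q) (p := p)).2
    obtain ⟨n, hn⟩ := IsPGroup.iff_card.mp hQ
    have h1 : 1 < Nat.card Q := Finite.one_lt_card
    rw [hn]
    have hn0 : n ≠ 0 := by
      rintro rfl
      rw [hn, pow_zero] at h1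
      exact lt_irrefl _ h1
    exact dvd_pow_self p hn0
  · intro Q R _ _ _ _ φ
    exact Cfsg.Agent.S0622.map_thompsonSubgroup p φ

end Cfsg.Agent.Helper11
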