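import Mathlib
import Cfsg.Agent.Helper16.S4Defs
import Cfsg.Agent.Helper11.FrobThm

/-!
# Helper11: PIECES GINT and GONE of CALL S3702 (helper16).
-/

set_option autoImplicit false
set_option linter.style.haveILetI false

namespace Cfsg.Agent.Helper11

open Cfsg Cfsg.Agent.Helper16
open scoped ComplexConjugate

/-- the homomorphism `a ↦ ζ ^ κ a` -/
noncomputable def s4LinHom {A : Type*} [Group A] (κ : A →* Multiplicative (ZMod 3)) (ζ : ℂˣ)
    (hζ : ζ ^ 3 = 1) : A →* ℂˣ :=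
  MonoidHom.mk' (fun a => ζ ^ (Multiplicative.toAdd (κ a)).val) (by
    intro a b
    rw [map_mul, toAdd_mul, ZMod.val_add, ← pow_add]
    exact (pow_eq_pow_mod _ hζ).symm)

theorem s4LinHom_apply {A : Type*} [Group A] (κ : A →* Multiplicative (ZMod 3)) (ζ : ℂˣ)
    (hζ : ζ ^ 3 = 1) (a : A) : ((s4LinHom κ ζ hζ a : ℂˣ) : ℂ) = s4Lin κ ζ a := rfl

theorem s4Lin_isCharacter {A : Type*} [Group A] (κ : A →* Multiplicative (ZMod 3)) (ζ : ℂˣ)
    (hζ : ζ ^ 3 = 1) : IsCharacter A (s4Lin κ ζ) :=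
  Helper79.isCharacter_of_irr (Helper79.isIrrCharacter_of_hom (s4LinHom κ ζ hζ))

/-- PIECE GINT -/
theorem s4_lin_int {G : Type*} [Group G] [Fintype G] (A : Subgroup G)
    (κ : ↥A →* Multiplicative (ZMod 3)) (ζ : ℂˣ) (hζ : ζ ^ 3 = 1) (X : IrrCharacter G) :
    ∃ k : ℤ, classInner (Cfsg.indFun A (fun a : ↥A => 1 - s4Lin κ ζ a)) (X : G → ℂ) = (k : ℂ) := by
  classical
  have hX : IsCharacter G (X : G → ℂ) := Helper79.irr_isCharacter X
  rw [Helper3.frobenius_reciprocity A _ _ (Helper79.isCharacter_isClassFunction hX)]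
  have h1 := classInner_sub_left (fun _ : ↥A => (1 : ℂ)) (s4Lin κ ζ) (fun h : ↥A => (X : G → ℂ) h)
  rw [h1]
  obtain ⟨n1, hn1⟩ := Helper3.classInner_isCharacter_nat (Helper79.isCharacter_one (G := ↥A))
    (Helper79.isCharacter_restrict hX A)
  obtain ⟨n2, hn2⟩ := Helper3.classInner_isCharacter_nat (s4Lin_isCharacter κ ζ hζ)
    (Helper79.isCharacter_restrict hX A)
  refine ⟨(n1 : ℤ) - (n2 : ℤ), ?_⟩
  rw [hn1, hn2]
  push_cast
  rfl

/-- PIECE GONE -/
theorem s4_lin_one {G : Type*} [Group G] [Fintype G] (A : Subgroup G)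
    (κ : ↥A →* Multiplicative (ZMod 3)) (hκ : ∃ a, κ a ≠ 1) (ζ : ℂˣ) (hζ : ζ ^ 3 = 1)
    (hζ1 : ζ ≠ 1) :
    classInner (Cfsg.indFun A (fun a : ↥A => 1 - s4Lin κ ζ a)) (fun _ => (1 : ℂ)) = 1 := by
  classical
  rw [Helper3.frobenius_reciprocity A _ _ (fun _ _ => rfl)]
  have h1 := classInner_sub_left (fun _ : ↥A => (1 : ℂ)) (s4Lin κ ζ) (fun _ : ↥A => (1 : ℂ))
  rw [h1, classInner_one_one]
  have h2 : classInner (s4Lin κ ζ) (fun _ : ↥A => (1 : ℂ)) = 0 := by
    unfold classInner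
    have hsum : ∑ a : ↥A, s4Lin κ ζ a = 0 := by
      have hne : ((Units.coeHom ℂ).comp (s4LinHom κ ζ hζ)) ≠ 1 := by
        obtain ⟨a, ha⟩ := hκ
        intro h
        have h3 := DFunLike.congr_fun h a
        have h4 : ((s4LinHom κ ζ hζ a : ℂˣ) : ℂ) = 1 := h3
        have h5 : ζ ^ (Multiplicative.toAdd (κ a)).val = 1 := Units.ext h4
        have hv0 : (Multiplicative.toAdd (κ a)).val ≠ 0 := by
          intro h0
          apply ha
          have h6 : Multiplicative.toAdd (κ a) = 0 := (ZMod.val_eq_zero _).mp h0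
          have h7 : Multiplicative.ofAdd (Multiplicative.toAdd (κ a)) = κ a := ofAdd_toAdd _
          rw [← h7, h6]
          rfl
        have hv3 : (Multiplicative.toAdd (κ a)).val < 3 := ZMod.val_lt _
        generalize (Multiplicative.toAdd (κ a)).val = v at h5 hv0 hv3
        interval_cases v
        · exact absurd rfl hv0
        · exact hζ1 (by simpa using h5)
        · apply hζ1
          calc ζ = ζ ^ 3 * (ζ ^ 2)⁻¹ := by group
            _ = 1 := by rw [hζ, h5]; simp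
      exact sum_hom_units_eq_zero ((Units.coeHom ℂ).comp (s4LinHom κ ζ hζ)) hne
    simp only [map_one, mul_one]
    rw [hsum, mul_zero]
  rw [h2, sub_zero]

end Cfsg.Agent.Helper11
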