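import Cfsg.Agent.Helper33.AlperinTame
import Cfsg.Agent.Helper33.ThompsonNPC
import Mathlib.GroupTheory.Transfer

set_option autoImplicit false

/-!
# Control of strong fusion: group-theoretic lemmas (helper11)

Tools for Glauberman's section theorem on control of strong fusion (S1969, S2794):

* `SFCtl M P`: the subgroup `M` controls strong fusion in `P` (left conjugation, subsets).
* `sf_frattini`: Frattini argument with fusion: for `T` normal, a fusion map `g` on `A ≤ S`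
  factors as `g = t * n` with `t ∈ T`, `n ∈ N_G(S ∩ T)` and `n A n⁻¹ ≤ S`.
* `sf_conj_adjust`: Sylow conjugation inside `B K` for a normal `p'`-subgroup `K`.
* `sf_centralizer_le_of_sylow`: if `G` has no nontrivial normal `p'`-subgroup, `Q` is a normal
  `p`-subgroup and `C_S(Q) ≤ Q` for a Sylow `p`-subgroup `S`, then `C_G(Q) ≤ Q`.
* `sf_mem_sylow_mul_centralizer`: if `G = S C_G(Q)`, an element acting trivially on `T / Q`
  (`Q ≤ T`, `N_S(T)` Sylow in `N_G(T)`) lies in `N_S(T) C_G(T)`.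
* `sf_gchain_ctl`: composition of controlled steps along an Alperin chain.
-/

namespace Cfsg.Agent.Helper11

open Cfsg.Agent.Helper33

variable {G : Type*} [Group G]

/-- `M` controls strong fusion in `P`: every conjugation map of a subset of `P` into `P` is
induced by an element of `M`. -/
def SFCtl (M P : Subgroup G) : Prop :=
  ∀ (A : Set G) (g : G), A ⊆ P → (∀ a ∈ A, g * a * g⁻¹ ∈ P) →
    ∃ x ∈ M, ∀ a ∈ A, x * a * x⁻¹ = g * a * g⁻¹

/-- It suffices to control fusion of subgroups. -/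
theorem sfCtl_of_subgroups {M P : Subgroup G}
    (h : ∀ (A : Subgroup G) (g : G), A ≤ P → A.map (MulAut.conj g).toMonoidHom ≤ P →
      ∃ x ∈ M, ∀ a ∈ A, x * a * x⁻¹ = g * a * g⁻¹) : SFCtl M P := by
  intro A g hA hAg
  have h1 : (Subgroup.closure A).map (MulAut.conj g).toMonoidHom ≤ P := by
    rw [MonoidHom.map_closure, Subgroup.closure_le]
    rintro _ ⟨a, ha, rfl⟩
    exact hAg a ha
  obtain ⟨x, hx, hxa⟩ := h (Subgroup.closure A) g ((Subgroup.closure_le P).mpr hA) h1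
  exact ⟨x, hx, fun a ha => hxa a (Subgroup.subset_closure ha)⟩

theorem SFCtl.mono {M M' P : Subgroup G} (h : SFCtl M P) (hM : M ≤ M') : SFCtl M' P := by
  intro A g hA hAg
  obtain ⟨x, hx, hxa⟩ := h A g hA hAg
  exact ⟨x, hM hx, hxa⟩

/-- **Frattini argument with fusion.** -/
theorem sf_frattini [Finite G] {p : ℕ} [Fact p.Prime] (S : Sylow p G) (T : Subgroup G)
    [hT : T.Normal] (A : Subgroup G) (g : G) (hA : A ≤ (S : Subgroup G))
    (hAg : A.map (MulAut.conj g).toMonoidHom ≤ (S : Subgroup G)) :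
    ∃ t ∈ T, ∃ n ∈ Subgroup.normalizer ((((S : Subgroup G) ⊓ T : Subgroup G)) : Set G),
      g = t * n ∧ A.map (MulAut.conj n).toMonoidHom ≤ (S : Subgroup G) := by
  set U : Subgroup G := (A ⊔ ((S : Subgroup G) ⊓ T)).map (MulAut.conj g).toMonoidHom with hU
  have hUp : IsPGroup p U := (S.2.to_le (sup_le hA inf_le_left)).map _
  have hUle : U ≤ (S : Subgroup G) ⊔ T := by
    rw [hU, Subgroup.map_sup]
    refine sup_le (hAg.trans le_sup_left) ?_
    rintro _ ⟨y, hy, rfl⟩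
    exact (le_sup_right : T ≤ (S : Subgroup G) ⊔ T) (hT.conj_mem y hy.2 g)
  obtain ⟨y, hy, hyU⟩ := exists_cj_le_of_relIndex
    (le_sup_left : (S : Subgroup G) ≤ (S : Subgroup G) ⊔ T) S.2
    (sylow_not_dvd_relIndex S le_sup_left) hUle hUp
  obtain ⟨s, hs, t₁, ht₁, rfl⟩ := Subgroup.mem_sup_of_normal_right.mp hy
  have key : ∀ w ∈ U, t₁ * w * t₁⁻¹ ∈ (S : Subgroup G) := by
    intro w hw
    have h1 : (s * t₁) * w * (s * t₁)⁻¹ ∈ (S : Subgroup G) := hyU (cj_mem_cj hw)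
    have h2 : t₁ * w * t₁⁻¹ = s⁻¹ * ((s * t₁) * w * (s * t₁)⁻¹) * s := by group
    rw [h2]
    exact Subgroup.mul_mem _ (Subgroup.mul_mem _ (Subgroup.inv_mem _ hs) h1) hs
  refine ⟨t₁⁻¹, T.inv_mem ht₁, t₁ * g, ?_, by group, ?_⟩
  · apply mem_normalizer_of_cj_le
    rintro _ ⟨v, hv, rfl⟩
    have h1 : g * v * g⁻¹ ∈ U := cj_mem_cj ((le_sup_right : (S : Subgroup G) ⊓ T ≤ A ⊔ _) hv)
    have h2 := key _ h1
    have e : (MulAut.conj (t₁ * g)).toMonoidHom v = t₁ * (g * v * g⁻¹) * t₁⁻¹ := by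
      simp only [MulEquiv.coe_toMonoidHom, MulAut.conj_apply]
      group
    rw [e]
    refine ⟨h2, ?_⟩
    have h3 := hT.conj_mem v hv.2 (t₁ * g)
    have e2 : t₁ * g * v * (t₁ * g)⁻¹ = t₁ * (g * v * g⁻¹) * t₁⁻¹ := by group
    rw [e2] at h3
    exact h3
  · rintro _ ⟨a, ha, rfl⟩
    have h1 : g * a * g⁻¹ ∈ U := cj_mem_cj ((le_sup_left : A ≤ A ⊔ _) ha)
    have h2 := key _ h1
    have e : (MulAut.conj (t₁ * g)).toMonoidHom a = t₁ * (g * a * g⁻¹) * t₁⁻¹ := by
      simp only [MulEquiv.coe_toMonoidHom, MulAut.conj_apply]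
      group
    rw [e]
    exact h2

/-- Sylow conjugation inside `B K` for a normal `p'`-subgroup `K`: a `p`-subgroup of `B K` is
`K`-conjugate into the `p`-subgroup `B`. -/
theorem sf_conj_adjust {Y : Type*} [Group Y] [Finite Y] {p : ℕ} [Fact p.Prime] (K : Subgroup Y)
    [K.Normal] (hK : (Nat.card K).Coprime p) (B B' : Subgroup Y) (hB : IsPGroup p B)
    (hB' : IsPGroup p B') (h : B' ≤ B ⊔ K) :
    ∃ k ∈ K, B'.map (MulAut.conj k).toMonoidHom ≤ B := by
  have hp : p.Prime := Fact.out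
  have hidx : ¬ p ∣ B.relIndex (B ⊔ K) := by
    intro hdvd
    have h4 := card_mul_relIndex_of_le (le_sup_left : B ≤ B ⊔ K)
    have h5 := Cfsg.Agent.Helper48.card_sup_dvd_of_normal B K
    rw [← h4] at h5
    have h6 := Nat.dvd_of_mul_dvd_mul_left Nat.card_pos h5
    exact (Nat.Prime.coprime_iff_not_dvd hp).mp (Nat.coprime_comm.mp hK) (hdvd.trans h6)
  obtain ⟨z, hz, hzU⟩ := exists_cj_le_of_relIndex le_sup_left hB hidx h hB'
  obtain ⟨b, hb, k, hk, rfl⟩ := Subgroup.mem_sup_of_normal_right.mp hz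
  refine ⟨k, hk, ?_⟩
  rintro _ ⟨w, hw, rfl⟩
  have h1 : (b * k) * w * (b * k)⁻¹ ∈ B := hzU (cj_mem_cj hw)
  have e : (MulAut.conj k).toMonoidHom w = b⁻¹ * ((b * k) * w * (b * k)⁻¹) * b := by
    simp only [MulEquiv.coe_toMonoidHom, MulAut.conj_apply]
    group
  rw [e]
  exact B.mul_mem (B.mul_mem (B.inv_mem hb) h1) hb

/-- If `G` has no nontrivial normal `p'`-subgroup, `Q` is a normal `p`-subgroup and
`C_S(Q) ≤ Q` for a Sylow `p`-subgroup `S`, then `C_G(Q) ≤ Q`. -/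
theorem sf_centralizer_le_of_sylow [Finite G] {p : ℕ} [Fact p.Prime] (Q : Subgroup G)
    [hQn : Q.Normal] (S : Sylow p G)
    (hK0 : ∀ K : Subgroup G, K.Normal → (Nat.card K).Coprime p → K = ⊥)
    (h : (S : Subgroup G) ⊓ Subgroup.centralizer (Q : Set G) ≤ Q) :
    Subgroup.centralizer (Q : Set G) ≤ Q := by
  have hp : p.Prime := Fact.out
  set C : Subgroup G := Subgroup.centralizer (Q : Set G) with hC
  have hCn : C.Normal := Subgroup.normal_centralizer
  -- every `p`-element of `C` lies in `Q`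
  have hpel : ∀ x ∈ C, (∃ k : ℕ, x ^ p ^ k = 1) → x ∈ Q := by
    intro x hx ⟨k, hk⟩
    have hz : IsPGroup p (Subgroup.zpowers x) := by
      obtain ⟨j, -, hj⟩ := (Nat.dvd_prime_pow hp).mp (orderOf_dvd_of_pow_eq_one hk)
      exact IsPGroup.of_card (n := j) (by rw [Nat.card_zpowers, hj])
    obtain ⟨g, hg⟩ := exists_cj_le_sylow S hz
    have h1 : g * x * g⁻¹ ∈ (S : Subgroup G) := hg (cj_mem_cj (Subgroup.mem_zpowers x))
    have h2 : g * x * g⁻¹ ∈ C := hCn.conj_mem x hx g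
    have h3 : g * x * g⁻¹ ∈ Q := h ⟨h1, h2⟩
    have h4 := hQn.conj_mem _ h3 g⁻¹
    have e : g⁻¹ * (g * x * g⁻¹) * g⁻¹⁻¹ = x := by group
    rwa [e] at h4
  obtain ⟨PC⟩ : Nonempty (Sylow p C) := inferInstance
  have hPCc : ∀ y : C, y ∈ (PC : Subgroup C) → (y : G) ∈ Q := by
    intro y hy
    obtain ⟨k, hk⟩ := PC.2 ⟨y, hy⟩
    apply hpel y.1 y.2 ⟨k, ?_⟩
    have h1 := congrArg (fun t : (PC : Subgroup C) => ((t : C) : G)) hk
    simpa using h1
  have hP : Subgroup.normalizer ((PC : Subgroup C) : Set C) ≤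
      Subgroup.centralizer ((PC : Subgroup C) : Set C) := by
    intro n _
    rw [Subgroup.mem_centralizer_iff]
    intro y hy
    have h1 := hPCc y hy
    have h2 : (y : G) * (n : G) = (n : G) * (y : G) := Subgroup.mem_centralizer_iff.mp n.2 y h1
    exact Subtype.ext h2
  set K₁ : Subgroup C := (MonoidHom.transferSylow PC hP).ker with hK₁
  have hcompl : Subgroup.IsComplement' K₁ (PC : Subgroup C) :=
    MonoidHom.ker_transferSylow_isComplement' PC hP
  have hK₁card : (Nat.card K₁).Coprime p := by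
    rw [Nat.coprime_comm]
    exact (Nat.Prime.coprime_iff_not_dvd hp).mpr (MonoidHom.not_dvd_card_ker_transferSylow PC hP)
  -- `K₁` is the set of `p'`-elements of `C`
  have hK₁mem : ∀ y : C, (orderOf y).Coprime p → y ∈ K₁ := by
    intro y hy
    rw [hK₁, MonoidHom.mem_ker]
    obtain ⟨k, hk⟩ := PC.2 (MonoidHom.transferSylow PC hP y)
    have h1 : orderOf (MonoidHom.transferSylow PC hP y) ∣ orderOf y := orderOf_map_dvd _ y
    exact eq_one_of_pow_of_coprime hk (Nat.Coprime.coprime_dvd_left h1 hy)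
  have hK₁ord : ∀ y ∈ K₁, (orderOf y).Coprime p := by
    intro y hy
    have h1 := orderOf_dvd_natCard (⟨y, hy⟩ : K₁)
    rw [Subgroup.orderOf_mk] at h1
    exact Nat.Coprime.coprime_dvd_left h1 hK₁card
  have hnorm : (K₁.map C.subtype).Normal := by
    constructor
    rintro _ ⟨y, hy, rfl⟩ g
    have h1 : g * (y : G) * g⁻¹ ∈ C := hCn.conj_mem _ y.2 g
    refine ⟨⟨g * (y : G) * g⁻¹, h1⟩, hK₁mem _ ?_, rfl⟩
    have h2 : orderOf (⟨g * (y : G) * g⁻¹, h1⟩ : C) = orderOf y := by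
      rw [← Subgroup.orderOf_coe, ← Subgroup.orderOf_coe]
      exact orderOf_injective (MulAut.conj g).toMonoidHom (MulAut.conj g).injective (y : G)
    rw [h2]
    exact hK₁ord y hy
  have hbot : K₁.map C.subtype = ⊥ := by
    apply hK0 _ hnorm
    rw [Subgroup.card_map_of_injective C.subtype_injective]
    exact hK₁card
  have hK₁bot : K₁ = ⊥ := by
    rw [← Subgroup.map_eq_bot_iff_of_injective _ C.subtype_injective]
    exact hbot
  have htop : (PC : Subgroup C) = ⊤ := by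
    have := hcompl.sup_eq_top
    rwa [hK₁bot, bot_sup_eq] at this
  intro x hx
  have : (⟨x, hx⟩ : C) ∈ (PC : Subgroup C) := by rw [htop]; trivial
  exact hPCc _ this

/-- If `G = S C_G(Q)` for a normal `p`-subgroup `Q`, then an element `c` acting trivially on
`T / Q` (where `Q ≤ T` and `N_S(T)` has index prime to `p` in `N_G(T)`) lies in
`N_S(T) C_G(T)`. -/
theorem sf_mem_sylow_mul_centralizer [Finite G] {p : ℕ} [Fact p.Prime] (S : Sylow p G)
    (Q : Subgroup G) [hQn : Q.Normal] (hQ : IsPGroup p Q)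
    (hSC : (S : Subgroup G) ⊔ Subgroup.centralizer (Q : Set G) = ⊤) (T : Subgroup G)
    (hQT : Q ≤ T)
    (hidx : ¬ p ∣ ((S : Subgroup G) ⊓ Subgroup.normalizer (T : Set G)).relIndex
      (Subgroup.normalizer (T : Set G)))
    (c : G) (hc : ∀ a ∈ T, c * a * c⁻¹ * a⁻¹ ∈ Q) :
    ∃ u ∈ (S : Subgroup G) ⊓ Subgroup.normalizer (T : Set G),
      u⁻¹ * c ∈ Subgroup.centralizer (T : Set G) := by
  have hcN : c ∈ Subgroup.normalizer (T : Set G) := by
    apply mem_normalizer_of_cj_le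
    rintro _ ⟨a, ha, rfl⟩
    have h1 := hQT (hc a ha)
    have e : (MulAut.conj c).toMonoidHom a = (c * a * c⁻¹ * a⁻¹) * a := by simp
    rw [e]
    exact T.mul_mem h1 ha
  have hTconj : ∀ n ∈ Subgroup.normalizer (T : Set G), ∀ a ∈ T, n⁻¹ * a * n ∈ T := by
    intro n hn a ha
    have := (Subgroup.mem_normalizer_iff.mp (Subgroup.inv_mem _ hn) a).mp ha
    simpa using this
  let E : Subgroup (Subgroup.normalizer (T : Set G)) :=
    { carrier := {y | ∀ a ∈ T, (y : G) * a * (y : G)⁻¹ * a⁻¹ ∈ Q}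
      one_mem' := by
        intro a _
        simp
      mul_mem' := by
        intro y z hy hz a ha
        have h1 := hQn.conj_mem _ (hz a ha) (y : G)
        have h2 := hy a ha
        have e : ((y * z : Subgroup.normalizer (T : Set G)) : G) * a *
            ((y * z : Subgroup.normalizer (T : Set G)) : G)⁻¹ * a⁻¹ =
            ((y : G) * ((z : G) * a * (z : G)⁻¹ * a⁻¹) * (y : G)⁻¹) *
              ((y : G) * a * (y : G)⁻¹ * a⁻¹) := by
          simp only [Subgroup.coe_mul]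
          group
        rw [e]
        exact Q.mul_mem h1 h2
      inv_mem' := by
        intro y hy a ha
        have ha' : (y : G)⁻¹ * a * (y : G) ∈ T := hTconj y y.2 a ha
        have h2 := Q.inv_mem (hy _ ha')
        have e : ((y⁻¹ : Subgroup.normalizer (T : Set G)) : G) * a *
            ((y⁻¹ : Subgroup.normalizer (T : Set G)) : G)⁻¹ * a⁻¹ =
            ((y : G) * ((y : G)⁻¹ * a * (y : G)) * (y : G)⁻¹ *
              ((y : G)⁻¹ * a * (y : G))⁻¹)⁻¹ := by
          simp only [Subgroup.coe_inv]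
          group
        rw [e]
        exact h2 }
  have hEmem : ∀ y : Subgroup.normalizer (T : Set G),
      y ∈ E ↔ ∀ a ∈ T, (y : G) * a * (y : G)⁻¹ * a⁻¹ ∈ Q := fun y => Iff.rfl
  have hEn : E.Normal := by
    constructor
    intro y hy n
    rw [hEmem] at hy ⊢
    intro a ha
    have ha' : (n : G)⁻¹ * a * (n : G) ∈ T := hTconj n n.2 a ha
    have h1 := hQn.conj_mem _ (hy _ ha') (n : G)
    have e : ((n * y * n⁻¹ : Subgroup.normalizer (T : Set G)) : G) * a *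
        ((n * y * n⁻¹ : Subgroup.normalizer (T : Set G)) : G)⁻¹ * a⁻¹ =
        (n : G) * ((y : G) * ((n : G)⁻¹ * a * (n : G)) * (y : G)⁻¹ *
          ((n : G)⁻¹ * a * (n : G))⁻¹) * (n : G)⁻¹ := by
      simp only [Subgroup.coe_mul, Subgroup.coe_inv]
      group
    rw [e]
    exact h1
  have hpow : ∀ y ∈ E, ∃ k : ℕ, (y : G) ^ p ^ k ∈ Subgroup.centralizer (T : Set G) := by
    intro y hy
    obtain ⟨a₁, ha₁⟩ := IsPGroup.iff_card.mp S.2
    obtain ⟨b₁, hb₁⟩ := IsPGroup.iff_card.mp hQ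
    refine ⟨a₁ + b₁, ?_⟩
    have hyG : (y : G) ∈ (S : Subgroup G) ⊔ Subgroup.centralizer (Q : Set G) := by
      rw [hSC]
      trivial
    obtain ⟨s, hs, c₀, hc₀, hsc⟩ := Subgroup.mem_sup_of_normal_right.mp hyG
    have hs1 : s ^ p ^ a₁ = 1 := by
      have h1 := pow_card_eq_one' (G := (S : Subgroup G)) (x := ⟨s, hs⟩)
      rw [ha₁] at h1
      exact congrArg Subtype.val h1
    have hz : (y : G) ^ p ^ a₁ ∈ Subgroup.centralizer (Q : Set G) := by
      rw [← QuotientGroup.eq_one_iff, QuotientGroup.mk_pow, ← hsc, QuotientGroup.mk_mul,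
        (QuotientGroup.eq_one_iff c₀).mpr hc₀, mul_one, ← QuotientGroup.mk_pow, hs1]
      rfl
    have hzE : ∀ a ∈ T, (y : G) ^ p ^ a₁ * a * ((y : G) ^ p ^ a₁)⁻¹ * a⁻¹ ∈ Q := by
      have h1 : y ^ p ^ a₁ ∈ E := E.pow_mem hy _
      rw [hEmem] at h1
      simpa only [Subgroup.coe_pow] using h1
    have hform : ∀ a ∈ T, ∀ j : ℕ, ((y : G) ^ p ^ a₁) ^ j * a * (((y : G) ^ p ^ a₁) ^ j)⁻¹ =
        ((y : G) ^ p ^ a₁ * a * ((y : G) ^ p ^ a₁)⁻¹ * a⁻¹) ^ j * a := by
      intro a ha j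
      induction j with
      | zero => simp
      | succ j ih =>
        have hδ := hzE a ha
        have hcomm := Subgroup.mem_centralizer_iff.mp hz _ hδ
        have hcommj : (y : G) ^ p ^ a₁ * ((y : G) ^ p ^ a₁ * a * ((y : G) ^ p ^ a₁)⁻¹ * a⁻¹) ^ j =
            ((y : G) ^ p ^ a₁ * a * ((y : G) ^ p ^ a₁)⁻¹ * a⁻¹) ^ j * (y : G) ^ p ^ a₁ :=
          ((Commute.pow_right (show Commute ((y : G) ^ p ^ a₁)
            ((y : G) ^ p ^ a₁ * a * ((y : G) ^ p ^ a₁)⁻¹ * a⁻¹) from hcomm.symm)) j).eq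
        calc ((y : G) ^ p ^ a₁) ^ (j + 1) * a * (((y : G) ^ p ^ a₁) ^ (j + 1))⁻¹
            = (y : G) ^ p ^ a₁ * (((y : G) ^ p ^ a₁) ^ j * a * (((y : G) ^ p ^ a₁) ^ j)⁻¹) *
                ((y : G) ^ p ^ a₁)⁻¹ := by
              rw [pow_succ']
              group
          _ = (y : G) ^ p ^ a₁ * (((y : G) ^ p ^ a₁ * a * ((y : G) ^ p ^ a₁)⁻¹ * a⁻¹) ^ j * a) *
                ((y : G) ^ p ^ a₁)⁻¹ := by rw [ih]
          _ = ((y : G) ^ p ^ a₁ * a * ((y : G) ^ p ^ a₁)⁻¹ * a⁻¹) ^ j *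
                ((y : G) ^ p ^ a₁ * a * ((y : G) ^ p ^ a₁)⁻¹ * a⁻¹) * a := by
              rw [← mul_assoc, hcommj]
              group
          _ = ((y : G) ^ p ^ a₁ * a * ((y : G) ^ p ^ a₁)⁻¹ * a⁻¹) ^ (j + 1) * a := by
              rw [pow_succ]
    rw [Subgroup.mem_centralizer_iff]
    intro a ha
    have h1 := hform a ha (p ^ b₁)
    have hδ := hzE a ha
    have h2 : ((y : G) ^ p ^ a₁ * a * ((y : G) ^ p ^ a₁)⁻¹ * a⁻¹) ^ p ^ b₁ = 1 := by
      have h3 := pow_card_eq_one' (G := Q) (x := ⟨_, hδ⟩)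
      rw [hb₁] at h3
      exact congrArg Subtype.val h3
    rw [h2, one_mul, ← pow_mul, ← pow_add] at h1
    calc a * (y : G) ^ p ^ (a₁ + b₁)
        = ((y : G) ^ p ^ (a₁ + b₁) * a * ((y : G) ^ p ^ (a₁ + b₁))⁻¹) *
            (y : G) ^ p ^ (a₁ + b₁) := by rw [h1]
      _ = (y : G) ^ p ^ (a₁ + b₁) * a := by group
  have hπs : Function.Surjective (QuotientGroup.mk' ((Subgroup.centralizer (T : Set G)).subgroupOf
      (Subgroup.normalizer (T : Set G)))) := QuotientGroup.mk'_surjective _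
  haveI hEbar_n : (E.map (QuotientGroup.mk' ((Subgroup.centralizer (T : Set G)).subgroupOf
      (Subgroup.normalizer (T : Set G))))).Normal := hEn.map _ hπs
  have hEbar_p : IsPGroup p (E.map (QuotientGroup.mk' ((Subgroup.centralizer (T : Set G)).subgroupOf
      (Subgroup.normalizer (T : Set G))))) := by
    rintro ⟨_, ⟨y, hy, rfl⟩⟩
    obtain ⟨k, hk⟩ := hpow y hy
    refine ⟨k, Subtype.ext ?_⟩
    show (QuotientGroup.mk' ((Subgroup.centralizer (T : Set G)).subgroupOf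
      (Subgroup.normalizer (T : Set G))) y) ^ p ^ k = 1
    rw [← map_pow]
    refine (QuotientGroup.eq_one_iff _).mpr (Subgroup.mem_subgroupOf.mpr ?_)
    simpa only [Subgroup.coe_pow] using hk
  have hS₁p : IsPGroup p (((S : Subgroup G) ⊓ Subgroup.normalizer (T : Set G)).subgroupOf
      (Subgroup.normalizer (T : Set G))) := (S.2.to_inf_left).comap_subtype
  have hle := normal_pgroup_le_sylow _ hEbar_p ((hS₁p.toSylow hidx).mapSurjective hπs)
  have hcE : (⟨c, hcN⟩ : Subgroup.normalizer (T : Set G)) ∈ E := hc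
  have h1 := hle ⟨_, hcE, rfl⟩
  rw [Sylow.coe_mapSurjective] at h1
  obtain ⟨u, hu, hu2⟩ := h1
  refine ⟨u.1, Subgroup.mem_subgroupOf.mp hu, ?_⟩
  have h3 := QuotientGroup.eq.mp hu2
  exact Subgroup.mem_subgroupOf.mp h3

/-- Composition of controlled steps along a chain. -/
theorem sf_gchain_ctl {St : Subgroup G → G → Prop} (M : Subgroup G)
    (hSt : ∀ T x, St T x → ∃ y ∈ M, ∀ a ∈ T, y⁻¹ * a * y = x⁻¹ * a * x) :
    ∀ {l : List (Subgroup G × G)} {A : Set G}, GChain St A l →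
      ∃ z ∈ M, ∀ a ∈ A, z⁻¹ * a * z = (prodOf l)⁻¹ * a * prodOf l
  | [], A, _ => ⟨1, Subgroup.one_mem _, fun a _ => by simp [prodOf_nil]⟩
  | s :: l, A, h => by
    obtain ⟨z₂, hz₂, hz₂A⟩ := sf_gchain_ctl M hSt h.2.2
    obtain ⟨z₁, hz₁, hz₁A⟩ := hSt s.1 s.2 h.1
    refine ⟨z₁ * z₂, M.mul_mem hz₁ hz₂, fun a ha => ?_⟩
    have h1 := hz₁A a (h.2.1 ha)
    have h2 := hz₂A (s.2⁻¹ * a * s.2) ⟨a, ha, rfl⟩
    rw [prodOf_cons]
    calc (z₁ * z₂)⁻¹ * a * (z₁ * z₂) = z₂⁻¹ * (z₁⁻¹ * a * z₁) * z₂ := by group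
      _ = z₂⁻¹ * (s.2⁻¹ * a * s.2) * z₂ := by rw [h1]
      _ = (prodOf l)⁻¹ * (s.2⁻¹ * a * s.2) * prodOf l := h2
      _ = (s.2 * prodOf l)⁻¹ * a * (s.2 * prodOf l) := by group

end Cfsg.Agent.Helper11
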