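import Cfsg.Agent.Helper11.SecFusionA
import Cfsg.Agent.Helper33.Control
import Cfsg.Prelude.Def_LocalEven

set_option autoImplicit false

/-!
# Glauberman's section theorem for control of strong fusion (helper11)

Let `W` be an isomorphism-invariant `p`-group functor and `G₀` a finite group. Suppose that `W(S)`
is normal in `H` for every section `H` of `G₀` with `C_H(O_p(H)) ≤ O_p(H)` and every Sylow
`p`-subgroup `S` of `H` (`SFNormLoc`). Then in every section `H` of `G₀` and for every Sylow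
`p`-subgroup `S` of `H`, the normalizer `N_H(W(S))` controls strong fusion in `S`
(`sfW_sections`).

Proof by induction on the order of the section `H`:
* a nontrivial normal `p'`-subgroup `K`: lift from `H / K` (`sfW_of_quotient`);
* `O_p(H) = 1`: local-to-global through well-placed subgroups (helper33, S1961);
* `C_S(O_p(H)) ≤ O_p(H)`: then `C_H(O_p(H)) ≤ O_p(H)` and the hypothesis applies;
* otherwise the Frattini argument with fusion for `C_H(O_p(H))` reduces to the proper subgroups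
  `N_H(C_S(O_p(H)))` and `S C_H(O_p(H))`, unless `H = S C_H(O_p(H))`;
* `H = S C_H(O_p(H))`: with `R` the preimage of `W(S / O_p(H))`, the normalizer `N_H(R)` is a
  proper subgroup that controls strong fusion in `S` (`sfW_of_sup_eq_top`).
-/

namespace Cfsg.Agent.Helper11

open Cfsg.Agent.Helper33

universe u

variable {p : ℕ} [Fact p.Prime] {W : ∀ (Q : Type u) [Group Q], Subgroup Q}

/-- `N_H(W(S))` controls strong fusion in `S`. -/
def SFW (W : ∀ (Q : Type u) [Group Q], Subgroup Q) {H : Type u} [Group H] (S : Subgroup H) :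
    Prop :=
  SFCtl (Subgroup.normalizer ((Cfsg.inducedFunctor W S : Subgroup H) : Set H)) S

/-- Transport of control from a subgroup `M` (as a group) to the ambient group. -/
theorem sfW_subgroup (hW : Cfsg.IsCharPFunctor.{u} p W) {H : Type u} [Group H] [Finite H]
    (M : Subgroup H) (T : Sylow p M) (h : SFW W (T : Subgroup M)) :
    ∀ (A : Set H) (g : H), g ∈ M → A ⊆ ((T : Subgroup M).map M.subtype : Subgroup H) →
      (∀ a ∈ A, g * a * g⁻¹ ∈ (T : Subgroup M).map M.subtype) →
      ∃ x ∈ M ⊓ Subgroup.normalizer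
          ((Cfsg.inducedFunctor W ((T : Subgroup M).map M.subtype) : Subgroup H) : Set H),
        ∀ a ∈ A, x * a * x⁻¹ = g * a * g⁻¹ := by
  intro A g hg hA hAg
  obtain ⟨x, hx, hxa⟩ := h (M.subtype ⁻¹' A) ⟨g, hg⟩ (by
      intro y hy
      obtain ⟨z, hz, hzy⟩ := hA hy
      have : z = y := Subtype.ext hzy
      rw [← this]
      exact hz) (by
      intro y hy
      obtain ⟨z, hz, hzy⟩ := hAg y.1 hy
      have : z = ⟨g, hg⟩ * y * ⟨g, hg⟩⁻¹ := Subtype.ext (by simpa using hzy)
      rw [← this]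
      exact hz)
  refine ⟨x.1, ⟨x.2, ?_⟩, ?_⟩
  · rw [inducedFunctor_map_subtype hW M (T : Subgroup M) T.2]
    exact Subgroup.le_normalizer_map _ ⟨x, hx, rfl⟩
  · intro a ha
    have haM : a ∈ M := by
      obtain ⟨y, -, rfl⟩ := hA ha
      exact y.2
    have := hxa ⟨a, haM⟩ ha
    exact congrArg Subtype.val this

/-- Control in a subgroup `M` containing the Sylow subgroup `S`. -/
theorem sfW_of_le (hW : Cfsg.IsCharPFunctor.{u} p W) {H : Type u} [Group H] [Finite H]
    (M : Subgroup H) (S : Sylow p H) (hSM : (S : Subgroup H) ≤ M)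
    (h : ∀ T : Sylow p M, SFW W (T : Subgroup M)) :
    ∀ (A : Set H) (g : H), g ∈ M → A ⊆ (S : Subgroup H) → (∀ a ∈ A, g * a * g⁻¹ ∈ (S : Subgroup H)) →
      ∃ x ∈ Subgroup.normalizer ((Cfsg.inducedFunctor W (S : Subgroup H) : Subgroup H) : Set H),
        ∀ a ∈ A, x * a * x⁻¹ = g * a * g⁻¹ := by
  have e : ((S.subtype hSM : Sylow p M) : Subgroup M).map M.subtype = S := by
    rw [Sylow.coe_subtype]
    exact Subgroup.map_subgroupOf_eq_of_le hSM
  have h1 := sfW_subgroup hW M (S.subtype hSM) (h _)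
  rw [e] at h1
  intro A g hg hA hAg
  obtain ⟨x, hx, hxa⟩ := h1 A g hg hA hAg
  exact ⟨x, hx.2, hxa⟩

/-- Control of strong fusion lifts from the quotient by a normal `p'`-subgroup. -/
theorem sfW_of_quotient (hW : Cfsg.IsCharPFunctor.{u} p W) {H : Type u} [Group H] [Finite H]
    (K : Subgroup H) [K.Normal] (hK : (Nat.card K).Coprime p) (S : Sylow p H)
    (h : SFW W ((S.mapSurjective (QuotientGroup.mk'_surjective K) : Sylow p (H ⧸ K)) :
      Subgroup (H ⧸ K))) : SFW W (S : Subgroup H) := by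
  have hKord : ∀ k ∈ K, (orderOf k).Coprime p := fun k hk => by
    have h := orderOf_dvd_natCard (⟨k, hk⟩ : K)
    rw [Subgroup.orderOf_mk] at h
    exact Nat.Coprime.coprime_dvd_left h hK
  have hSK : ∀ s ∈ (S : Subgroup H), s ∈ K → s = 1 := fun s hs hsK => by
    obtain ⟨a, ha⟩ := S.2 ⟨s, hs⟩
    exact eq_one_of_pow_of_coprime (congrArg Subtype.val ha) (hKord s hsK)
  have hπs : Function.Surjective (QuotientGroup.mk' K) := QuotientGroup.mk'_surjective K
  have hUp : IsPGroup p (Cfsg.inducedFunctor W (S : Subgroup H)) :=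
    S.2.to_le (inducedFunctor_le _)
  have hU' : Cfsg.inducedFunctor W
      ((S.mapSurjective hπs : Sylow p (H ⧸ K)) : Subgroup (H ⧸ K)) =
      (Cfsg.inducedFunctor W (S : Subgroup H)).map (QuotientGroup.mk' K) :=
    inducedFunctor_map hW (QuotientGroup.mk' K) (S : Subgroup H) S.2
      (fun s hs h1 => hSK s hs ((QuotientGroup.eq_one_iff s).mp h1))
  have hSM : (S : Subgroup H) ≤
      Subgroup.normalizer ((Cfsg.inducedFunctor W (S : Subgroup H) : Subgroup H) : Set H) :=
    Subgroup.le_normalizer.trans (normalizer_le_normalizer_inducedFunctor hW S.2)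
  apply sfCtl_of_subgroups
  intro A g hA hAg
  obtain ⟨xb, hxb, hxba⟩ := h ((QuotientGroup.mk' K) '' (A : Set H)) (QuotientGroup.mk' K g) (by
      rintro _ ⟨a, ha, rfl⟩
      exact ⟨a, hA ha, rfl⟩) (by
      rintro _ ⟨a, ha, rfl⟩
      exact ⟨g * a * g⁻¹, hAg (cj_mem_cj ha), by simp⟩)
  rw [hU'] at hxb
  obtain ⟨x₁, hx₁, rfl⟩ := normalizer_map_mk'_le K hK _ hUp hxb
  -- work inside `M = N_H(W(S))`
  have hAM : A ≤ Subgroup.normalizer
      ((Cfsg.inducedFunctor W (S : Subgroup H) : Subgroup H) : Set H) := hA.trans hSM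
  have hKM : (Nat.card (K.subgroupOf (Subgroup.normalizer
      ((Cfsg.inducedFunctor W (S : Subgroup H) : Subgroup H) : Set H)))).Coprime p := by
    have h1 : Nat.card (K.subgroupOf (Subgroup.normalizer
        ((Cfsg.inducedFunctor W (S : Subgroup H) : Subgroup H) : Set H))) ∣ Nat.card K := by
      rw [← Subgroup.card_map_of_injective (Subgroup.subtype_injective _),
        Subgroup.subgroupOf_map_subtype]
      exact Subgroup.card_dvd_of_le inf_le_left
    exact Nat.Coprime.coprime_dvd_left h1 hK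
  have hBp : IsPGroup p ((A.map (MulAut.conj g).toMonoidHom).subgroupOf (Subgroup.normalizer
      ((Cfsg.inducedFunctor W (S : Subgroup H) : Subgroup H) : Set H))) :=
    ((S.2.to_le hA).map _).comap_subtype
  have hB'p : IsPGroup p ((A.map (MulAut.conj x₁).toMonoidHom).subgroupOf (Subgroup.normalizer
      ((Cfsg.inducedFunctor W (S : Subgroup H) : Subgroup H) : Set H))) :=
    ((S.2.to_le hA).map _).comap_subtype
  have hpi : ∀ a ∈ A, QuotientGroup.mk' K (x₁ * a * x₁⁻¹) = QuotientGroup.mk' K (g * a * g⁻¹) := by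
    intro a ha
    have := hxba _ ⟨a, ha, rfl⟩
    simpa using this
  have hle : (A.map (MulAut.conj x₁).toMonoidHom).subgroupOf (Subgroup.normalizer
      ((Cfsg.inducedFunctor W (S : Subgroup H) : Subgroup H) : Set H)) ≤
      (A.map (MulAut.conj g).toMonoidHom).subgroupOf (Subgroup.normalizer
        ((Cfsg.inducedFunctor W (S : Subgroup H) : Subgroup H) : Set H)) ⊔
      K.subgroupOf (Subgroup.normalizer
        ((Cfsg.inducedFunctor W (S : Subgroup H) : Subgroup H) : Set H)) := by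
    intro y hy
    obtain ⟨a, ha, hay⟩ := Subgroup.mem_subgroupOf.mp hy
    have hbM : g * a * g⁻¹ ∈ Subgroup.normalizer
        ((Cfsg.inducedFunctor W (S : Subgroup H) : Subgroup H) : Set H) :=
      hSM (hAg (cj_mem_cj ha))
    have e : y = ⟨g * a * g⁻¹, hbM⟩ * (⟨g * a * g⁻¹, hbM⟩⁻¹ * y) := by group
    rw [e]
    apply Subgroup.mul_mem_sup
    · exact Subgroup.mem_subgroupOf.mpr (cj_mem_cj ha)
    · apply Subgroup.mem_subgroupOf.mpr
      have e2 : ((⟨g * a * g⁻¹, hbM⟩⁻¹ * y : Subgroup.normalizer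
          ((Cfsg.inducedFunctor W (S : Subgroup H) : Subgroup H) : Set H)) : H) =
          (g * a * g⁻¹)⁻¹ * (x₁ * a * x₁⁻¹) := by
        rw [Subgroup.coe_mul, Subgroup.coe_inv, ← hay]
        simp
      rw [e2]
      exact QuotientGroup.eq.mp (hpi a ha).symm
  obtain ⟨k, hk, hkB⟩ := sf_conj_adjust _ hKM _ _ hBp hB'p hle
  refine ⟨(k : H) * x₁, Subgroup.mul_mem _ k.2 hx₁, fun a ha => ?_⟩
  have hyM : x₁ * a * x₁⁻¹ ∈ Subgroup.normalizer
      ((Cfsg.inducedFunctor W (S : Subgroup H) : Subgroup H) : Set H) :=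
    Subgroup.mul_mem _ (Subgroup.mul_mem _ hx₁ (hAM ha)) (Subgroup.inv_mem _ hx₁)
  have h1 : k * ⟨x₁ * a * x₁⁻¹, hyM⟩ * k⁻¹ ∈
      (A.map (MulAut.conj g).toMonoidHom).subgroupOf (Subgroup.normalizer
        ((Cfsg.inducedFunctor W (S : Subgroup H) : Subgroup H) : Set H)) :=
    hkB (cj_mem_cj (Subgroup.mem_subgroupOf.mpr (cj_mem_cj ha)))
  have h2 : (k : H) * (x₁ * a * x₁⁻¹) * (k : H)⁻¹ ∈ (S : Subgroup H) := by
    have := Subgroup.mem_subgroupOf.mp h1
    exact hAg (by simpa using this)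
  have h3 : g * a * g⁻¹ ∈ (S : Subgroup H) := hAg (cj_mem_cj ha)
  have hkK : (k : H) ∈ K := Subgroup.mem_subgroupOf.mp hk
  have h4 : (g * a * g⁻¹)⁻¹ * ((k : H) * (x₁ * a * x₁⁻¹) * (k : H)⁻¹) ∈ K := by
    apply QuotientGroup.eq.mp
    show (QuotientGroup.mk' K) (g * a * g⁻¹) =
      (QuotientGroup.mk' K) ((k : H) * (x₁ * a * x₁⁻¹) * (k : H)⁻¹)
    have hk1 : (QuotientGroup.mk' K) (k : H) = 1 := (QuotientGroup.eq_one_iff (k : H)).mpr hkK
    have e3 : (QuotientGroup.mk' K) ((k : H) * (x₁ * a * x₁⁻¹) * (k : H)⁻¹) =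
        (QuotientGroup.mk' K) (x₁ * a * x₁⁻¹) := by
      rw [map_mul, map_mul, map_inv, hk1, one_mul, inv_one, mul_one]
    rw [e3]
    exact (hpi a ha).symm
  have h5 := hSK _ (Subgroup.mul_mem _ (Subgroup.inv_mem _ h3) h2) h4
  have h6 : (k : H) * (x₁ * a * x₁⁻¹) * (k : H)⁻¹ = g * a * g⁻¹ := by
    have := congrArg (fun t => g * a * g⁻¹ * t) h5
    simpa [mul_assoc] using this
  rw [← h6]
  group

/-- The case `H = S C_H(O_p(H))`: with `R` the preimage of `W(S / O_p(H))`, the proper subgroup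
`N_H(R)` controls strong fusion in `S`. -/
theorem sfW_of_sup_eq_top (hW : Cfsg.IsCharPFunctor.{u} p W) {H : Type u} [Group H] [Finite H]
    (S : Sylow p H)
    (hSC : (S : Subgroup H) ⊔ Subgroup.centralizer ((Cfsg.pCore p H : Subgroup H) : Set H) = ⊤)
    (hne : ¬ (S : Subgroup H) ≤ Cfsg.pCore p H)
    (hquot : ∀ T : Sylow p (H ⧸ Cfsg.pCore p H), SFW W (T : Subgroup (H ⧸ Cfsg.pCore p H)))
    (hsub : ∀ L : Subgroup H, L ≠ ⊤ → ∀ T : Sylow p L, SFW W (T : Subgroup L)) :
    SFW W (S : Subgroup H) := by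
  have hQp : IsPGroup p (Cfsg.pCore p H) := Cfsg.Agent.Helper48.isPGroup_pCore p H
  have hQS : Cfsg.pCore p H ≤ (S : Subgroup H) := pCore_le_sylow S
  have hπs : Function.Surjective (QuotientGroup.mk' (Cfsg.pCore p H)) :=
    QuotientGroup.mk'_surjective _
  have hSb : ((S.mapSurjective hπs : Sylow p (H ⧸ Cfsg.pCore p H)) :
      Subgroup (H ⧸ Cfsg.pCore p H)) = (S : Subgroup H).map (QuotientGroup.mk' (Cfsg.pCore p H)) :=
    rfl
  have hSbne : ((S.mapSurjective hπs : Sylow p (H ⧸ Cfsg.pCore p H)) :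
      Subgroup (H ⧸ Cfsg.pCore p H)) ≠ ⊥ := by
    intro hbot
    apply hne
    intro s hs
    have h1 : QuotientGroup.mk' (Cfsg.pCore p H) s ∈
        ((S.mapSurjective hπs : Sylow p (H ⧸ Cfsg.pCore p H)) :
          Subgroup (H ⧸ Cfsg.pCore p H)) := ⟨s, hs, rfl⟩
    rw [hbot, Subgroup.mem_bot] at h1
    exact (QuotientGroup.eq_one_iff s).mp h1
  have hWne := inducedFunctor_ne_bot hW (S.mapSurjective hπs).2 hSbne
  set Wb : Subgroup (H ⧸ Cfsg.pCore p H) := Cfsg.inducedFunctor W
    ((S.mapSurjective hπs : Sylow p (H ⧸ Cfsg.pCore p H)) : Subgroup (H ⧸ Cfsg.pCore p H))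
    with hWb
  have hWbS : Wb ≤ (S : Subgroup H).map (QuotientGroup.mk' (Cfsg.pCore p H)) := by
    rw [← hSb]
    exact inducedFunctor_le _
  set R : Subgroup H := Wb.comap (QuotientGroup.mk' (Cfsg.pCore p H)) with hR
  have hRS : R ≤ (S : Subgroup H) := by
    intro y hy
    obtain ⟨s, hs, hsy⟩ := hWbS (Subgroup.mem_comap.mp hy)
    have h1 : s⁻¹ * y ∈ Cfsg.pCore p H := QuotientGroup.eq.mp hsy
    have h2 := Subgroup.mul_mem _ hs (hQS h1)
    rwa [mul_inv_cancel_left] at h2
  have hNR : Subgroup.normalizer (R : Set H) =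
      (Subgroup.normalizer (Wb : Set (H ⧸ Cfsg.pCore p H))).comap
        (QuotientGroup.mk' (Cfsg.pCore p H)) :=
    (Subgroup.comap_normalizer_eq_of_surjective _ hπs).symm
  have hSNR : (S : Subgroup H) ≤ Subgroup.normalizer (R : Set H) := by
    intro s hs
    rw [hNR, Subgroup.mem_comap]
    apply normalizer_le_normalizer_inducedFunctor hW (S.mapSurjective hπs).2
    apply Subgroup.le_normalizer
    exact ⟨s, hs, rfl⟩
  have hNRne : Subgroup.normalizer (R : Set H) ≠ ⊤ := by
    intro htop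
    have hRn : R.Normal := Subgroup.normalizer_eq_top_iff.mp htop
    have hRQ : R ≤ Cfsg.pCore p H := Cfsg.Agent.Helper48.le_pCore hRn (S.2.to_le hRS)
    apply hWne
    rw [← Subgroup.map_comap_eq_self_of_surjective hπs Wb, ← hR, eq_bot_iff]
    rintro _ ⟨y, hy, rfl⟩
    rw [Subgroup.mem_bot]
    exact (QuotientGroup.eq_one_iff y).mpr (hRQ hy)
  -- `N_H(R)` controls strong fusion in `S`
  have hctl : SFCtl (Subgroup.normalizer (R : Set H)) (S : Subgroup H) := by
    intro A g hA hAg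
    have hAg' : conjSet g⁻¹ A ⊆ (S : Subgroup H) := by
      rintro _ ⟨a, ha, rfl⟩
      rw [inv_inv]
      exact hAg a ha
    obtain ⟨l, hl, hprod⟩ := alperin_tame S A g⁻¹ hA hAg'
    have hSt : ∀ T x, TameStep S T x →
        ∃ y ∈ Subgroup.normalizer (R : Set H), ∀ a ∈ T, y⁻¹ * a * y = x⁻¹ * a * x := by
      rintro T x ⟨Q', rfl, hxN, hidx, -⟩
      have hQT : Cfsg.pCore p H ≤ (S : Subgroup H) ⊓ (Q' : Subgroup H) :=
        le_inf hQS (pCore_le_sylow Q')
      have hxinv : x⁻¹ ∈ Subgroup.normalizer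
          ((((S : Subgroup H) ⊓ (Q' : Subgroup H) : Subgroup H)) : Set H) :=
        Subgroup.inv_mem _ hxN
      obtain ⟨nb, hnb, hnba⟩ := hquot (S.mapSurjective hπs)
        ((QuotientGroup.mk' (Cfsg.pCore p H)) ''
          ((((S : Subgroup H) ⊓ (Q' : Subgroup H) : Subgroup H)) : Set H))
        (QuotientGroup.mk' (Cfsg.pCore p H) x⁻¹) (by
          rintro _ ⟨a, ha, rfl⟩
          exact ⟨a, ha.1, rfl⟩) (by
          rintro _ ⟨a, ha, rfl⟩
          refine ⟨x⁻¹ * a * x⁻¹⁻¹, ?_, by simp⟩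
          exact ((Subgroup.mem_normalizer_iff.mp hxinv a).mp ha).1)
      obtain ⟨n, rfl⟩ := hπs nb
      have hnN : n ∈ Subgroup.normalizer (R : Set H) := by
        rw [hNR, Subgroup.mem_comap]
        exact hnb
      have hc : ∀ a ∈ (S : Subgroup H) ⊓ (Q' : Subgroup H),
          (x * n) * a * (x * n)⁻¹ * a⁻¹ ∈ Cfsg.pCore p H := by
        intro a ha
        have h1 := hnba _ ⟨a, ha, rfl⟩
        apply (QuotientGroup.eq_one_iff _).mp
        have e : ((x * n) * a * (x * n)⁻¹ * a⁻¹ : H) = x * (n * a * n⁻¹) * x⁻¹ * a⁻¹ := by group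
        rw [e]
        show (QuotientGroup.mk' (Cfsg.pCore p H)) (x * (n * a * n⁻¹) * x⁻¹ * a⁻¹) = 1
        have e2 : (QuotientGroup.mk' (Cfsg.pCore p H)) (n * a * n⁻¹) =
            (QuotientGroup.mk' (Cfsg.pCore p H)) x⁻¹ * (QuotientGroup.mk' (Cfsg.pCore p H)) a *
              ((QuotientGroup.mk' (Cfsg.pCore p H)) x⁻¹)⁻¹ := by
          rw [map_mul, map_mul, map_inv]
          exact h1
        rw [map_mul, map_mul, map_mul, e2]
        simp only [map_inv]
        group
      obtain ⟨v, hv, hvc⟩ := sf_mem_sylow_mul_centralizer S (Cfsg.pCore p H) hQp hSC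
        ((S : Subgroup H) ⊓ (Q' : Subgroup H)) hQT hidx (x * n) hc
      refine ⟨v * n⁻¹, Subgroup.mul_mem _ (hSNR hv.1) (Subgroup.inv_mem _ hnN), fun a ha => ?_⟩
      have ha' : v⁻¹ * a * v ∈ (S : Subgroup H) ⊓ (Q' : Subgroup H) := by
        have := (Subgroup.mem_normalizer_iff.mp (Subgroup.inv_mem _ hv.2) a).mp ha
        simpa using this
      have h2 := Subgroup.mem_centralizer_iff.mp hvc _ ha'
      -- h2 : (v⁻¹ a v) * (v⁻¹ * (x * n)) = (v⁻¹ * (x * n)) * (v⁻¹ a v)
      have h3 : a * x * n = x * n * (v⁻¹ * a * v) := by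
        calc a * x * n = v * (v⁻¹ * a * v * (v⁻¹ * (x * n))) := by group
          _ = v * (v⁻¹ * (x * n) * (v⁻¹ * a * v)) := by rw [h2]
          _ = x * n * (v⁻¹ * a * v) := by group
      calc (v * n⁻¹)⁻¹ * a * (v * n⁻¹) = n * (v⁻¹ * a * v) * n⁻¹ := by group
        _ = x⁻¹ * (x * n * (v⁻¹ * a * v)) * n⁻¹ := by group
        _ = x⁻¹ * (a * x * n) * n⁻¹ := by rw [h3]
        _ = x⁻¹ * a * x := by group
    obtain ⟨z, hz, hza⟩ := sf_gchain_ctl (Subgroup.normalizer (R : Set H)) hSt hl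
    refine ⟨z⁻¹, Subgroup.inv_mem _ hz, fun a ha => ?_⟩
    have := hza a ha
    rw [hprod, inv_inv] at this
    rw [inv_inv]
    exact this
  intro A g hA hAg
  obtain ⟨x, hx, hxa⟩ := hctl A g hA hAg
  obtain ⟨x', hx', hx'a⟩ := sfW_of_le hW (Subgroup.normalizer (R : Set H)) S hSNR
    (hsub _ hNRne) A x hx hA (fun a ha => by rw [hxa a ha]; exact hAg a ha)
  exact ⟨x', hx', fun a ha => (hx'a a ha).trans (hxa a ha)⟩

/-- The local hypothesis of the section theorem: `W(T)` is normal in `H` whenever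
`C_H(O_p(H)) ≤ O_p(H)`. -/
def SFNormLoc (W : ∀ (Q : Type u) [Group Q], Subgroup Q) (p : ℕ) (H : Type u) [Group H] : Prop :=
  Subgroup.centralizer ((Cfsg.pCore p H : Subgroup H) : Set H) ≤ Cfsg.pCore p H →
    ∀ T : Sylow p H, (Cfsg.inducedFunctor W (T : Subgroup H)).Normal

/-- Transport of `SFNormLoc` along an isomorphism. -/
theorem sfNormLoc_of_equiv (hW : Cfsg.IsCharPFunctor.{u} p W) {X H : Type u} [Group X] [Group H]
    [Finite X] (e : X ≃* H) (hX : SFNormLoc W p X) : SFNormLoc W p H := by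
  intro hcen T
  haveI : Finite H := Finite.of_equiv X e.toEquiv
  have hpc : (Cfsg.pCore p X).map (e : X →* H) = Cfsg.pCore p H :=
    Cfsg.Agent.Helper22.pCore_map_equiv p e
  have hcenX : Subgroup.centralizer ((Cfsg.pCore p X : Subgroup X) : Set X) ≤ Cfsg.pCore p X := by
    rw [← Subgroup.map_le_map_iff_of_injective (f := (e : X →* H)) e.injective,
      Cfsg.Agent.Helper22.map_centralizer_equiv, hpc]
    exact hcen
  have h1 := hX hcenX (sylowComapEquiv e T)
  have h2 := inducedFunctor_map_equiv hW e ((sylowComapEquiv e T : Sylow p X) : Subgroup X)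
    (sylowComapEquiv e T).2
  rw [coe_sylowComapEquiv,
    Subgroup.map_comap_eq_self_of_surjective (f := e.toMonoidHom) e.surjective] at h2
  rw [h2]
  exact h1.map e.toMonoidHom e.surjective

/-- **Glauberman's section theorem for control of strong fusion.** If `W(T)` is normal in every
section `H` of `G₀` with `C_H(O_p(H)) ≤ O_p(H)` (for every Sylow `p`-subgroup `T` of `H`), then
`N_H(W(S))` controls strong fusion in `S` for every section `H` of `G₀` and every Sylow
`p`-subgroup `S` of `H`. -/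
theorem sfW_sections {G₀ : Type u} [Group G₀] [Finite G₀] (hW : Cfsg.IsCharPFunctor.{u} p W)
    (hloc : ∀ (H : Type u) [Group H], IsSectionOf G₀ H → SFNormLoc W p H) :
    ∀ (n : ℕ) (H : Type u) [Group H], IsSectionOf G₀ H → Nat.card H = n →
      ∀ S : Sylow p H, SFW W (S : Subgroup H) := by
  intro n
  induction n using Nat.strong_induction_on with
  | _ n IH =>
    intro H _ hsec hn S
    haveI : Finite H := hsec.finite
    have ihsub : ∀ L : Subgroup H, L ≠ ⊤ → ∀ T : Sylow p L, SFW W (T : Subgroup L) :=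
      fun L hL T => IH (Nat.card L) (by rw [← hn]; exact card_subgroup_lt hL) L
        (hsec.subgroup L) rfl T
    have ihquot : ∀ (K : Subgroup H) [K.Normal], K ≠ ⊥ →
        ∀ T : Sylow p (H ⧸ K), SFW W (T : Subgroup (H ⧸ K)) :=
      fun K _ hK T => IH _ (by rw [← hn]; exact card_quotient_lt hK) _ (hsec.quotient K) rfl T
    by_cases hK : ∃ K : Subgroup H, K.Normal ∧ (Nat.card K).Coprime p ∧ K ≠ ⊥
    · obtain ⟨K, hKn, hKc, hKne⟩ := hK
      haveI := hKn
      exact sfW_of_quotient hW K hKc S (ihquot K hKne _)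
    have hK0 : ∀ K : Subgroup H, K.Normal → (Nat.card K).Coprime p → K = ⊥ := by
      intro K hKn hKc
      by_contra hne
      exact hK ⟨K, hKn, hKc, hne⟩
    by_cases hQ : Cfsg.pCore p H = ⊥
    · -- `O_p(H) = 1`: local-to-global through well-placed subgroups
      have hW' := isConjugacyFunctor_inducedFunctor hW H
      have hcsf : CSF (Cfsg.inducedFunctor (G := H) W) ⊤ (S : Subgroup H) := by
        apply controlsStrongFusionIn_top_of_wellPlaced S hW'
        intro T hT hwp
        have hNne : Subgroup.normalizer (T : Set H) ≠ ⊤ := by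
          intro htop
          have hTn : T.Normal := Subgroup.normalizer_eq_top_iff.mp htop
          have h1 := Cfsg.Agent.Helper48.le_pCore hTn (S.2.to_le hwp.1)
          rw [hQ] at h1
          exact hT (le_bot_iff.mp h1)
        obtain ⟨T₀⟩ : Nonempty (Sylow p (Subgroup.normalizer (T : Set H))) := inferInstance
        have h1 := sfW_subgroup hW _ T₀ (ihsub _ hNne T₀)
        refine ⟨(T₀ : Subgroup _).map (Subgroup.normalizer (T : Set H)).subtype,
          Subgroup.map_subtype_le _, T₀.2.map _, ?_, ?_⟩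
        · rw [relIndex_map_subtype]
          exact T₀.not_dvd_index
        · intro A h hh hA hAh
          exact h1 A h hh hA (fun a ha => hAh ⟨a, ha, rfl⟩)
      intro A g hA hAg
      obtain ⟨x, hx, hxa⟩ := hcsf A g (Subgroup.mem_top g) hA (by
        rintro _ ⟨a, ha, rfl⟩
        exact hAg a ha)
      exact ⟨x, hx.2, hxa⟩
    · by_cases hcen : Subgroup.centralizer ((Cfsg.pCore p H : Subgroup H) : Set H) ≤
          Cfsg.pCore p H
      · -- the hypothesis applies
        have hnorm := hloc H hsec hcen S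
        intro A g hA hAg
        refine ⟨g, ?_, fun a _ => rfl⟩
        rw [Subgroup.normalizer_eq_top_iff.mpr hnorm]
        trivial
      · have hSC : ¬ ((S : Subgroup H) ⊓
            Subgroup.centralizer ((Cfsg.pCore p H : Subgroup H) : Set H) ≤ Cfsg.pCore p H) :=
          fun h => hcen (sf_centralizer_le_of_sylow (Cfsg.pCore p H) S hK0 h)
        have hCn : (Subgroup.centralizer ((Cfsg.pCore p H : Subgroup H) : Set H)).Normal :=
          Subgroup.normal_centralizer
        have hM₁ne : Subgroup.normalizer ((((S : Subgroup H) ⊓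
            Subgroup.centralizer ((Cfsg.pCore p H : Subgroup H) : Set H) : Subgroup H)) : Set H) ≠
            ⊤ := by
          intro htop
          have hn' := Subgroup.normalizer_eq_top_iff.mp htop
          exact hSC (Cfsg.Agent.Helper48.le_pCore hn' S.2.to_inf_left)
        have hSM₁ : (S : Subgroup H) ≤ Subgroup.normalizer ((((S : Subgroup H) ⊓
            Subgroup.centralizer ((Cfsg.pCore p H : Subgroup H) : Set H) : Subgroup H)) : Set H) := by
          intro s hs
          apply mem_normalizer_of_cj_le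
          rintro _ ⟨y, hy, rfl⟩
          refine ⟨?_, ?_⟩
          · simp only [MulEquiv.coe_toMonoidHom, MulAut.conj_apply]
            exact Subgroup.mul_mem _ (Subgroup.mul_mem _ hs hy.1) (Subgroup.inv_mem _ hs)
          · simp only [MulEquiv.coe_toMonoidHom, MulAut.conj_apply]
            exact hCn.conj_mem y hy.2 s
        by_cases hM₂ : (S : Subgroup H) ⊔
            Subgroup.centralizer ((Cfsg.pCore p H : Subgroup H) : Set H) = ⊤
        · exact sfW_of_sup_eq_top hW S hM₂ (fun hle => hSC (inf_le_left.trans hle))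
            (ihquot _ hQ) ihsub
        · apply sfCtl_of_subgroups
          intro A g hA hAg
          obtain ⟨t, ht, n, hn', rfl, hAn⟩ := sf_frattini S
            (Subgroup.centralizer ((Cfsg.pCore p H : Subgroup H) : Set H)) A g hA hAg
          obtain ⟨x₁, hx₁, hx₁a⟩ := sfW_of_le hW _ S hSM₁ (ihsub _ hM₁ne) (A : Set H) n hn' hA
            (fun a ha => hAn (cj_mem_cj ha))
          obtain ⟨x₂, hx₂, hx₂a⟩ := sfW_of_le hW _ S le_sup_left (ihsub _ hM₂)
            ((A.map (MulAut.conj n).toMonoidHom : Subgroup H) : Set H) t (Subgroup.mem_sup_right ht) hAn (by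
              rintro _ ⟨a, ha, rfl⟩
              have h1 := hAg (cj_mem_cj ha)
              have e : t * (MulAut.conj n).toMonoidHom a * t⁻¹ = t * n * a * (t * n)⁻¹ := by
                simp only [MulEquiv.coe_toMonoidHom, MulAut.conj_apply]
                group
              rw [e]
              exact h1)
          refine ⟨x₂ * x₁, Subgroup.mul_mem _ hx₂ hx₁, fun a ha => ?_⟩
          have h1 := hx₁a a ha
          have h2 := hx₂a (n * a * n⁻¹) (cj_mem_cj ha)
          calc x₂ * x₁ * a * (x₂ * x₁)⁻¹ = x₂ * (x₁ * a * x₁⁻¹) * x₂⁻¹ := by group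
            _ = x₂ * (n * a * n⁻¹) * x₂⁻¹ := by rw [h1]
            _ = t * (n * a * n⁻¹) * t⁻¹ := h2
            _ = t * n * a * (t * n)⁻¹ := by group

/-- The section theorem in the form of statement S1969: if `W(T)` is normal in every concrete
section `K / R` of `G` with `C(O_p) ≤ O_p`, then `W(T)` controls strong fusion in every section. -/
theorem sf_controlsStrongFusion_sections {G : Type u} [Group G] [Finite G]
    (hW : Cfsg.IsCharPFunctor.{u} p W)
    (hloc : ∀ (K R : Subgroup G) [hR : (R.subgroupOf K).Normal],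
      Subgroup.centralizer ((Cfsg.pCore p (↥K ⧸ R.subgroupOf K) :
        Subgroup (↥K ⧸ R.subgroupOf K)) : Set (↥K ⧸ R.subgroupOf K)) ≤
        Cfsg.pCore p (↥K ⧸ R.subgroupOf K) →
      ∀ T : Sylow p (↥K ⧸ R.subgroupOf K),
        (Cfsg.inducedFunctor (G := (↥K ⧸ R.subgroupOf K)) W
          ((T : Subgroup (↥K ⧸ R.subgroupOf K)))).Normal) :
    ∀ (K R : Subgroup G) [hR : (R.subgroupOf K).Normal], ∀ T : Sylow p (↥K ⧸ R.subgroupOf K),
      Cfsg.ControlsStrongFusion p (Cfsg.inducedFunctor (G := (↥K ⧸ R.subgroupOf K)) W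
        ((T : Subgroup (↥K ⧸ R.subgroupOf K)))) := by
  have hloc' : ∀ (H : Type u) [Group H], IsSectionOf G H → SFNormLoc W p H := by
    intro H _ hsec
    obtain ⟨K, R, hR, ⟨e⟩⟩ := hsec.exists_equiv
    exact sfNormLoc_of_equiv hW e (hloc K R)
  intro K R hR T
  have h := sfW_sections hW hloc' _ _ (isSectionOf_quotient_subgroupOf K R) rfl T
  refine ⟨T, inducedFunctor_le _, fun A hA => ⟨hA, fun g hg => ?_⟩⟩
  obtain ⟨x, hx, hxa⟩ := h A g hA (fun a ha => hg ⟨a, ha, rfl⟩)
  exact ⟨x, hx, fun a ha => (hxa a ha).symm⟩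

end Cfsg.Agent.Helper11
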